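/-
S4021 (equal order subgroups conjugate). Basic definitions. See PLAN.md in this folder.
-/
import Mathlib
import Cfsg.Prelude.Def_CaseTheorems

set_option autoImplicit false
set_option linter.style.haveILetI false
set_option linter.unusedSectionVars false

namespace Cfsg.Agent.Lib.EqOrd.Defs

open Subgroup

universe u

/-- Any two subgroups of equal order are conjugate. -/
def Pp (G : Type u) [Group G] : Prop :=
  ∀ H K : Subgroup G, Nat.card H = Nat.card K → ∃ g : G, K = H.map (MulAut.conj g).toMonoidHom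

/-- The core hypotheses on `Y` (no `hW`). -/
structure Cls0 (Y : Type u) [Group Y] [Finite Y] (n : ℕ) : Prop where
  hn : 2 ≤ n
  hp : (2 ^ n - 1).Prime
  hcard : ∀ S : Sylow 2 Y, Nat.card S = 2 ^ n
  hel : ∀ S : Sylow 2 Y, ∀ a ∈ (S : Subgroup Y), a * a = 1
  hcomm : ∀ t u v : Y, orderOf t = 2 → orderOf u = 2 → orderOf v = 2 →
    u * t = t * u → v * t = t * v → u * v = v * u
  hcoinv : ∀ q : ℕ, q.Prime → q ≠ 2 → ∀ x y t s : Y, orderOf x = q → orderOf y = q →
    orderOf t = 2 → orderOf s = 2 → t * x = x * t → s * y * s⁻¹ = y⁻¹ → False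
  hab : ∀ (q : ℕ) [Fact q.Prime] (P : Sylow q Y), ∀ a ∈ (P : Subgroup Y),
    ∀ b ∈ (P : Subgroup Y), a * b = b * a
  hgen : closure {t : Y | orderOf t = 2} = ⊤
  hnn : Nontrivial (Sylow 2 Y)

/-- The normalizer and centralizer of a Sylow subgroup. -/
abbrev NN {Y : Type u} [Group Y] (S : Subgroup Y) : Subgroup Y := normalizer (S : Set Y)
abbrev CC {Y : Type u} [Group Y] (S : Subgroup Y) : Subgroup Y := centralizer (S : Set Y)

/-- The core hypotheses: `N(S)/C(S)` has prime order `2^n - 1`. -/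
structure Cls (Y : Type u) [Group Y] [Finite Y] (n : ℕ) : Prop extends Cls0 Y n where
  hW : ∀ S : Sylow 2 Y, Nat.card (NN (S : Subgroup Y)) = (2 ^ n - 1) * Nat.card (CC (S : Subgroup Y))

/-- The conclusion of the core theorem. -/
structure Concl (Y : Type u) [Group Y] [Finite Y] (n : ℕ) : Prop where
  card_syl : Nat.card (Sylow 2 Y) = 2 ^ n + 1
  cent : ∀ S : Sylow 2 Y, ∀ c ∈ CC (S : Subgroup Y), ∃ s ∈ (S : Subgroup Y), ∃ z ∈ center Y, c = s * z
  inv : ∀ q : ℕ, q.Prime → q ≠ 2 → q ∣ 2 ^ n + 1 →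
    ∃ x s : Y, orderOf x = q ∧ orderOf s = 2 ∧ s * x * s⁻¹ = x⁻¹

end Cfsg.Agent.Lib.EqOrd.Defs
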