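/-
S4021. [CA] Core, section A: the Sylow `2`-subgroups are TI, `N(S)` is strongly embedded. See PLAN.md.
-/
import Cfsg.Agent.Lib.EqOrd.Defs
import Cfsg.Agent.S1224
import Cfsg.Agent.S1225

set_option autoImplicit false
set_option linter.style.haveILetI false
set_option linter.unusedSectionVars false

namespace Cfsg.Agent.Lib.EqOrd.CA

open Subgroup Cfsg.Agent.Lib.EqOrd.Defs

universe u

variable {Y : Type u} [Group Y] [Finite Y] {n : ℕ} (h : Cls0 Y n)
include h

omit h in
theorem isP_zp {t : Y} (ht : orderOf t = 2) : IsPGroup 2 (zpowers t) := by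
  refine IsPGroup.of_card (n := 1) ?_
  rw [Nat.card_zpowers, ht, pow_one]

/-- Every involution normalizing `S` lies in `S`. -/
theorem mem_of_norm {S : Sylow 2 Y} {t : Y} (ht : orderOf t = 2) (hn : t ∈ NN (S : Subgroup Y)) :
    t ∈ (S : Subgroup Y) := by
  have hle : zpowers t ≤ normalizer ((S : Subgroup Y) : Set Y) := by
    rwa [zpowers_le]
  have hp : IsPGroup 2 ((S : Subgroup Y) ⊔ zpowers t : Subgroup Y) :=
    IsPGroup.to_sup_of_normal_left' S.isPGroup' (isP_zp ht) hle
  have h1 := S.is_maximal' hp le_sup_left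
  have h2 : t ∈ ((S : Subgroup Y) ⊔ zpowers t : Subgroup Y) :=
    (le_sup_right : zpowers t ≤ _) (mem_zpowers t)
  rwa [h1] at h2

omit h in
theorem conj_mem_smul (g a : Y) (S : Sylow 2 Y) (ha : a ∈ (S : Subgroup Y)) :
    g * a * g⁻¹ ∈ ((g • S : Sylow 2 Y) : Subgroup Y) := by
  rw [Sylow.smul_def, Sylow.pointwise_smul_def]
  exact Subgroup.smul_mem_pointwise_smul a (MulAut.conj g) _ ha

/-- An involution lies in a unique Sylow `2`-subgroup (`hcomm`: all involutions of `C(t)` commute). -/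
theorem syl_unique {S S' : Sylow 2 Y} {t : Y} (ht : orderOf t = 2) (hS : t ∈ (S : Subgroup Y))
    (hS' : t ∈ (S' : Subgroup Y)) : S = S' := by
  have hcom_of : ∀ {R : Sylow 2 Y} {a b : Y}, a ∈ (R : Subgroup Y) → b ∈ (R : Subgroup Y) →
      a * b = b * a := by
    intro R a b ha hb
    have h1 := h.hel R _ (R.1.mul_mem ha hb)
    have h2 := h.hel R a ha
    have h3 := h.hel R b hb
    have h4 : (a * b)⁻¹ = a * b := inv_eq_of_mul_eq_one_left h1
    rw [mul_inv_rev, inv_eq_of_mul_eq_one_left h2, inv_eq_of_mul_eq_one_left h3] at h4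
    exact h4.symm
  have hord : ∀ {R : Sylow 2 Y} {a : Y}, a ∈ (R : Subgroup Y) → a ≠ 1 → orderOf a = 2 := by
    intro R a ha hne
    exact orderOf_eq_prime (by rw [pow_two]; exact h.hel R a ha) hne
  have hc : ∀ a ∈ (S : Subgroup Y), ∀ b ∈ (S' : Subgroup Y), a * b = b * a := by
    intro a ha b hb
    by_cases ha1 : a = 1
    · simp [ha1]
    by_cases hb1 : b = 1
    · simp [hb1]
    exact h.hcomm t a b ht (hord ha ha1) (hord hb hb1) (hcom_of ha hS) (hcom_of hb hS')
  have hle : (S' : Subgroup Y) ≤ normalizer ((S : Subgroup Y) : Set Y) := by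
    intro b hb
    rw [mem_normalizer_iff]
    intro a
    constructor
    · intro ha
      have := hc a ha b hb
      have h5 : b * a * b⁻¹ = a := by rw [← this]; group
      rw [h5]; exact ha
    · intro ha
      have := hc _ ha b hb
      have h5 : b * a * b⁻¹ * b = b * (b * a * b⁻¹) := this
      have h6 : a = b * a * b⁻¹ := by
        have h7 : b * a = b * (b * a * b⁻¹) := by simpa using h5
        exact mul_left_cancel h7
      rw [h6]; exact ha
  have hp : IsPGroup 2 ((S : Subgroup Y) ⊔ (S' : Subgroup Y) : Subgroup Y) :=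
    IsPGroup.to_sup_of_normal_left' S.isPGroup' S'.isPGroup' hle
  have h1 := S.is_maximal' hp le_sup_left
  have h2 : (S' : Subgroup Y) ≤ (S : Subgroup Y) := by
    rw [← h1]; exact le_sup_right
  have h3 := S'.is_maximal' S.isPGroup' h2
  exact Sylow.ext h3

/-- `C(t) ≤ N(S)` for `t ∈ S`. -/
theorem cent_le {S : Sylow 2 Y} {t g : Y} (ht : orderOf t = 2) (hS : t ∈ (S : Subgroup Y))
    (hg : g * t = t * g) : g ∈ NN (S : Subgroup Y) := by
  have h1 : t ∈ ((g • S : Sylow 2 Y) : Subgroup Y) := by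
    have h0 := conj_mem_smul g t S hS
    have h5 : g * t * g⁻¹ = t := by rw [hg]; group
    rwa [h5] at h0
  have h2 := syl_unique h ht h1 hS
  exact Sylow.smul_eq_iff_mem_normalizer.mp h2

/-- An involution fixes exactly one Sylow `2`-subgroup. -/
theorem smul_eq_iff {S : Sylow 2 Y} {t : Y} (ht : orderOf t = 2) (hS : t ∈ (S : Subgroup Y))
    (R : Sylow 2 Y) : t • R = R ↔ R = S := by
  constructor
  · intro h1
    have h2 : t ∈ NN (R : Subgroup Y) := Sylow.smul_eq_iff_mem_normalizer.mp h1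
    exact syl_unique h ht (mem_of_norm h ht h2) hS
  · rintro rfl
    exact Sylow.smul_eq_iff_mem_normalizer.mpr (le_normalizer hS)

/-- Every involution lies in some Sylow. (Trivial, here for convenience.) -/
theorem exists_syl {t : Y} (ht : orderOf t = 2) : ∃ S : Sylow 2 Y, t ∈ (S : Subgroup Y) := by
  obtain ⟨S, hS⟩ := (isP_zp ht).exists_le_sylow
  exact ⟨S, hS (mem_zpowers t)⟩

/-- `N(S)` is strongly embedded. -/
theorem strongly (S : Sylow 2 Y) : Cfsg.IsStronglyEmbedded (NN (S : Subgroup Y)) := by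
  have := h.hn
  refine ⟨?_, ?_, ?_⟩
  · intro htop
    obtain ⟨R, R', hne⟩ := h.hnn
    have hall : ∀ R : Sylow 2 Y, R = S := by
      intro R
      obtain ⟨g, rfl⟩ := MulAction.exists_smul_eq Y S R
      refine Sylow.smul_eq_iff_mem_normalizer.mpr ?_
      have : g ∈ NN (S : Subgroup Y) := by rw [htop]; trivial
      exact this
    exact hne ((hall R).trans (hall R').symm)
  · have h1 : (S : Subgroup Y) ≤ NN (S : Subgroup Y) := le_normalizer
    have h2 : Nat.card S ∣ Nat.card (NN (S : Subgroup Y)) := Subgroup.card_dvd_of_le h1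
    rw [h.hcard S] at h2
    refine even_iff_two_dvd.mpr (dvd_trans ?_ h2)
    exact dvd_pow_self 2 (by omega)
  · intro g hg
    by_contra hodd
    rw [Nat.not_odd_iff_even] at hodd
    obtain ⟨⟨t, ht⟩, htord⟩ := exists_prime_orderOf_dvd_card' (G := ↥(NN (S : Subgroup Y) ⊓ (NN (S : Subgroup Y)).map (MulAut.conj g).toMonoidHom)) 2 (even_iff_two_dvd.mp hodd)
    have ht2 : orderOf t = 2 := by
      rw [← htord]; exact (Subgroup.orderOf_mk t ht).symm
    have hprime : Fact (Nat.Prime 2) := ⟨Nat.prime_two⟩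
    obtain ⟨ht1, ht3⟩ := ht
    obtain ⟨s, hs, hst⟩ := ht3
    have hst' : g * s * g⁻¹ = t := hst
    have hs2 : orderOf s = 2 := by
      rw [← ht2, ← hst]
      exact (MulEquiv.orderOf_eq (MulAut.conj g) s).symm
    have hsS := mem_of_norm h hs2 hs
    have htS := mem_of_norm h ht2 ht1
    have h1 : t ∈ ((g • S : Sylow 2 Y) : Subgroup Y) := by
      have h0 := conj_mem_smul g s S hsS
      rwa [hst'] at h0
    have h2 := syl_unique h ht2 h1 htS
    exact hg (Sylow.smul_eq_iff_mem_normalizer.mp h2)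

/-- `S1224` in terms of Sylow subgroups: each pair is swapped by `2^n - 1` involutions. -/
theorem card_swap {S S' : Sylow 2 Y} (hne : S ≠ S') :
    Nat.card {u : Y // orderOf u = 2 ∧ u • S = S'} = 2 ^ n - 1 := by
  classical
  have hst : Cfsg.IsStronglyEmbedded (NN (S : Subgroup Y)) := strongly h S
  obtain ⟨g, hg⟩ := MulAction.exists_smul_eq Y S S'
  have hgH : g ∉ NN (S : Subgroup Y) := by
    intro hm
    have h1 : g • S = S := Sylow.smul_eq_iff_mem_normalizer.2 hm
    exact hne (h1.symm.trans hg)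
  have hxy : (((1 : Y) : Y ⧸ NN (S : Subgroup Y))) ≠ ((g : Y) : Y ⧸ NN (S : Subgroup Y)) := by
    intro e
    apply hgH
    have := QuotientGroup.eq.1 e
    simpa using this
  have key := Cfsg.Agent.S1224.result (NN (S : Subgroup Y)) hst _ _ hxy
  have e1 : Nat.card {u : Y // orderOf u = 2 ∧ u • S = S'} =
      Nat.card {i : Y // orderOf i = 2 ∧ i • (((1 : Y) : Y ⧸ NN (S : Subgroup Y))) = ((g : Y) : Y ⧸ NN (S : Subgroup Y))} := by
    apply Nat.card_congr
    refine Equiv.subtypeEquivRight (fun u => ?_)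
    refine and_congr_right (fun _ => ?_)
    have hmem : ∀ x : Y, x ∈ NN (S : Subgroup Y) ↔ x • S = S := fun x => Sylow.smul_eq_iff_mem_normalizer.symm
    rw [MulAction.Quotient.smul_coe, smul_eq_mul, mul_one, QuotientGroup.eq, ← hg, hmem, mul_smul, inv_smul_eq_iff]
    exact ⟨fun e => e.symm, fun e => e.symm⟩
  rw [e1, key]
  have e2 : Nat.card {t : Y // orderOf t = 2 ∧ t ∈ NN (S : Subgroup Y)} =
      Nat.card ↥(((S : Subgroup Y) : Set Y) \ {1}) := by
    apply Nat.card_congr
    refine Equiv.subtypeEquivRight (fun t => ?_)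
    constructor
    · rintro ⟨h1, h2⟩
      refine ⟨mem_of_norm h h1 h2, ?_⟩
      rintro (e : t = 1)
      rw [e, orderOf_one] at h1
      omega
    · rintro ⟨h1, h2⟩
      have h3 : t ≠ 1 := h2
      refine ⟨orderOf_eq_prime (by rw [sq]; exact h.hel S t h1) h3, ?_⟩
      exact Subgroup.le_normalizer h1
  rw [e2, Nat.card_coe_set_eq, Set.ncard_sdiff_singleton_of_mem (by exact (S : Subgroup Y).one_mem), ← Nat.card_coe_set_eq]
  have := h.hcard S
  congr 1

/-- A swapper of `S, S'` exists. -/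
theorem exists_swap {S S' : Sylow 2 Y} (hne : S ≠ S') : ∃ u : Y, orderOf u = 2 ∧ u • S = S' := by
  have h1 := card_swap h hne
  have h2 : 0 < Nat.card {u : Y // orderOf u = 2 ∧ u • S = S'} := by
    rw [h1]
    have h3 := h.hn
    have h4 : 2 ^ 2 ≤ 2 ^ n := Nat.pow_le_pow_right (by norm_num) h3
    omega
  have h3 : Nonempty {u : Y // orderOf u = 2 ∧ u • S = S'} := (Nat.card_pos_iff.1 h2).1
  obtain ⟨⟨u, hu⟩⟩ := h3
  exact ⟨u, hu⟩

/-- A swapper really swaps. -/
theorem swap_back {S S' : Sylow 2 Y} {u : Y} (hu : orderOf u = 2) (hus : u • S = S') : u • S' = S := by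
  have h1 : u * u = 1 := by
    rw [← sq, ← hu, pow_orderOf_eq_one]
  rw [← hus, smul_smul, h1, one_smul]

/-- `S1225` in terms of Sylow subgroups: the two point stabilizer is transitive on the involutions of `S`. -/
theorem trans_D {S S' : Sylow 2 Y} (hne : S ≠ S') {s t : Y} (hs : orderOf s = 2)
    (hsS : s ∈ (S : Subgroup Y)) (ht : orderOf t = 2) (htS : t ∈ (S : Subgroup Y)) :
    ∃ d : Y, d • S = S ∧ d • S' = S' ∧ d * s * d⁻¹ = t := by
  obtain ⟨u, hu, hus⟩ := exists_swap h hne
  have huH : u ∉ NN (S : Subgroup Y) := by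
    intro hm
    have h1 : u • S = S := Sylow.smul_eq_iff_mem_normalizer.2 hm
    exact hne (h1.symm.trans hus)
  obtain ⟨⟨d, hd, hdt⟩, -⟩ := Cfsg.Agent.S1225.result (NN (S : Subgroup Y)) (strongly h S) u hu huH s t hs
    (Subgroup.le_normalizer hsS) ht (Subgroup.le_normalizer htS)
  refine ⟨d, Sylow.smul_eq_iff_mem_normalizer.2 hd.1, ?_, hdt⟩
  obtain ⟨x, hx, hxd⟩ := hd.2
  have hxS : x • S = S := Sylow.smul_eq_iff_mem_normalizer.2 hx
  have hd' : d = u * x * u⁻¹ := by
    rw [← hxd]; rfl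
  rw [← hus, hd', mul_smul, mul_smul, inv_smul_smul, hxS]

/-- All involutions are conjugate. -/
theorem conj_inv {s t : Y} (hs : orderOf s = 2) (ht : orderOf t = 2) : IsConj s t := by
  obtain ⟨S⟩ : Nonempty (Sylow 2 Y) := inferInstance
  obtain ⟨S', hS'⟩ : ∃ S' : Sylow 2 Y, S' ≠ S := by
    haveI := h.hnn
    exact exists_ne S
  obtain ⟨u, hu, hus⟩ := exists_swap h hS'.symm
  have huH : u ∉ NN (S : Subgroup Y) := by
    intro hm
    have h1 : u • S = S := Sylow.smul_eq_iff_mem_normalizer.2 hm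
    exact hS' (hus.symm.trans h1)
  have hone : Even (Nat.card (NN (S : Subgroup Y))) := (strongly h S).2.1
  obtain ⟨x, hx⟩ : ∃ x : Y, x ∈ (S : Subgroup Y) ∧ x ≠ 1 := by
    have h1 : 1 < Nat.card ((S : Subgroup Y)) := by
      have h2 := h.hcard S
      have h3 := h.hn
      have h4 : 2 ^ 2 ≤ 2 ^ n := Nat.pow_le_pow_right (by norm_num) h3
      have h5 : Nat.card ((S : Subgroup Y)) = 2 ^ n := h2
      omega
    have h2 : Nontrivial ((S : Subgroup Y)) := (Finite.one_lt_card_iff_nontrivial).1 h1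
    obtain ⟨⟨x, hx⟩, hx1⟩ := exists_ne (1 : ((S : Subgroup Y)))
    exact ⟨x, hx, fun e => hx1 (Subtype.ext e)⟩
  have hxo : orderOf x = 2 := orderOf_eq_prime (by rw [sq]; exact h.hel S x hx.1) hx.2
  exact (Cfsg.Agent.S1225.result (NN (S : Subgroup Y)) (strongly h S) u hu huH x x hxo
    (Subgroup.le_normalizer hx.1) hxo (Subgroup.le_normalizer hx.1)).2 s t hs ht

/-- For `S ≠ S'`, `t ∈ S`, `v ∈ S'` involutions, `t * v` has odd order. -/
theorem odd_mul {S S' : Sylow 2 Y} (hne : S ≠ S') {t v : Y} (ht : orderOf t = 2)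
    (htS : t ∈ (S : Subgroup Y)) (hv : orderOf v = 2) (hvS : v ∈ (S' : Subgroup Y)) :
    Odd (orderOf (t * v)) := by
  by_contra hodd
  have heven : Even (orderOf (t * v)) := Nat.not_odd_iff_even.1 hodd
  obtain ⟨k, hk⟩ := heven
  have hk2 : orderOf (t * v) = 2 * k := by omega
  have ho : 0 < orderOf (t * v) := orderOf_pos _
  have hk0 : 0 < k := by omega
  set w := (t * v) ^ k with hw
  have hwo : orderOf w = 2 := by
    have := orderOf_pow_orderOf_div (x := t * v) (n := 2) ho.ne' ⟨k, hk2⟩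
    have e : orderOf (t * v) / 2 = k := by omega
    rw [e] at this
    exact this
  have htt : t * t = 1 := by rw [← sq, ← ht, pow_orderOf_eq_one]
  have hvv : v * v = 1 := by rw [← sq, ← hv, pow_orderOf_eq_one]
  have hwinv : w⁻¹ = w := by
    have h1 : w * w = 1 := by rw [← sq, ← hwo, pow_orderOf_eq_one]
    exact inv_eq_of_mul_eq_one_left h1
  have hinvtv : (t * v)⁻¹ = v * t := by
    rw [mul_inv_rev, inv_eq_of_mul_eq_one_left hvv, inv_eq_of_mul_eq_one_left htt]
  have hct : w * t = t * w := by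
    have h1 : t * (t * v) * t⁻¹ = (t * v)⁻¹ := by
      rw [hinvtv, inv_eq_of_mul_eq_one_left htt, ← mul_assoc, htt, one_mul]
    have h2 : t * w * t⁻¹ = w⁻¹ := by
      rw [hw, ← conj_pow, h1, inv_pow]
    rw [hwinv] at h2
    calc w * t = (t * w * t⁻¹) * t := by rw [h2]
      _ = t * w := by group
  have hcv : w * v = v * w := by
    have h1 : v * (t * v) * v⁻¹ = (t * v)⁻¹ := by
      rw [hinvtv, inv_eq_of_mul_eq_one_left hvv, mul_assoc, mul_assoc, hvv, mul_one]
    have h2 : v * w * v⁻¹ = w⁻¹ := by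
      rw [hw, ← conj_pow, h1, inv_pow]
    rw [hwinv] at h2
    calc w * v = (v * w * v⁻¹) * v := by rw [h2]
      _ = v * w := by group
  have hwS : w ∈ (S : Subgroup Y) := mem_of_norm h hwo (cent_le h ht htS hct)
  have hwS' : w ∈ (S' : Subgroup Y) := mem_of_norm h hwo (cent_le h hv hvS hcv)
  exact hne (syl_unique h hwo hwS hwS')

/-- A group of `2`-power order inside `Y` of order `2^n` is a Sylow subgroup. -/
theorem exists_other (S : Sylow 2 Y) : ∃ S' : Sylow 2 Y, S' ≠ S := by
  haveI := h.hnn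
  exact exists_ne S

/-- `N(S)` does not centralize `S`: (for `hW` in the setup). -/
theorem exists_moved (S : Sylow 2 Y) : ∃ d ∈ NN (S : Subgroup Y), d ∉ CC (S : Subgroup Y) := by
  obtain ⟨S', hS'⟩ := exists_other h S
  have hcard : Nat.card ((S : Subgroup Y)) = 2 ^ n := h.hcard S
  have h4 : 2 ^ 2 ≤ 2 ^ n := Nat.pow_le_pow_right (by norm_num) h.hn
  -- two distinct nonidentity elements of `S`
  obtain ⟨a, ha, ha1, b, hb, hb1, hab⟩ : ∃ a ∈ (S : Subgroup Y), a ≠ 1 ∧ ∃ b ∈ (S : Subgroup Y), b ≠ 1 ∧ a ≠ b := by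
    by_contra hcon
    push Not at hcon
    have hle : ((S : Subgroup Y) : Set Y).ncard ≤ 2 := by
      by_cases hex : ∃ a ∈ (S : Subgroup Y), a ≠ 1
      · obtain ⟨a, ha, ha1⟩ := hex
        have hsub : ((S : Subgroup Y) : Set Y) ⊆ {1, a} := by
          intro x hx
          by_cases hx1 : x = 1
          · exact Or.inl hx1
          · exact Or.inr (hcon a ha ha1 x hx hx1).symm
        exact (Set.ncard_le_ncard hsub (Set.toFinite _)).trans ((Set.ncard_insert_le 1 {a}).trans (by simp))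
      · push Not at hex
        have hsub : ((S : Subgroup Y) : Set Y) ⊆ {1} := fun x hx => hex x hx
        exact (Set.ncard_le_ncard hsub (Set.toFinite _)).trans (by simp)
    rw [← Nat.card_coe_set_eq] at hle
    have : Nat.card ↥((S : Subgroup Y) : Set Y) = 2 ^ n := hcard
    omega
  have hao : orderOf a = 2 := orderOf_eq_prime (by rw [sq]; exact h.hel S a ha) ha1
  have hbo : orderOf b = 2 := orderOf_eq_prime (by rw [sq]; exact h.hel S b hb) hb1
  obtain ⟨d, hd1, -, hd⟩ := trans_D h hS'.symm hao ha hbo hb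
  refine ⟨d, Sylow.smul_eq_iff_mem_normalizer.1 hd1, ?_⟩
  intro hc
  have h1 : d * a = a * d := (Subgroup.mem_centralizer_iff.1 hc a ha).symm
  apply hab
  rw [← hd, h1]
  simp

end Cfsg.Agent.Lib.EqOrd.CA
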