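/-
S4021. [CB1,CB2,CB3] Core, section B: structure of the two point stabilizer, two transitivity.
See PLAN.md.
-/
import Cfsg.Agent.Lib.EqOrd.CA

set_option autoImplicit false
set_option linter.style.haveILetI false
set_option linter.unusedSectionVars false

namespace Cfsg.Agent.Lib.EqOrd.CB

open Subgroup Cfsg.Agent.Lib.EqOrd.Defs Cfsg.Agent.Lib.EqOrd.CA

universe u

variable {Y : Type u} [Group Y] [Finite Y] {n : ℕ}

/-- Two point stabilizer. -/
def DD (S S' : Sylow 2 Y) : Subgroup Y := NN (S : Subgroup Y) ⊓ NN (S' : Subgroup Y)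

/-- Its subgroup centralizing `S`. -/
def D0 (S S' : Sylow 2 Y) : Subgroup Y := DD S S' ⊓ CC (S : Subgroup Y)

/-- The kernel of the action on the Sylow `2`-subgroups. -/
def KK (Y : Type u) [Group Y] : Subgroup Y := ⨅ S : Sylow 2 Y, NN (S : Subgroup Y)

/-- `g ∈ N(S)` iff `g` fixes `S`. -/
theorem mem_NN {S : Sylow 2 Y} {g : Y} : g ∈ NN (S : Subgroup Y) ↔ g • S = S :=
  Sylow.smul_eq_iff_mem_normalizer.symm

theorem mem_DD {S S' : Sylow 2 Y} {g : Y} : g ∈ DD S S' ↔ g • S = S ∧ g • S' = S' := by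
  rw [DD, Subgroup.mem_inf, mem_NN, mem_NN]

variable (h : Cls Y n)
include h

/-- [CB1] The two point stabilizer has odd order. -/
theorem odd_DD {S S' : Sylow 2 Y} (hne : S ≠ S') : Odd (Nat.card (DD S S')) := by
  by_contra hodd
  rw [Nat.not_odd_iff_even] at hodd
  haveI : Fact (Nat.Prime 2) := ⟨Nat.prime_two⟩
  obtain ⟨t, ht⟩ := exists_prime_orderOf_dvd_card' 2 hodd.two_dvd
  have ht' : orderOf (t : Y) = 2 := by rw [Subgroup.orderOf_coe]; exact ht
  obtain ⟨T, hT⟩ := CA.exists_syl h.toCls0 ht'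
  have h1 := (CA.smul_eq_iff h.toCls0 ht' hT S).1 (mem_DD.1 t.2).1
  have h2 := (CA.smul_eq_iff h.toCls0 ht' hT S').1 (mem_DD.1 t.2).2
  exact hne (h1.trans h2.symm)

theorem r_facts : 3 ≤ 2 ^ n - 1 ∧ 2 ^ n - 1 ≠ 2 := by
  have h2 := h.hn
  have h4 : 2 ^ 2 ≤ 2 ^ n := Nat.pow_le_pow_right (by norm_num) h2
  have hd : 2 ∣ 2 ^ n := dvd_pow_self 2 (by omega)
  omega

theorem swap_mul_mem {S S' : Sylow 2 Y} {u v : Y} (hu : orderOf u = 2) (hus : u • S = S')
    (hv : orderOf v = 2) (hvs : v • S = S') : u * v ∈ DD S S' := by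
  have hu' := CA.swap_back h.toCls0 hu hus
  have hv' := CA.swap_back h.toCls0 hv hvs
  rw [mem_DD]
  constructor
  · rw [mul_smul, hvs, hu']
  · rw [mul_smul, hv', hus]

omit h in
theorem inv_eq_self_of_two {u : Y} (hu : orderOf u = 2) : u⁻¹ = u := by
  have := pow_orderOf_eq_one u
  rw [hu, pow_two] at this
  exact inv_eq_of_mul_eq_one_left this

omit h in
theorem conj_swap {S S' : Sylow 2 Y} {y v : Y} (hy : y ∈ DD S S') (hv : orderOf v = 2)
    (hvs : v • S = S') : orderOf (y * v * y⁻¹) = 2 ∧ (y * v * y⁻¹) • S = S' := by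
  obtain ⟨h1, h2⟩ := mem_DD.1 hy
  constructor
  · rw [← MulAut.conj_apply, MulEquiv.orderOf_eq, hv]
  · rw [mul_smul, mul_smul, inv_smul_eq_iff.2 h1.symm, hvs, h2]

theorem odd_of_mem_DD {S S' : Sylow 2 Y} (hne : S ≠ S') {x : Y} (hx : x ∈ DD S S') :
    Odd (orderOf x) :=
  Odd.of_dvd_nat (odd_DD h hne) (Subgroup.orderOf_dvd_natCard _ hx)

/-- An odd order nontrivial element cannot both commute with an involution and be inverted by one. -/
theorem no_comm_inv {w t s : Y} (hodd : Odd (orderOf w)) (hw1 : w ≠ 1) (ht : orderOf t = 2)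
    (hs : orderOf s = 2) (htw : t * w = w * t) (hsw : s * w * s⁻¹ = w⁻¹) : False := by
  have ho : orderOf w ≠ 1 := by rwa [Ne, orderOf_eq_one_iff]
  obtain ⟨q, hq, hqd⟩ := Nat.exists_prime_and_dvd ho
  have hq2 : q ≠ 2 := by
    rintro rfl
    exact (Nat.not_even_iff_odd.2 hodd) (even_iff_two_dvd.2 hqd)
  have hy : orderOf (w ^ (orderOf w / q)) = q :=
    orderOf_pow_orderOf_div (Nat.pos_of_ne_zero (fun h0 => by simp [h0] at hodd)).ne' hqd
  refine h.hcoinv q hq hq2 _ _ t s hy hy ht hs ?_ ?_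
  · exact (Commute.pow_right htw _)
  · rw [← conj_pow, hsw, inv_pow]

/-- [CB1] An element of order `r = 2^n - 1` inverted by a swapper (`u`-invariant Sylow `r`-subgroup of
`DD`: `r ∣ |DD : C_DD(u)| = number of swappers` so `u` acts nontrivially on it; `z⁻¹ * (u * z * u⁻¹)` is
inverted). -/
theorem exists_inverted {S S' : Sylow 2 Y} (hne : S ≠ S') {u : Y} (hu : orderOf u = 2) (hus : u • S = S') :
    ∃ x ∈ DD S S', orderOf x = 2 ^ n - 1 ∧ u * x * u⁻¹ = x⁻¹ := by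
  classical
  obtain ⟨hr3, hr2⟩ := r_facts h
  have hcard := CA.card_swap h.toCls0 hne
  have hnt : Nontrivial {v : Y // orderOf v = 2 ∧ v • S = S'} := by
    rw [← Finite.one_lt_card_iff_nontrivial, hcard]; omega
  obtain ⟨⟨v, hv, hvs⟩, hvne⟩ := exists_ne (⟨u, hu, hus⟩ : {v : Y // orderOf v = 2 ∧ v • S = S'})
  have huv : v ≠ u := fun e => hvne (Subtype.ext e)
  have hwD : u * v ∈ DD S S' := swap_mul_mem h hu hus hv hvs
  have hw1 : u * v ≠ 1 := by
    intro e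
    apply huv
    have := eq_inv_of_mul_eq_one_right e
    rw [this, inv_eq_self_of_two hu]
  have hwodd := odd_of_mem_DD h hne hwD
  have huu : u * u = 1 := by have := pow_orderOf_eq_one u; rwa [hu, pow_two] at this
  have hinv : u * (u * v) * u⁻¹ = (u * v)⁻¹ := by
    rw [mul_inv_rev, inv_eq_self_of_two hv, ← mul_assoc, huu, one_mul]
  have ho : orderOf (u * v) ≠ 1 := by rwa [Ne, orderOf_eq_one_iff]
  obtain ⟨q, hq, hqd⟩ := Nat.exists_prime_and_dvd ho
  have hq2 : q ≠ 2 := by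
    rintro rfl
    exact (Nat.not_even_iff_odd.2 hwodd) (even_iff_two_dvd.2 hqd)
  have hy : orderOf ((u * v) ^ (orderOf (u * v) / q)) = q :=
    orderOf_pow_orderOf_div (Nat.pos_of_ne_zero (fun h0 => by simp [h0] at hwodd)).ne' hqd
  set y := (u * v) ^ (orderOf (u * v) / q) with hydef
  have hyD : y ∈ DD S S' := Subgroup.pow_mem _ hwD _
  have hyinv : u * y * u⁻¹ = y⁻¹ := by rw [hydef, ← conj_pow, hinv, inv_pow]
  have hyodd : Odd (orderOf y) := odd_of_mem_DD h hne hyD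
  have hy1 : y ≠ 1 := by
    intro e
    rw [e, orderOf_one] at hy
    exact hq.one_lt.ne hy
  haveI : Fact q.Prime := ⟨hq⟩
  let f : Function.End {v : Y // orderOf v = 2 ∧ v • S = S'} := fun w =>
    ⟨y * w.1 * y⁻¹, conj_swap hyD w.2.1 w.2.2⟩
  have hfpow : ∀ (k : ℕ) (w : {v : Y // orderOf v = 2 ∧ v • S = S'}),
      ((f ^ k) w).1 = y ^ k * w.1 * (y ^ k)⁻¹ := by
    intro k
    induction k with
    | zero => intro w; simp only [pow_zero, inv_one, one_mul, mul_one]; rfl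
    | succ k ih =>
      intro w
      rw [pow_succ, Function.End.mul_def]
      change ((f ^ k) (f w)).1 = _
      rw [ih]
      change y ^ k * (y * w.1 * y⁻¹) * (y ^ k)⁻¹ = _
      group
  have hfq : f ^ q ^ 1 = 1 := by
    funext w
    apply Subtype.ext
    have hq1 : y ^ q = 1 := by
      conv_lhs => rw [← hy]
      exact pow_orderOf_eq_one y
    rw [pow_one, hfpow, hq1]
    simp only [inv_one, one_mul, mul_one]
    rfl
  haveI := Fintype.ofFinite {v : Y // orderOf v = 2 ∧ v • S = S'}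
  have hmod := Equiv.Perm.card_fixedPoints_modEq hfq
  have hemp : IsEmpty (Function.fixedPoints f) := by
    constructor
    rintro ⟨w, hw⟩
    have hw' : y * w.1 * y⁻¹ = w.1 := congrArg Subtype.val hw
    refine no_comm_inv h hyodd hy1 w.2.1 hu ?_ hyinv
    exact (mul_inv_eq_iff_eq_mul.1 hw').symm
  have hcard0 : Fintype.card (Function.fixedPoints f) = 0 := Fintype.card_eq_zero
  rw [hcard0, ← Nat.card_eq_fintype_card, hcard] at hmod
  have hdvd : q ∣ 2 ^ n - 1 := (Nat.modEq_zero_iff_dvd.1 hmod)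
  have hqr : q = 2 ^ n - 1 := (Nat.prime_dvd_prime_iff_eq hq h.hp).1 hdvd
  exact ⟨y, hyD, hy.trans hqr, hyinv⟩

/-- [CB1] No element of order `r` commutes with an involution. -/
theorem no_r_comm {x t : Y} (hx : orderOf x = 2 ^ n - 1) (ht : orderOf t = 2) (htx : t * x = x * t) :
    False := by
  haveI := h.hnn
  obtain ⟨S, S', hne⟩ := exists_pair_ne (Sylow 2 Y)
  obtain ⟨u, hu, hus⟩ := CA.exists_swap h.toCls0 hne
  obtain ⟨y, -, hy, hinv⟩ := exists_inverted h hne hu hus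
  exact h.hcoinv _ h.hp (r_facts h).2 x y t u hx hy ht hu htx hinv

theorem exists_inv_mem (S : Sylow 2 Y) : ∃ t ∈ (S : Subgroup Y), orderOf t = 2 := by
  haveI : Fact (Nat.Prime 2) := ⟨Nat.prime_two⟩
  have hc := h.hcard S
  have h2 : 2 ∣ Nat.card S := by
    rw [hc]
    exact dvd_pow_self 2 (by have := h.hn; omega)
  obtain ⟨t, ht⟩ := exists_prime_orderOf_dvd_card' 2 h2
  exact ⟨t, t.2, by rw [Subgroup.orderOf_coe]; exact ht⟩

/-- [CB1] `r` does not divide `|C(S)|`. -/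
theorem not_dvd_CC (S : Sylow 2 Y) : ¬ (2 ^ n - 1) ∣ Nat.card (CC (S : Subgroup Y)) := by
  intro hd
  haveI : Fact (2 ^ n - 1).Prime := ⟨h.hp⟩
  obtain ⟨c, hc⟩ := exists_prime_orderOf_dvd_card' (2 ^ n - 1) hd
  obtain ⟨t, htS, ht⟩ := exists_inv_mem h S
  refine no_r_comm h (x := c) (t := t) (by rw [Subgroup.orderOf_coe]; exact hc) ht ?_
  exact Subgroup.mem_centralizer_iff.1 c.2 t htS

theorem card_range_phi (S : Sylow 2 Y) :
    Nat.card ((S : Subgroup Y).normalizerMonoidHom).range = 2 ^ n - 1 := by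
  have h1 := Subgroup.index_ker (S : Subgroup Y).normalizerMonoidHom
  have h2 : Nat.card (S : Subgroup Y).normalizerMonoidHom.ker = Nat.card (CC (S : Subgroup Y)) := by
    rw [Subgroup.normalizerMonoidHom_ker]
    exact Nat.card_congr (Subgroup.subgroupOfEquivOfLe
      (Subgroup.centralizer_le_normalizer (S : Set Y))).toEquiv
  have h3 := Subgroup.card_mul_index (S : Subgroup Y).normalizerMonoidHom.ker
  have h4 := h.hW S
  rw [h2, h1] at h3
  have h5 : Nat.card (CC (S : Subgroup Y)) ≠ 0 := Nat.card_pos.ne'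
  apply Nat.eq_of_mul_eq_mul_left (Nat.pos_of_ne_zero h5)
  rw [h3]
  rw [mul_comm (Nat.card (CC (S : Subgroup Y)))]
  exact h4

omit h in
theorem phi_eq_one_iff {S : Sylow 2 Y} {x : Y} (hx : x ∈ NN (S : Subgroup Y)) :
    (S : Subgroup Y).normalizerMonoidHom ⟨x, hx⟩ = 1 ↔ x ∈ CC (S : Subgroup Y) := by
  rw [← MonoidHom.mem_ker, Subgroup.normalizerMonoidHom_ker, Subgroup.mem_subgroupOf]

theorem coprime_mem_CC {S : Sylow 2 Y} {x : Y} (hx : x ∈ NN (S : Subgroup Y))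
    (hc : (orderOf x).Coprime (2 ^ n - 1)) : x ∈ CC (S : Subgroup Y) := by
  rw [← phi_eq_one_iff hx]
  set g := (S : Subgroup Y).normalizerMonoidHom ⟨x, hx⟩ with hg
  have h1 : orderOf g ∣ orderOf x := by
    have := orderOf_map_dvd (S : Subgroup Y).normalizerMonoidHom (⟨x, hx⟩ : NN (S : Subgroup Y))
    rwa [Subgroup.orderOf_mk] at this
  have h2 : orderOf g ∣ 2 ^ n - 1 := by
    have hmem : g ∈ ((S : Subgroup Y).normalizerMonoidHom).range := ⟨_, rfl⟩
    have := Subgroup.orderOf_dvd_natCard _ hmem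
    rwa [card_range_phi h S] at this
  have h3 : orderOf g = 1 := Nat.eq_one_of_dvd_coprimes hc h1 h2
  exact orderOf_eq_one_iff.1 h3

omit h in
theorem mem_D0 {S S' : Sylow 2 Y} {g : Y} : g ∈ D0 S S' ↔ g ∈ DD S S' ∧ g ∈ CC (S : Subgroup Y) :=
  Iff.rfl

omit h in
theorem mem_DD' {S S' : Sylow 2 Y} {g : Y} :
    g ∈ DD S S' ↔ g ∈ NN (S : Subgroup Y) ∧ g ∈ NN (S' : Subgroup Y) :=
  Iff.rfl

theorem coprime_of_mem_CC {S : Sylow 2 Y} {d : Y} (hd : d ∈ CC (S : Subgroup Y)) :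
    (orderOf d).Coprime (2 ^ n - 1) := by
  apply Nat.Coprime.symm
  rw [Nat.Prime.coprime_iff_not_dvd h.hp]
  intro hdvd
  exact not_dvd_CC h S (hdvd.trans (Subgroup.orderOf_dvd_natCard _ hd))

theorem D0_le {S S' : Sylow 2 Y} : D0 S S' ≤ D0 S' S := by
  intro d hd
  obtain ⟨hdD, hdC⟩ := mem_D0.1 hd
  obtain ⟨h1, h2⟩ := mem_DD'.1 hdD
  exact mem_D0.2 ⟨mem_DD'.2 ⟨h2, h1⟩, coprime_mem_CC h h2 (coprime_of_mem_CC h hdC)⟩

/-- [CB1] `D0 S S' = D0 S' S`: both are normal of index `r` in `DD`, of order prime to `r`. -/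
theorem D0_symm {S S' : Sylow 2 Y} (hne : S ≠ S') : D0 S S' = D0 S' S :=
  le_antisymm (D0_le h) (D0_le h)

omit h in
theorem conj_mem_smul {S : Sylow 2 Y} {u t : Y} (ht : t ∈ (S : Subgroup Y)) :
    u * t * u⁻¹ ∈ ((u • S : Sylow 2 Y) : Subgroup Y) := by
  rw [Sylow.coe_subgroup_smul]
  exact Subgroup.mem_pointwise_smul_iff_inv_smul_mem.2 (by simpa [mul_assoc] using ht)

/-- [CB1] `D0` commutes with every swapper: `s' = u * (d * u * d⁻¹)` is in `C(t)`, inverted by `u`, odd;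
`hcoinv`. -/
theorem D0_comm_swap {S S' : Sylow 2 Y} (hne : S ≠ S') {d u : Y} (hd : d ∈ D0 S S')
    (hu : orderOf u = 2) (hus : u • S = S') : d * u = u * d := by
  obtain ⟨hdD, hdC⟩ := mem_D0.1 hd
  have hd' := (mem_D0.1 (D0_le h hd)).2
  obtain ⟨hv, hvs⟩ := conj_swap hdD hu hus
  have hwD := swap_mul_mem h hu hus hv hvs
  have hodd := odd_of_mem_DD h hne hwD
  obtain ⟨t, htS, ht⟩ := exists_inv_mem h S
  have huu : u * u = 1 := by have := pow_orderOf_eq_one u; rwa [hu, pow_two] at this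
  have hui : u⁻¹ = u := inv_eq_self_of_two hu
  have hu2 : ∀ a, u * (u * a) = a := fun a => by rw [← mul_assoc, huu, one_mul]
  have hvi : (d * u * d⁻¹)⁻¹ = d * u * d⁻¹ := inv_eq_self_of_two hv
  have h1 : t * d = d * t := Subgroup.mem_centralizer_iff.1 hdC t htS
  have h1' : d⁻¹ * t = t * d⁻¹ := by
    rw [inv_mul_eq_iff_eq_mul, ← mul_assoc, ← h1, mul_assoc, mul_inv_cancel, mul_one]
  have ht' : u * t * u ∈ (S' : Subgroup Y) := by
    have := conj_mem_smul (S := S) (u := u) htS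
    rwa [hus, hui] at this
  have h2 : (u * t * u) * d = d * (u * t * u) := Subgroup.mem_centralizer_iff.1 hd' _ ht'
  have hcomm : t * (u * (d * u * d⁻¹)) = (u * (d * u * d⁻¹)) * t := by
    calc t * (u * (d * u * d⁻¹))
        = u * (u * t * u) * d * u * d⁻¹ := by simp only [mul_assoc]; rw [hu2]
      _ = u * ((u * t * u) * d) * u * d⁻¹ := by simp only [mul_assoc]
      _ = u * (d * (u * t * u)) * u * d⁻¹ := by rw [h2]
      _ = u * d * u * (t * (u * u)) * d⁻¹ := by simp only [mul_assoc]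
      _ = u * d * u * t * d⁻¹ := by rw [huu, mul_one]
      _ = u * (d * u * d⁻¹) * t := by simp only [mul_assoc]; rw [h1']
  have hinv : u * (u * (d * u * d⁻¹)) * u⁻¹ = (u * (d * u * d⁻¹))⁻¹ := by
    rw [mul_inv_rev, hvi, hu2]
  by_contra hne'
  have hw1 : u * (d * u * d⁻¹) ≠ 1 := by
    intro e
    apply hne'
    have h3 : d * u * d⁻¹ = u := by
      have := eq_inv_of_mul_eq_one_right e
      rwa [hui] at this
    exact (mul_inv_eq_iff_eq_mul.1 h3)
  exact no_comm_inv h hodd hw1 ht hu hcomm hinv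

/-- [CB2] The structure of `DD`, `DD = D0 × ⟨x⟩`. -/
theorem exists_pi {S S' : Sylow 2 Y} (hne : S ≠ S') :
    ∃ x ∈ DD S S', orderOf x = 2 ^ n - 1 ∧
      (∀ u, orderOf u = 2 → u • S = S' → u * x * u⁻¹ = x⁻¹) ∧
      (∀ d ∈ D0 S S', d * x = x * d) ∧
      (∀ y ∈ DD S S', ∃ d ∈ D0 S S', ∃ k : ℕ, y = d * x ^ k) ∧
      (∀ y ∈ DD S S', orderOf y = 2 ^ n - 1 → y ∈ zpowers x) ∧
      (∀ u v, orderOf u = 2 → u • S = S' → orderOf v = 2 → v • S = S' → u * v ∈ zpowers x) ∧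
      Nat.card (DD S S') = (2 ^ n - 1) * Nat.card (D0 S S') := by
  classical
  obtain ⟨hr3, hr2⟩ := r_facts h
  haveI : Fact (2 ^ n - 1).Prime := ⟨h.hp⟩
  obtain ⟨u₀, hu₀, hu₀s⟩ := CA.exists_swap h.toCls0 hne
  obtain ⟨x, hxD, hxr, hxinv⟩ := exists_inverted h hne hu₀ hu₀s
  have hu₀u : u₀ * u₀ = 1 := by have := pow_orderOf_eq_one u₀; rwa [hu₀, pow_two] at this
  have hu₀i : u₀⁻¹ = u₀ := inv_eq_self_of_two hu₀
  have hxk : ∀ k : ℕ, u₀ * x ^ k * u₀⁻¹ = (x ^ k)⁻¹ := fun k => by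
    rw [← conj_pow, hxinv, inv_pow]
  have hpowD : ∀ k : ℕ, x ^ k ∈ DD S S' := fun k => Subgroup.pow_mem _ hxD k
  -- the swappers `u₀ * x ^ k`
  have hsw : ∀ k : ℕ, orderOf (u₀ * x ^ k) = 2 ∧ (u₀ * x ^ k) • S = S' := by
    intro k
    have hsmul : (u₀ * x ^ k) • S = S' := by
      rw [mul_smul, (mem_DD.1 (hpowD k)).1, hu₀s]
    refine ⟨?_, hsmul⟩
    apply orderOf_eq_prime
    · rw [pow_two]
      have e : u₀ * x ^ k * u₀ = (x ^ k)⁻¹ := by rw [← hu₀i]; simpa [hu₀i] using hxk k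
      calc u₀ * x ^ k * (u₀ * x ^ k) = (u₀ * x ^ k * u₀) * x ^ k := by simp only [mul_assoc]
        _ = 1 := by rw [e, inv_mul_cancel]
    · intro e
      rw [e, one_smul] at hsmul
      exact hne hsmul
  -- they are all the swappers
  have hform : ∀ v, orderOf v = 2 → v • S = S' → ∃ k : ℕ, v = u₀ * x ^ k := by
    intro v hv hvs
    let F : Fin (2 ^ n - 1) → {v : Y // orderOf v = 2 ∧ v • S = S'} := fun k =>
      ⟨u₀ * x ^ (k : ℕ), hsw k⟩
    have hFinj : Function.Injective F := by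
      intro a b hab
      have h1 : u₀ * x ^ (a : ℕ) = u₀ * x ^ (b : ℕ) := congrArg Subtype.val hab
      have h2 : x ^ (a : ℕ) = x ^ (b : ℕ) := mul_left_cancel h1
      have h3 := pow_injOn_Iio_orderOf (x := x) (x₁ := (a : ℕ)) (by simpa [hxr] using a.2)
        (x₂ := (b : ℕ)) (by simpa [hxr] using b.2) h2
      exact Fin.ext h3
    have hFbij : Function.Bijective F := by
      apply hFinj.bijective_of_nat_card_le
      rw [CA.card_swap h.toCls0 hne, Nat.card_fin]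
    obtain ⟨k, hk⟩ := hFbij.2 ⟨v, hv, hvs⟩
    exact ⟨k, (congrArg Subtype.val hk).symm⟩
  have hxN : x ∈ NN (S : Subgroup Y) := (mem_DD'.1 hxD).1
  have hxC : x ∉ CC (S : Subgroup Y) := by
    intro hc
    exact not_dvd_CC h S (hxr ▸ Subgroup.orderOf_dvd_natCard _ hc)
  -- decomposition
  have hgen : ∀ (y : Y) (hyN : y ∈ NN (S : Subgroup Y)), ∃ k : ℕ,
      ((S : Subgroup Y).normalizerMonoidHom ⟨x, hxN⟩) ^ k =
        (S : Subgroup Y).normalizerMonoidHom ⟨y, hyN⟩ := by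
    intro y hyN
    let R := ((S : Subgroup Y).normalizerMonoidHom).range
    have hR : Nat.card R = 2 ^ n - 1 := card_range_phi h S
    let gx : R := ⟨(S : Subgroup Y).normalizerMonoidHom ⟨x, hxN⟩, ⟨_, rfl⟩⟩
    let gy : R := ⟨(S : Subgroup Y).normalizerMonoidHom ⟨y, hyN⟩, ⟨_, rfl⟩⟩
    have hgx : gx ≠ 1 := by
      intro e
      exact hxC ((phi_eq_one_iff hxN).1 (congrArg Subtype.val e))
    obtain ⟨k, hk⟩ := mem_powers_of_prime_card hR (g := gx) (g' := gy) hgx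
    refine ⟨k, ?_⟩
    have := congrArg Subtype.val hk
    simpa [gx, gy] using this
  have hdec : ∀ y ∈ DD S S', ∃ k : ℕ, y * (x ^ k)⁻¹ ∈ D0 S S' := by
    intro y hy
    have hyN : y ∈ NN (S : Subgroup Y) := (mem_DD'.1 hy).1
    obtain ⟨k, hk'⟩ := hgen y hyN
    refine ⟨k, ?_⟩
    have hmemN : y * (x ^ k)⁻¹ ∈ NN (S : Subgroup Y) :=
      Subgroup.mul_mem _ hyN (Subgroup.inv_mem _ (Subgroup.pow_mem _ hxN k))
    refine mem_D0.2 ⟨Subgroup.mul_mem _ hy (Subgroup.inv_mem _ (hpowD k)), ?_⟩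
    rw [← phi_eq_one_iff hmemN]
    have e1 : (⟨y * (x ^ k)⁻¹, hmemN⟩ : NN (S : Subgroup Y)) =
        ⟨y, hyN⟩ * (⟨x, hxN⟩ ^ k)⁻¹ := by
      apply Subtype.ext; simp
    rw [e1, map_mul, map_inv, map_pow, hk', mul_inv_cancel]
  have hD0x : ∀ d ∈ D0 S S', d * x = x * d := by
    intro d hd
    have h1 := D0_comm_swap h hne hd hu₀ hu₀s
    have h2 := D0_comm_swap h hne hd (hsw 1).1 (hsw 1).2
    simp only [pow_one] at h2
    apply mul_left_cancel (a := u₀)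
    rw [← mul_assoc, ← h1, mul_assoc, h2, mul_assoc]
  refine ⟨x, hxD, hxr, ?_, hD0x, ?_, ?_, ?_, ?_⟩
  · intro u hu hus
    obtain ⟨k, rfl⟩ := hform u hu hus
    have e : x ^ k * x * (x ^ k)⁻¹ = x := by
      rw [mul_inv_eq_iff_eq_mul]
      exact (Commute.refl x).pow_left k
    calc u₀ * x ^ k * x * (u₀ * x ^ k)⁻¹
        = u₀ * (x ^ k * x * (x ^ k)⁻¹) * u₀⁻¹ := by group
      _ = x⁻¹ := by rw [e, hxinv]
  · intro y hy
    obtain ⟨k, hk⟩ := hdec y hy
    exact ⟨_, hk, k, by group⟩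
  · intro y hy hyr
    obtain ⟨k, hk⟩ := hdec y hy
    set d := y * (x ^ k)⁻¹ with hd
    have hyd : y = d * x ^ k := by rw [hd]; group
    have hcomm : Commute d (x ^ k) := (Commute.pow_right (hD0x d hk) k)
    have h1 : d ^ (2 ^ n - 1) = 1 := by
      have h2 : y ^ (2 ^ n - 1) = 1 := by rw [← hyr]; exact pow_orderOf_eq_one y
      rw [hyd, hcomm.mul_pow, ← pow_mul, mul_comm k, pow_mul, ← hxr, pow_orderOf_eq_one, one_pow,
        mul_one, hxr] at h2
      exact h2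
    have h3 : orderOf d = 1 :=
      Nat.eq_one_of_dvd_coprimes (coprime_of_mem_CC h (mem_D0.1 hk).2) dvd_rfl (orderOf_dvd_of_pow_eq_one h1)
    have h4 : d = 1 := orderOf_eq_one_iff.1 h3
    rw [hyd, h4, one_mul]
    exact Subgroup.pow_mem _ (Subgroup.mem_zpowers x) k
  · intro u v hu hus hv hvs
    obtain ⟨k, rfl⟩ := hform u hu hus
    obtain ⟨l, rfl⟩ := hform v hv hvs
    have e : u₀ * x ^ k * (u₀ * x ^ l) = (u₀ * x ^ k * u₀⁻¹) * (u₀ * (u₀ * x ^ l)) := by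
      simp only [mul_assoc, inv_mul_cancel_left]
    have e2 : u₀ * (u₀ * x ^ l) = x ^ l := by rw [← mul_assoc, hu₀u, one_mul]
    rw [e, e2, hxk k]
    exact Subgroup.mul_mem _ (Subgroup.inv_mem _ (Subgroup.pow_mem _ (Subgroup.mem_zpowers x) k))
      (Subgroup.pow_mem _ (Subgroup.mem_zpowers x) l)
  · have hDN : DD S S' ≤ NN (S : Subgroup Y) := fun y hy => (mem_DD'.1 hy).1
    let ψ : DD S S' →* MulAut (S : Subgroup Y) :=
      ((S : Subgroup Y).normalizerMonoidHom).comp (Subgroup.inclusion hDN)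
    have hrange : ψ.range = ((S : Subgroup Y).normalizerMonoidHom).range := by
      apply le_antisymm
      · rintro _ ⟨y, rfl⟩
        exact ⟨_, rfl⟩
      · rintro _ ⟨⟨y, hy⟩, rfl⟩
        obtain ⟨k, hk⟩ := hgen y hy
        refine ⟨⟨x ^ k, hpowD k⟩, ?_⟩
        rw [← hk, ← map_pow]
        rfl
    have hker : ψ.ker = (D0 S S').subgroupOf (DD S S') := by
      ext ⟨y, hy⟩
      rw [Subgroup.mem_subgroupOf, MonoidHom.mem_ker]
      have hyN := hDN hy
      have e : ψ ⟨y, hy⟩ = (S : Subgroup Y).normalizerMonoidHom ⟨y, hyN⟩ := rfl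
      rw [e, phi_eq_one_iff hyN]
      exact ⟨fun hc => mem_D0.2 ⟨hy, hc⟩, fun hd => (mem_D0.1 hd).2⟩
    have h3 := Subgroup.card_mul_index ψ.ker
    rw [Subgroup.index_ker ψ, hrange, card_range_phi h S, hker] at h3
    have h4 : Nat.card ((D0 S S').subgroupOf (DD S S')) = Nat.card (D0 S S') :=
      Nat.card_congr (Subgroup.subgroupOfEquivOfLe (fun y hy => (mem_D0.1 hy).1)).toEquiv
    rw [h4] at h3
    rw [← h3, mul_comm]

/-- [CB2] An element of order `r` normalizing two Sylow subgroups is inverted by all their swappers. -/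
theorem swap_inverts {S S' : Sylow 2 Y} (hne : S ≠ S') {x u : Y} (hx : x ∈ DD S S')
    (hxr : orderOf x = 2 ^ n - 1) (hu : orderOf u = 2) (hus : u • S = S') : u * x * u⁻¹ = x⁻¹ := by
  obtain ⟨x₀, -, -, hinv, -, -, hz, -, -⟩ := exists_pi h hne
  obtain ⟨m, rfl⟩ := Subgroup.mem_zpowers_iff.1 (hz x hx hxr)
  rw [← conj_zpow, hinv u hu hus, inv_zpow]

omit h in
/-- A `2`-element normalizing a Sylow `2`-subgroup lies in it. -/
theorem mem_of_two_elt {S : Sylow 2 Y} {w : Y} {a : ℕ} (hw : w ^ 2 ^ a = 1)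
    (hn : w ∈ NN (S : Subgroup Y)) : w ∈ (S : Subgroup Y) := by
  have hp : IsPGroup 2 (zpowers w) := by
    rintro ⟨g, z, rfl⟩
    refine ⟨a, ?_⟩
    ext
    simp only [SubgroupClass.coe_pow, OneMemClass.coe_one]
    show (w ^ z) ^ 2 ^ a = 1
    rw [← zpow_natCast, ← zpow_mul, mul_comm, zpow_mul, zpow_natCast, hw, one_zpow]
  have hle : zpowers w ≤ normalizer ((S : Subgroup Y) : Set Y) := zpowers_le.2 hn
  have h2 := IsPGroup.to_sup_of_normal_left' S.isPGroup' hp hle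
  have h3 := S.is_maximal' h2 le_sup_left
  have : w ∈ (S : Subgroup Y) ⊔ zpowers w := Subgroup.mem_sup_right (mem_zpowers w)
  rwa [h3] at this

omit h in
/-- An element of `N(S)` cannot invert a nontrivial element of `N(S)` of odd order. -/
theorem no_invert {S : Sylow 2 Y} {g x : Y} (hg : g ∈ NN (S : Subgroup Y))
    (hx : x ∈ NN (S : Subgroup Y)) (hxo : Odd (orderOf x)) (hx1 : x ≠ 1)
    (hinv : g * x * g⁻¹ = x⁻¹) : False := by
  have hog : orderOf g ≠ 0 := (orderOf_pos g).ne'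
  obtain ⟨a, m, hm, hgm⟩ := Nat.exists_eq_two_pow_mul_odd hog
  obtain ⟨j, rfl⟩ := hm
  have hc2 : Commute (g ^ 2) x := by
    show g ^ 2 * x = x * g ^ 2
    have h1 : g * x = x⁻¹ * g := mul_inv_eq_iff_eq_mul.1 hinv
    have h2 : g * x⁻¹ = x * g := by
      have h3 : x * (g * x) = g := by rw [h1, mul_inv_cancel_left]
      rw [mul_inv_eq_iff_eq_mul, mul_assoc]
      exact h3.symm
    calc g ^ 2 * x = g * (g * x) := by rw [pow_two, mul_assoc]
      _ = g * (x⁻¹ * g) := by rw [h1]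
      _ = (g * x⁻¹) * g := by rw [mul_assoc]
      _ = x * g * g := by rw [h2]
      _ = x * g ^ 2 := by rw [pow_two, mul_assoc]
  set w := g ^ (2 * j + 1) with hwdef
  have hw1 : w * x * w⁻¹ = x⁻¹ := by
    have hc3 : Commute ((g ^ 2) ^ j) x := hc2.pow_left j
    have hw' : w = g * (g ^ 2) ^ j := by rw [hwdef, pow_succ', pow_mul]
    rw [hw']
    generalize (g ^ 2) ^ j = A at hc3
    have hA : A * x = x * A := hc3
    calc g * A * x * (g * A)⁻¹ = g * (A * x) * (A⁻¹ * g⁻¹) := by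
          rw [mul_inv_rev]; simp only [mul_assoc]
      _ = g * (x * A) * (A⁻¹ * g⁻¹) := by rw [hA]
      _ = g * x * g⁻¹ := by simp only [mul_assoc, mul_inv_cancel_left]
      _ = x⁻¹ := hinv
  have hw2 : w ^ 2 ^ a = 1 := by
    rw [hwdef, ← pow_mul, mul_comm, ← hgm, pow_orderOf_eq_one]
  have hwN : w ∈ NN (S : Subgroup Y) := pow_mem hg _
  have hwS := mem_of_two_elt hw2 hwN
  have hc : x⁻¹ * x⁻¹ ∈ (S : Subgroup Y) := by
    have hxw : x * w⁻¹ * x⁻¹ ∈ (S : Subgroup Y) :=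
      (mem_normalizer_iff.1 hx _).1 ((S : Subgroup Y).inv_mem hwS)
    have := (S : Subgroup Y).mul_mem hwS hxw
    have e : w * (x * w⁻¹ * x⁻¹) = x⁻¹ * x⁻¹ := by
      rw [← hw1]; group
    rwa [e] at this
  obtain ⟨k, hk⟩ := S.isPGroup' ⟨_, hc⟩
  have hk' : (x⁻¹ * x⁻¹) ^ 2 ^ k = 1 := by
    have := congrArg Subtype.val hk
    simpa using this
  have hk'' : x ^ 2 ^ (k + 1) = 1 := by
    have e : (x⁻¹ * x⁻¹) ^ 2 ^ k = (x ^ 2 ^ (k + 1))⁻¹ := by
      rw [← inv_pow, ← pow_two, ← pow_mul, pow_succ, mul_comm]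
    rw [e] at hk'
    exact inv_eq_one.1 hk'
  have hd := orderOf_dvd_of_pow_eq_one hk''
  have hcop : (orderOf x).Coprime (2 ^ (k + 1)) := by
    exact Nat.Coprime.pow_right _ (Nat.coprime_two_right.2 hxo)
  have h1 := Nat.Coprime.eq_one_of_dvd hcop hd
  exact hx1 (orderOf_eq_one_iff.1 h1)

omit h in
theorem odd_r (hn : 2 ≤ n) : Odd (2 ^ n - 1) := by
  obtain ⟨k, rfl⟩ : ∃ k, n = k + 1 := ⟨n - 1, by omega⟩
  have : 0 < 2 ^ k := by positivity
  rw [pow_succ]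
  exact ⟨2 ^ k - 1, by omega⟩

omit h in
theorem CC_le_NN (S : Subgroup Y) : CC S ≤ NN S := centralizer_le_normalizer _

/-- [CB3] An element of order `r` fixes at most two Sylow subgroups: with swappers `w : S→R`, `v: R→S'`,
`u : S'→S`, `g = u * v * w` fixes `S` and inverts `x`: a power is an involution `w₀ ∈ S` inverting `x`, so
`x⁻² = w₀ * x * w₀⁻¹ * x⁻¹ ∈ S`. -/
theorem fix_two {S S' R : Sylow 2 Y} (hne : S ≠ S') {x : Y} (hx : x ∈ DD S S')
    (hxr : orderOf x = 2 ^ n - 1) (hR : x • R = R) : R = S ∨ R = S' := by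
  by_contra hcon
  rw [not_or] at hcon
  obtain ⟨hRS, hRS'⟩ := hcon
  have hxS := (mem_DD.1 hx).1
  have hxS' := (mem_DD.1 hx).2
  obtain ⟨w, hw, hwS⟩ := CA.exists_swap h.toCls0 (Ne.symm hRS)
  obtain ⟨v, hv, hvR⟩ := CA.exists_swap h.toCls0 hRS'
  obtain ⟨u, hu, huS'⟩ := CA.exists_swap h.toCls0 (Ne.symm hne)
  have h1 := swap_inverts h (S := S) (S' := R) (Ne.symm hRS) (mem_DD.2 ⟨hxS, hR⟩) hxr hw hwS
  have h2 := swap_inverts h (S := R) (S' := S') hRS' (mem_DD.2 ⟨hR, hxS'⟩) hxr hv hvR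
  have h3 := swap_inverts h (S := S') (S' := S) hne.symm (mem_DD.2 ⟨hxS', hxS⟩) hxr hu huS'
  have hg : (u * v * w) • S = S := by
    rw [mul_smul, mul_smul, hwS, hvR, huS']
  have hinv : (u * v * w) * x * (u * v * w)⁻¹ = x⁻¹ := by
    have h2' : v * x⁻¹ * v⁻¹ = x := by
      calc v * x⁻¹ * v⁻¹ = (v * x * v⁻¹)⁻¹ := by simp [mul_assoc]
        _ = x := by rw [h2, inv_inv]
    calc (u * v * w) * x * (u * v * w)⁻¹ = u * (v * (w * x * w⁻¹) * v⁻¹) * u⁻¹ := by group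
      _ = u * (v * x⁻¹ * v⁻¹) * u⁻¹ := by rw [h1]
      _ = u * x * u⁻¹ := by rw [h2']
      _ = x⁻¹ := h3
  have hodd : Odd (orderOf x) := by rw [hxr]; exact odd_r h.hn
  have hx1 : x ≠ 1 := by
    intro he
    have h4 : orderOf x = 1 := by rw [he, orderOf_one]
    rw [hxr] at h4
    exact h.hp.one_lt.ne' h4
  exact no_invert (mem_NN.2 hg) (mem_NN.2 hxS) hodd hx1 hinv

/-- [CB3] `C(S)` is transitive on the Sylow subgroups other than `S`. (`N(S)` has only one class of subgroups of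
order `r`, `β ↦ Π(S, β)` is a bijection; `N(S) = C(S) DD`.) -/
theorem cent_trans (S : Sylow 2 Y) {S₁ S₂ : Sylow 2 Y} (h₁ : S₁ ≠ S) (h₂ : S₂ ≠ S) :
    ∃ c ∈ CC (S : Subgroup Y), c • S₁ = S₂ := by
  classical
  obtain ⟨x₁, hx₁, hx₁o, -⟩ := exists_pi h (S := S) (S' := S₁) h₁.symm
  obtain ⟨x₂, hx₂, hx₂o, -⟩ := exists_pi h (S := S) (S' := S₂) h₂.symm
  haveI hr : Fact (2 ^ n - 1).Prime := ⟨h.hp⟩
  have hcardN : Nat.card (NN (S : Subgroup Y)) = (2 ^ n - 1) * Nat.card (CC (S : Subgroup Y)) := h.hW S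
  have hnd := not_dvd_CC h S
  have hCpos : Nat.card (CC (S : Subgroup Y)) ≠ 0 := Nat.card_pos.ne'
  have hfact : (Nat.card (NN (S : Subgroup Y))).factorization (2 ^ n - 1) = 1 := by
    rw [hcardN, Nat.factorization_mul h.hp.ne_zero hCpos]
    simp [h.hp.factorization_self, Nat.factorization_eq_zero_of_not_dvd hnd]
  have hx₁N : x₁ ∈ NN (S : Subgroup Y) := mem_NN.2 (mem_DD.1 hx₁).1
  have hx₂N : x₂ ∈ NN (S : Subgroup Y) := mem_NN.2 (mem_DD.1 hx₂).1
  let y₁ : NN (S : Subgroup Y) := ⟨x₁, hx₁N⟩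
  let y₂ : NN (S : Subgroup Y) := ⟨x₂, hx₂N⟩
  have hy₁ : orderOf y₁ = 2 ^ n - 1 := by rw [← hx₁o]; exact Subgroup.orderOf_mk _ _
  have hy₂ : orderOf y₂ = 2 ^ n - 1 := by rw [← hx₂o]; exact Subgroup.orderOf_mk _ _
  let P₁ : Sylow (2 ^ n - 1) (NN (S : Subgroup Y)) :=
    Sylow.ofCard (zpowers y₁) (by rw [Nat.card_zpowers, hy₁, hfact, pow_one])
  let P₂ : Sylow (2 ^ n - 1) (NN (S : Subgroup Y)) :=
    Sylow.ofCard (zpowers y₂) (by rw [Nat.card_zpowers, hy₂, hfact, pow_one])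
  obtain ⟨g, hg⟩ := MulAction.exists_smul_eq (NN (S : Subgroup Y)) P₁ P₂
  have hmem : y₂ ∈ ((g • P₁ : Sylow _ _) : Subgroup (NN (S : Subgroup Y))) := by
    rw [hg]
    exact mem_zpowers y₂
  rw [Sylow.coe_subgroup_smul, Subgroup.mem_smul_pointwise_iff_exists] at hmem
  obtain ⟨s, hs, hsy⟩ := hmem
  have hs' : s ∈ zpowers y₁ := hs
  obtain ⟨z, rfl⟩ := hs'
  have hsy' : (g : Y) * x₁ ^ z * (g : Y)⁻¹ = x₂ := by
    have := congrArg Subtype.val hsy
    simpa [MulAut.smul_def, y₁, y₂] using this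
  have hstab : x₁ ^ z • S₁ = S₁ := by
    have : x₁ ∈ MulAction.stabilizer Y S₁ := (mem_DD.1 hx₁).2
    exact (MulAction.stabilizer Y S₁).zpow_mem this z
  have hfix : x₂ • ((g : Y) • S₁) = (g : Y) • S₁ := by
    rw [← hsy', smul_smul]
    have : (g : Y) * x₁ ^ z * (g : Y)⁻¹ * (g : Y) = (g : Y) * x₁ ^ z := by group
    rw [this, mul_smul, hstab]
  have hgS : (g : Y) • S = S := mem_NN.1 g.2
  have hgS₂ : (g : Y) • S₁ = S₂ := by
    rcases fix_two h h₂.symm hx₂ hx₂o hfix with he | he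
    · exfalso
      apply h₁
      have : (g : Y) • S₁ = (g : Y) • S := by rw [he, hgS]
      exact smul_left_cancel _ this
    · exact he
  -- complement
  have hcardH : Nat.card ((CC (S : Subgroup Y)).subgroupOf (NN (S : Subgroup Y))) =
      Nat.card (CC (S : Subgroup Y)) :=
    Nat.card_congr (subgroupOfEquivOfLe (CC_le_NN (S : Subgroup Y))).toEquiv
  have hcardK : Nat.card (zpowers y₁) = 2 ^ n - 1 := by rw [Nat.card_zpowers, hy₁]
  have hcomp : IsComplement' ((CC (S : Subgroup Y)).subgroupOf (NN (S : Subgroup Y))) (zpowers y₁) := by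
    apply isComplement'_of_coprime
    · rw [hcardH, hcardK, hcardN, mul_comm]
    · rw [hcardH, hcardK]
      exact ((Nat.Prime.coprime_iff_not_dvd h.hp).2 hnd).symm
  obtain ⟨⟨c, k⟩, hck⟩ := hcomp.2 g
  obtain ⟨z', hz'⟩ := k.2
  have hgY : (g : Y) = ((c : NN (S : Subgroup Y)) : Y) * x₁ ^ z' := by
    have h5 : (c : NN (S : Subgroup Y)) * (k : NN (S : Subgroup Y)) = g := hck
    have h6 := congrArg Subtype.val h5
    rw [← h6, ← hz']
    simp [y₁]
  have hstab' : x₁ ^ z' • S₁ = S₁ := by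
    have : x₁ ∈ MulAction.stabilizer Y S₁ := (mem_DD.1 hx₁).2
    exact (MulAction.stabilizer Y S₁).zpow_mem this z'
  refine ⟨((c : NN (S : Subgroup Y)) : Y), Subgroup.mem_subgroupOf.1 c.2, ?_⟩
  rw [← hgS₂, hgY, mul_smul, hstab']

/-- [CB3] Counting. -/
theorem card_syl_mul {S S' : Sylow 2 Y} (hne : S ≠ S') :
    (Nat.card (Sylow 2 Y) - 1) * Nat.card (D0 S S') = Nat.card (CC (S : Subgroup Y)) := by
  classical
  have hCS : ∀ c ∈ CC (S : Subgroup Y), c • S = S := fun c hc => mem_NN.1 (CC_le_NN _ hc)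
  have horb : MulAction.orbit (CC (S : Subgroup Y)) S' = ({S} : Set (Sylow 2 Y))ᶜ := by
    ext R
    simp only [Set.mem_compl_iff, Set.mem_singleton_iff, MulAction.mem_orbit_iff]
    constructor
    · rintro ⟨c, rfl⟩ he
      apply hne
      have h1 : (c : Y) • S' = (c : Y) • S := by
        rw [hCS _ c.2]; exact he
      exact (smul_left_cancel _ h1).symm
    · intro hR
      obtain ⟨c, hc, hcR⟩ := cent_trans h S (S₁ := S') (S₂ := R) hne.symm hR
      exact ⟨⟨c, hc⟩, hcR⟩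
  have hidx := Subgroup.index_mul_card (MulAction.stabilizer (CC (S : Subgroup Y)) S')
  rw [MulAction.index_stabilizer, horb, Set.ncard_compl, Set.ncard_singleton] at hidx
  have he : MulAction.stabilizer (CC (S : Subgroup Y)) S' ≃ D0 S S' :=
    { toFun := fun a => ⟨a.1.1, ⟨mem_DD.2 ⟨hCS _ a.1.2, a.2⟩, a.1.2⟩⟩
      invFun := fun a => ⟨⟨a.1, a.2.2⟩, (mem_DD.1 a.2.1).2⟩
      left_inv := fun a => by ext; rfl
      right_inv := fun a => by ext; rfl }
  rw [← Nat.card_congr he]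
  exact hidx

/-- [CB3] Two transitivity. -/
theorem two_trans {S₁ S₂ S₃ S₄ : Sylow 2 Y} (h₁ : S₁ ≠ S₂) (h₂ : S₃ ≠ S₄) :
    ∃ g : Y, g • S₁ = S₃ ∧ g • S₂ = S₄ := by
  obtain ⟨g₀, hg₀⟩ := MulAction.exists_smul_eq Y S₁ S₃
  have hne : g₀ • S₂ ≠ S₃ := by
    intro he
    apply h₁
    have : g₀ • S₁ = g₀ • S₂ := by rw [hg₀, he]
    exact smul_left_cancel _ this
  obtain ⟨c, hc, hcS⟩ := cent_trans h S₃ hne h₂.symm
  refine ⟨c * g₀, ?_, ?_⟩
  · rw [mul_smul, hg₀]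
    exact mem_NN.1 (CC_le_NN _ hc)
  · rw [mul_smul, hcS]

omit h in
/-- An element of `KK` fixes every Sylow subgroup. -/
theorem mem_KK_aux {k : Y} : k ∈ KK Y ↔ ∀ S : Sylow 2 Y, k ∈ NN (S : Subgroup Y) := by
  simp only [KK, Subgroup.mem_iInf]

omit h in
theorem KK_normal_aux : (KK Y).Normal := by
  refine ⟨fun k hk g => ?_⟩
  rw [mem_KK_aux] at hk ⊢
  intro S
  have h1 := hk (g⁻¹ • S)
  have h2 : k • (g⁻¹ • S) = g⁻¹ • S := Sylow.smul_eq_iff_mem_normalizer.mpr h1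
  apply Sylow.smul_eq_iff_mem_normalizer.mp
  change (g * k * g⁻¹) • S = S
  rw [mul_smul, mul_smul, h2, ← mul_smul, mul_inv_cancel, one_smul]

/-- An involution does not lie in `KK`. -/
theorem KK_inter_aux {t : Y} (ht : orderOf t = 2) (hk : t ∈ KK Y) : False := by
  obtain ⟨S, hS⟩ := Cfsg.Agent.Lib.EqOrd.CA.exists_syl h.toCls0 ht
  obtain ⟨R, hR⟩ := Cfsg.Agent.Lib.EqOrd.CA.exists_other h.toCls0 S
  have h1 := (mem_KK_aux.mp hk) R
  have h2 : t • R = R := Sylow.smul_eq_iff_mem_normalizer.mpr h1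
  exact hR ((Cfsg.Agent.Lib.EqOrd.CA.smul_eq_iff h.toCls0 ht hS R).mp h2)

/-- An element of `S` in `KK` is trivial. -/
theorem KK_inter_syl_aux {S : Sylow 2 Y} {a : Y} (ha : a ∈ (S : Subgroup Y)) (hk : a ∈ KK Y) : a = 1 := by
  by_contra hne
  haveI : Fact (Nat.Prime 2) := ⟨Nat.prime_two⟩
  have h1 : orderOf a = 2 := by
    apply orderOf_eq_prime _ hne
    rw [sq]
    exact h.hel S a ha
  exact KK_inter_aux h h1 hk

/-- [CB3] `KK` is central, odd, contained in `D0`. -/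
theorem KK_central : KK Y ≤ center Y := by
  intro k hk
  haveI hKn : (KK Y).Normal := KK_normal_aux
  have hcl : closure {t : Y | orderOf t = 2} ≤ centralizer ({k} : Set Y) := by
    rw [closure_le]
    intro t ht
    have ht' : orderOf t = 2 := ht
    obtain ⟨S, hS⟩ := Cfsg.Agent.Lib.EqOrd.CA.exists_syl h.toCls0 ht'
    have hN : k ∈ NN (S : Subgroup Y) := (mem_KK_aux.mp hk) S
    have h1 : k * t⁻¹ * k⁻¹ ∈ (S : Subgroup Y) :=
      (Subgroup.mem_normalizer_iff.mp hN t⁻¹).mp (inv_mem hS)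
    have h2 : t * k * t⁻¹ * k⁻¹ = t * (k * t⁻¹ * k⁻¹) := by group
    have hc1 : t * k * t⁻¹ * k⁻¹ ∈ (S : Subgroup Y) := by
      rw [h2]
      exact mul_mem hS h1
    have hc2 : t * k * t⁻¹ * k⁻¹ ∈ KK Y := mul_mem (hKn.conj_mem k hk t) (inv_mem hk)
    have hc3 := KK_inter_syl_aux h hc1 hc2
    change t ∈ centralizer ({k} : Set Y)
    rw [Subgroup.mem_centralizer_singleton_iff]
    have h3 : t * k * t⁻¹ = k := by
      rw [mul_inv_eq_one] at hc3
      exact hc3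
    exact mul_inv_eq_iff_eq_mul.mp h3
  rw [h.hgen] at hcl
  rw [Subgroup.mem_center_iff]
  intro g
  have h4 := hcl (Subgroup.mem_top g)
  rw [Subgroup.mem_centralizer_singleton_iff] at h4
  exact h4

theorem KK_le_D0 (S S' : Sylow 2 Y) : KK Y ≤ D0 S S' := by
  intro k hk
  refine ⟨⟨(mem_KK_aux.mp hk) S, (mem_KK_aux.mp hk) S'⟩, ?_⟩
  change k ∈ CC (S : Subgroup Y)
  rw [Subgroup.mem_centralizer_iff]
  intro g _
  exact (Subgroup.mem_center_iff.mp (KK_central h hk)) g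

theorem odd_KK : Odd (Nat.card (KK Y)) := by
  by_contra hno
  rw [Nat.not_odd_iff_even] at hno
  obtain ⟨t, ht⟩ := exists_prime_orderOf_dvd_card' (G := KK Y) 2 hno.two_dvd
  have h1 : orderOf (t : Y) = 2 := by
    rw [Subgroup.orderOf_coe]
    exact ht
  exact KK_inter_aux h h1 t.2

/-- [CB3] A swapper of `S,S'` lies in the subgroup generated by `S` and `S'`: for `t ∈ S` an involution,
`u ∈ ⟨t, u t u⁻¹⟩`: the middle involution `w₀` of the dihedral group `⟨t, v⟩`, `v = u t u⁻¹`; `s = u w₀` centralizes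
`t`, inverted by `w₀`, odd; `hcoinv` gives `s = 1`. -/
theorem swap_mem_sup {S S' : Sylow 2 Y} (hne : S ≠ S') {u : Y} (hu : orderOf u = 2) (hus : u • S = S') :
    u ∈ (S : Subgroup Y) ⊔ (S' : Subgroup Y) := by
  have h0 := h.toCls0
  haveI : Fact (Nat.Prime 2) := ⟨Nat.prime_two⟩
  -- an involution of `S`
  obtain ⟨t, htS, ht⟩ : ∃ t ∈ (S : Subgroup Y), orderOf t = 2 := by
    have hc := h.hcard S
    have h2 : 2 ∣ Nat.card S := by
      rw [hc]
      exact dvd_pow_self 2 (by have := h.hn; omega)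
    obtain ⟨t, ht⟩ := exists_prime_orderOf_dvd_card' (G := S) 2 h2
    exact ⟨t, t.2, by rw [Subgroup.orderOf_coe]; exact ht⟩
  have huu : u * u = 1 := by rw [← sq, ← hu, pow_orderOf_eq_one]
  have hui : u⁻¹ = u := inv_eq_of_mul_eq_one_left huu
  have htt : t * t = 1 := by rw [← sq, ← ht, pow_orderOf_eq_one]
  have hti : t⁻¹ = t := inv_eq_of_mul_eq_one_left htt
  -- `v = u t u⁻¹ ∈ S'`
  obtain ⟨v, hvdef⟩ : ∃ v, v = u * t * u⁻¹ := ⟨_, rfl⟩
  have hvS' : v ∈ (S' : Subgroup Y) := by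
    rw [← hus, Sylow.coe_subgroup_smul, hvdef]
    exact ⟨t, htS, by simp [MulAut.smul_def, MulAut.conj_apply]⟩
  have hv : orderOf v = 2 := by
    rw [hvdef]
    exact (SemiconjBy.orderOf_eq u (by rw [SemiconjBy]; group)).symm.trans ht
  have hvv : v * v = 1 := by rw [← sq, ← hv, pow_orderOf_eq_one]
  have hvi : v⁻¹ = v := inv_eq_of_mul_eq_one_left hvv
  obtain ⟨l, hl⟩ := Cfsg.Agent.Lib.EqOrd.CA.odd_mul h0 hne ht htS hv hvS'
  obtain ⟨w, hwdef⟩ : ∃ w, w = t * v := ⟨_, rfl⟩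
  rw [← hwdef] at hl
  have hwo : w ^ (2 * l + 1) = 1 := by rw [← hl, pow_orderOf_eq_one]
  have hwi : w⁻¹ = v * t := by
    rw [hwdef, mul_inv_rev, hvi, hti]
  have htw : t * w * t⁻¹ = w⁻¹ := by
    rw [hwi, hti, hwdef, ← mul_assoc, htt, one_mul]
  have htwl : t * w ^ l * t⁻¹ = w⁻¹ ^ l := by
    rw [← htw, conj_pow]
  obtain ⟨w₀, hw₀⟩ : ∃ w₀, w₀ = w ^ l * t := ⟨_, rfl⟩
  have hw₀w₀ : w₀ * w₀ = 1 := by
    have h1 : t * w ^ l * t = w⁻¹ ^ l := by
      rw [← htwl, hti]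
    rw [hw₀, mul_assoc, ← mul_assoc t, h1, inv_pow, mul_inv_cancel]
  have hw₀i : w₀⁻¹ = w₀ := inv_eq_of_mul_eq_one_left hw₀w₀
  have hconj : w₀ * t * w₀⁻¹ = v := by
    rw [hw₀i, hw₀]
    have h1 : w ^ l * t * t * (w ^ l * t) = w ^ l * w ^ l * t := by
      rw [mul_assoc (w ^ l) t t, htt, mul_one, mul_assoc]
    rw [h1, ← pow_add]
    have h2 : w ^ (l + l) = w⁻¹ := by
      apply eq_inv_of_mul_eq_one_left
      rw [← pow_succ, ← hwo]
      congr 1
      ring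
    rw [h2, hwi, mul_assoc, htt, mul_one]
  have hw₀mem : w₀ ∈ (S : Subgroup Y) ⊔ (S' : Subgroup Y) := by
    rw [hw₀, hwdef]
    exact mul_mem (pow_mem (mul_mem (Subgroup.mem_sup_left htS) (Subgroup.mem_sup_right hvS')) l)
      (Subgroup.mem_sup_left htS)
  -- `s = u w₀`
  obtain ⟨s, hsdef⟩ : ∃ s, s = u * w₀ := ⟨_, rfl⟩
  have hst : s * t = t * s := by
    have h1 : s * t * s⁻¹ = t := by
      rw [hsdef, mul_inv_rev, hui]
      have h2 : u * w₀ * t * (w₀⁻¹ * u) = u * (w₀ * t * w₀⁻¹) * u := by group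
      rw [h2, hconj, hvdef, hui]
      have h3 : u * (u * t * u) * u = (u * u) * t * (u * u) := by group
      rw [h3, huu]
      group
    exact mul_inv_eq_iff_eq_mul.mp h1
  have hinv : w₀ * s * w₀⁻¹ = s⁻¹ := by
    rw [hsdef, mul_inv_rev, hui, hw₀i]
    rw [mul_assoc w₀, mul_assoc u, hw₀w₀, mul_one]
  have hw₀pow : ∀ k : ℕ, w₀ * s ^ k * w₀⁻¹ = (s ^ k)⁻¹ := by
    intro k
    rw [← conj_pow, hinv, inv_pow]
  have hs1 : s = 1 := by
    by_contra hne1
    have ho1 : orderOf s ≠ 1 := fun h1 => hne1 (orderOf_eq_one_iff.mp h1)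
    obtain ⟨q, hq, hqd⟩ := Nat.exists_prime_and_dvd ho1
    have ho0 : orderOf s ≠ 0 := (orderOf_pos s).ne'
    have hyo : orderOf (s ^ (orderOf s / q)) = q := orderOf_pow_orderOf_div ho0 hqd
    obtain ⟨y, hydef⟩ : ∃ y, y = s ^ (orderOf s / q) := ⟨_, rfl⟩
    rw [← hydef] at hyo
    have hty : t * y = y * t := by
      rw [hydef]
      exact ((Commute.pow_left hst _).eq).symm
    have hwy : w₀ * y * w₀⁻¹ = y⁻¹ := by
      rw [hydef]
      exact hw₀pow _
    have hw₀1 : w₀ ≠ 1 := by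
      intro h1
      rw [h1] at hconj
      simp only [one_mul, inv_one, mul_one] at hconj
      rw [hconj] at htS
      exact hne (Cfsg.Agent.Lib.EqOrd.CA.syl_unique h0 hv htS hvS')
    have hw₀o : orderOf w₀ = 2 := by
      apply orderOf_eq_prime _ hw₀1
      rw [sq]
      exact hw₀w₀
    by_cases hq2 : q = 2
    · -- an involution of `C(t)` commuting with `w₀`
      subst hq2
      have hyN : y ∈ NN (S : Subgroup Y) :=
        Cfsg.Agent.Lib.EqOrd.CA.cent_le h0 ht htS hty.symm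
      have hyS := Cfsg.Agent.Lib.EqOrd.CA.mem_of_norm h0 hyo hyN
      have hyy : y * y = 1 := by rw [← sq, ← hyo, pow_orderOf_eq_one]
      have hyi : y⁻¹ = y := inv_eq_of_mul_eq_one_left hyy
      have hcw : w₀ * y = y * w₀ := by
        rw [hyi] at hwy
        exact mul_inv_eq_iff_eq_mul.mp hwy
      have hw₀N : w₀ ∈ NN (S : Subgroup Y) :=
        Cfsg.Agent.Lib.EqOrd.CA.cent_le h0 hyo hyS hcw
      have hw₀S := Cfsg.Agent.Lib.EqOrd.CA.mem_of_norm h0 hw₀o hw₀N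
      have hvS : v ∈ (S : Subgroup Y) := by
        rw [← hconj]
        exact mul_mem (mul_mem hw₀S htS) (inv_mem hw₀S)
      exact hne (Cfsg.Agent.Lib.EqOrd.CA.syl_unique h0 hv hvS hvS')
    · exact h.hcoinv q hq hq2 y y t w₀ hyo hyo ht hw₀o hty hwy
  have hu' : u = w₀ := by
    rw [hsdef] at hs1
    have h1 := eq_inv_of_mul_eq_one_left hs1
    rw [h1, hw₀i]
  rw [hu']
  exact hw₀mem

/-- [CB3] An odd-order `x ∈ C(S)` of order prime to `r`-... An element of `N(S)` of order prime to `r` centralizes `S`. -/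
theorem mem_CC_of_coprime {S : Sylow 2 Y} {x : Y} (hx : x ∈ NN (S : Subgroup Y))
    (hc : (orderOf x).Coprime (2 ^ n - 1)) : x ∈ CC (S : Subgroup Y) := by
  classical
  let φ := Subgroup.normalizerMonoidHom (S : Subgroup Y)
  have hker : φ.ker = (CC (S : Subgroup Y)).subgroupOf (NN (S : Subgroup Y)) :=
    Subgroup.normalizerMonoidHom_ker _
  have hCN : CC (S : Subgroup Y) ≤ NN (S : Subgroup Y) := Subgroup.centralizer_le_normalizer _
  have hcard : Nat.card ((CC (S : Subgroup Y)).subgroupOf (NN (S : Subgroup Y))) =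
      Nat.card (CC (S : Subgroup Y)) :=
    Nat.card_congr (Subgroup.subgroupOfEquivOfLe hCN).toEquiv
  have hpos : 0 < Nat.card (CC (S : Subgroup Y)) := Nat.card_pos
  have hrange : Nat.card φ.range = 2 ^ n - 1 := by
    have h1 := Subgroup.card_mul_index φ.ker
    rw [Subgroup.index_ker, hker, hcard, h.hW S, mul_comm] at h1
    exact Nat.eq_of_mul_eq_mul_right hpos h1
  have h1 : orderOf (φ ⟨x, hx⟩) ∣ 2 ^ n - 1 := by
    rw [← hrange]
    have h2 := orderOf_dvd_natCard (⟨φ ⟨x, hx⟩, ⟨_, rfl⟩⟩ : φ.range)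
    have e : orderOf (⟨φ ⟨x, hx⟩, ⟨_, rfl⟩⟩ : φ.range) = orderOf (φ ⟨x, hx⟩) :=
      (Subgroup.orderOf_coe _).symm
    rwa [e] at h2
  have h2 : orderOf (φ ⟨x, hx⟩) ∣ orderOf x := by
    have h3 := orderOf_map_dvd φ (⟨x, hx⟩ : NN (S : Subgroup Y))
    rwa [Subgroup.orderOf_mk] at h3
  have h3 : orderOf (φ ⟨x, hx⟩) = 1 := Nat.Coprime.eq_one_of_dvd (Nat.Coprime.coprime_dvd_left h2 hc) h1
  have h4 : (⟨x, hx⟩ : NN (S : Subgroup Y)) ∈ φ.ker := by
    rw [MonoidHom.mem_ker]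
    exact orderOf_eq_one_iff.mp h3
  rw [hker] at h4
  exact h4

end Cfsg.Agent.Lib.EqOrd.CB
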