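/-
S4021. [GA1] `|N(S) : C(S)|` for an elementary abelian Sylow 2-subgroup `S`, from S4025 (`n ≥ 3`) and Burnside transfer
(`n = 2`). The odd order theorem is a hypothesis here, see `GA.N_data`.
-/
import Cfsg.Agent.Lib.EqOrd.Defs
import Cfsg.Agent.S4025

set_option autoImplicit false
set_option linter.style.haveILetI false
set_option linter.unusedSectionVars false

namespace Cfsg.Agent.Lib.EqOrd.GA1

open Subgroup Cfsg Cfsg.Agent.Lib.EqOrd.Defs Cfsg.Agent.Lib.Core.Basic

universe u

section SA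

variable (F : Type*) [Field F] [Finite F]

theorem card_semi_eq :
    Nat.card (semiaffineGroup F) = (Nat.card F - 1) * Nat.card F * Nat.card (F ≃+* F) := by
  classical
  apply le_antisymm (Cfsg.Agent.Lib.EqConj.Aff.card_semi_le F)
  letI : Fintype F := Fintype.ofFinite _
  have hc : Nat.card Fˣ = Nat.card F - 1 := by
    rw [Nat.card_eq_fintype_card, Fintype.card_units, ← Nat.card_eq_fintype_card]
  haveI : Finite (F ≃+* F) :=
    Finite.of_injective (fun σ => (σ : F → F)) (fun a b h => RingEquiv.ext (congrFun h))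
  rw [← hc, ← Nat.card_prod, ← Nat.card_prod]
  let m : (Fˣ × F) × (F ≃+* F) → semiaffineGroup F := fun x =>
    ⟨(x.2.toEquiv).trans ((Units.mulLeft x.1.1).trans (Equiv.addRight x.1.2)),
      ⟨x.1.1, x.1.2, x.2, fun y => rfl⟩⟩
  apply Nat.card_le_card_of_injective m
  rintro ⟨⟨a, b⟩, φ⟩ ⟨⟨a', b'⟩, φ'⟩ h
  have h' : ∀ y : F, (a : F) * φ y + b = (a' : F) * φ' y + b' := fun y =>
    congrArg (fun s : semiaffineGroup F => (s : Equiv.Perm F) y) h
  have hb : b = b' := by simpa using h' 0
  have ha : a = a' := by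
    have h1 := h' 1
    rw [map_one, map_one, mul_one, mul_one, hb] at h1
    exact Units.ext (add_right_cancel h1)
  have hφ : φ = φ' := by
    ext y
    have h1 := h' y
    rw [hb, ha] at h1
    exact mul_left_cancel₀ a'.ne_zero (add_right_cancel h1)
  rw [ha, hb, hφ]

theorem card_aff_eq : Nat.card (affineGroup F) = (Nat.card F - 1) * Nat.card F := by
  classical
  apply le_antisymm (Cfsg.Agent.Lib.EqConj.Aff.card_aff_le F)
  letI : Fintype F := Fintype.ofFinite _
  have hc : Nat.card Fˣ = Nat.card F - 1 := by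
    rw [Nat.card_eq_fintype_card, Fintype.card_units, ← Nat.card_eq_fintype_card]
  rw [← hc, ← Nat.card_prod]
  let m : (Fˣ × F) → affineGroup F := fun x =>
    ⟨(Units.mulLeft x.1).trans (Equiv.addRight x.2), ⟨x.1, x.2, fun y => rfl⟩⟩
  apply Nat.card_le_card_of_injective m
  rintro ⟨a, b⟩ ⟨a', b'⟩ h
  have h' : ∀ y : F, (a : F) * y + b = (a' : F) * y + b' := fun y =>
    congrArg (fun s : affineGroup F => (s : Equiv.Perm F) y) h
  have hb : b = b' := by simpa using h' 0
  have ha : a = a' := by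
    have h1 := h' 1
    rw [mul_one, mul_one, hb] at h1
    exact Units.ext (add_right_cancel h1)
  rw [ha, hb]

end SA

theorem card_semi8 : Nat.card (semiaffineGroup (GaloisField 2 3)) = 168 := by
  rw [card_semi_eq, Cfsg.Agent.Lib.EqConj.Lin.card_gf 3 (by norm_num),
    Cfsg.Agent.Lib.EqConj.Lin.card_ringEquiv 3 (by norm_num)]
  norm_num

theorem card_aff8 : Nat.card (affineGroup (GaloisField 2 3)) = 56 := by
  rw [card_aff_eq, Cfsg.Agent.Lib.EqConj.Lin.card_gf 3 (by norm_num)]
  norm_num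

theorem card_semi32 : Nat.card (semiaffineGroup (GaloisField 2 5)) = 4960 := by
  rw [card_semi_eq, Cfsg.Agent.Lib.EqConj.Lin.card_gf 5 (by norm_num),
    Cfsg.Agent.Lib.EqConj.Lin.card_ringEquiv 5 (by norm_num)]
  norm_num

variable {G : Type u} [Group G] [Finite G]

theorem comm_of_sq {S : Subgroup G} (hel : ∀ a ∈ S, a * a = 1) {a b : G} (ha : a ∈ S) (hb : b ∈ S) :
    a * b = b * a := by
  have h1 := hel _ (S.mul_mem ha hb)
  have h2 := hel _ ha
  have h3 := hel _ hb
  calc a * b = a * b * (b * a * (b * a)) := by rw [hel _ (S.mul_mem hb ha), mul_one]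
    _ = (a * (b * b) * a) * (b * a) := by group
    _ = b * a := by rw [h3, mul_one, h2, one_mul]

section N

variable (S : Sylow 2 G) {n : ℕ} (hcard : Nat.card S = 2 ^ n)
  (hel : ∀ a ∈ (S : Subgroup G), a * a = 1)

include hcard hel

theorem centralizer_subgroupOf :
    centralizer (((S : Subgroup G).subgroupOf (NN (S : Subgroup G)) : Subgroup _) : Set (NN (S : Subgroup G)))
      = (CC (S : Subgroup G)).subgroupOf (NN (S : Subgroup G)) := by
  ext x
  rw [mem_subgroupOf, mem_centralizer_iff, mem_centralizer_iff]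
  constructor
  · intro h y hy
    have hle : (S : Subgroup G) ≤ NN (S : Subgroup G) := Subgroup.le_normalizer
    exact congrArg Subtype.val (h ⟨y, hle hy⟩ (mem_subgroupOf.mpr hy))
  · intro h y hy
    exact Subtype.ext (h _ (mem_subgroupOf.mp hy))

theorem CC_le_NN : CC (S : Subgroup G) ≤ NN (S : Subgroup G) := by
  intro x hx
  rw [mem_normalizer_iff]
  intro y
  rw [mem_centralizer_iff] at hx
  constructor
  · intro hy
    have := hx y hy
    rwa [← this, mul_inv_cancel_right]
  · intro hy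
    have h1 : x * y * x⁻¹ * x = x * (x * y * x⁻¹) := hx _ hy
    have h2 : y = x * y * x⁻¹ := by
      have h3 : x * y = x * (x * y * x⁻¹) := by rw [← h1]; group
      exact mul_left_cancel h3
    rwa [h2]

theorem card_CC :
    Nat.card (CC (S : Subgroup G)) = 2 ^ n * Nat.card (pPrimeCore 2 ↥(NN (S : Subgroup G))) := by
  classical
  have hle : (S : Subgroup G) ≤ NN (S : Subgroup G) := Subgroup.le_normalizer
  have hC0 := centralizer_subgroupOf S hcard hel
  have hCle := CC_le_NN S hcard hel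
  set N := NN (S : Subgroup G) with hNdef
  haveI hP₀ : ((S : Subgroup G).subgroupOf N).Normal := Subgroup.normal_in_normalizer
  set P₀ := (S : Subgroup G).subgroupOf N with hP₀def
  have hcard₀ : Nat.card P₀ = 2 ^ n :=
    (Nat.card_congr (subgroupOfEquivOfLe hle).toEquiv).trans hcard
  have hcm : ∀ a ∈ P₀, ∀ b ∈ P₀, a * b = b * a := by
    intro a ha b hb
    apply Subtype.ext
    exact comm_of_sq hel (mem_subgroupOf.mp ha) (mem_subgroupOf.mp hb)
  have hc : IsMulCommutative P₀ := by
    refine ⟨⟨?_⟩⟩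
    rintro ⟨a, ha⟩ ⟨b, hb⟩
    exact Subtype.ext (hcm a ha b hb)
  have hs : ¬ 2 ∣ P₀.index := fun h => S.not_dvd_index (h.trans (relIndex_dvd_index_of_le hle))
  have hpg : IsPGroup 2 P₀ := IsPGroup.of_card hcard₀
  set K := pPrimeCore 2 N with hK
  have hinf : P₀ ⊓ K = ⊥ := Cfsg.Agent.Lib.EqConj.Red.inf_core hpg
  have hcle : centralizer (P₀ : Set N) ≤ P₀ ⊔ K := Cfsg.Agent.Lib.EqConj.Red.centralizer_le hc hpg hs
  have hC : centralizer (P₀ : Set N) = P₀ ⊔ K := by
    apply le_antisymm hcle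
    apply sup_le
    · intro x hx
      rw [mem_centralizer_iff]
      intro y hy
      exact hcm y hy x hx
    · intro x hx
      rw [mem_centralizer_iff]
      intro y hy
      exact Subgroup.commute_of_normal_of_disjoint P₀ K hP₀ inferInstance
        (by rw [disjoint_iff]; exact hinf) y x hy hx
  have h1 : K.relIndex (P₀ ⊔ K) = K.relIndex P₀ := Subgroup.relIndex_sup_right P₀ K
  have h2 : K.relIndex P₀ = Nat.card P₀ := by
    have : K.subgroupOf P₀ = ⊥ := by
      rw [eq_bot_iff]
      intro x hx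
      have h3 : (x : N) ∈ P₀ ⊓ K := ⟨x.2, mem_subgroupOf.mp hx⟩
      rw [hinf] at h3
      exact (mem_bot).mpr (Subtype.ext h3)
    rw [Subgroup.relIndex, this, Subgroup.index_bot]
  have h3 : Nat.card ↥(K.subgroupOf (P₀ ⊔ K)) * K.relIndex (P₀ ⊔ K) = Nat.card ↥(P₀ ⊔ K) :=
    card_mul_index _
  have h4 : Nat.card ↥(K.subgroupOf (P₀ ⊔ K)) = Nat.card K :=
    Nat.card_congr (subgroupOfEquivOfLe le_sup_right).toEquiv
  have h5 : Nat.card (CC (S : Subgroup G)) = Nat.card ↥(centralizer (P₀ : Set N)) := by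
    rw [hC0]
    exact (Nat.card_congr (subgroupOfEquivOfLe hCle).toEquiv).symm
  rw [h5, hC, ← h3, h4, h1, h2, hcard₀, mul_comm]

theorem card_NN_of_quot {w : ℕ}
    (hq : Nat.card (↥(NN (S : Subgroup G)) ⧸ pPrimeCore 2 ↥(NN (S : Subgroup G))) = w * 2 ^ n) :
    Nat.card (NN (S : Subgroup G)) = w * Nat.card (CC (S : Subgroup G)) := by
  rw [card_CC S hcard hel, Subgroup.card_eq_card_quotient_mul_card_subgroup
    (pPrimeCore 2 ↥(NN (S : Subgroup G))), hq]
  ring

theorem solvable_quot
    (hFT : ∀ (X : Type u) [Group X] [Finite X], Odd (Nat.card X) → Group.IsSolvable X) :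
    Group.IsSolvable (↥(NN (S : Subgroup G)) ⧸ pPrimeCore 2 ↥(NN (S : Subgroup G))) := by
  classical
  have hle : (S : Subgroup G) ≤ NN (S : Subgroup G) := Subgroup.le_normalizer
  set N := NN (S : Subgroup G) with hNdef
  haveI hP₀ : ((S : Subgroup G).subgroupOf N).Normal := Subgroup.normal_in_normalizer
  set P₀ := (S : Subgroup G).subgroupOf N with hP₀def
  have hs : ¬ 2 ∣ P₀.index := fun h => S.not_dvd_index (h.trans (relIndex_dvd_index_of_le hle))
  have hodd : Odd (Nat.card (N ⧸ P₀)) := by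
    rw [← Subgroup.index_eq_card]
    exact Nat.odd_iff.mpr (by omega)
  haveI h1 : Group.IsSolvable (N ⧸ P₀) := hFT _ hodd
  have hcm : ∀ a ∈ P₀, ∀ b ∈ P₀, a * b = b * a := by
    intro a ha b hb
    apply Subtype.ext
    exact comm_of_sq hel (mem_subgroupOf.mp ha) (mem_subgroupOf.mp hb)
  haveI h2 : Group.IsSolvable P₀ := by
    apply Group.isSolvable_of_comm
    rintro ⟨a, ha⟩ ⟨b, hb⟩
    exact Subtype.ext (hcm a ha b hb)
  haveI h3 : Group.IsSolvable N := by
    refine Group.isSolvable_of_ker_le_range P₀.subtype (QuotientGroup.mk' P₀) ?_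
    intro x hx
    rw [QuotientGroup.ker_mk'] at hx
    exact ⟨⟨x, hx⟩, rfl⟩
  infer_instance

end N

/-- The case `n = 2`. -/
theorem n2 (core : oddCore G = ⊥) (S : Sylow 2 G) (hnn : ¬ (S : Subgroup G).Normal)
    (hcard : Nat.card S = 2 ^ 2) (hel : ∀ a ∈ (S : Subgroup G), a * a = 1) :
    Nat.card (NN (S : Subgroup G)) = 3 * Nat.card (CC (S : Subgroup G)) := by
  classical
  have hle : (S : Subgroup G) ≤ NN (S : Subgroup G) := Subgroup.le_normalizer
  have hC0 := centralizer_subgroupOf S hcard hel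
  have hCle := CC_le_NN S hcard hel
  set N := NN (S : Subgroup G) with hNdef
  haveI hP₀ : ((S : Subgroup G).subgroupOf N).Normal := Subgroup.normal_in_normalizer
  set P₀ := (S : Subgroup G).subgroupOf N with hP₀def
  have hcard₀ : Nat.card P₀ = 2 ^ 2 :=
    (Nat.card_congr (subgroupOfEquivOfLe hle).toEquiv).trans hcard
  let f : N →* Equiv.Perm P₀ := (MulAut.toPerm P₀).comp (MulAut.conjNormal (H := P₀))
  have hker : f.ker = (CC (S : Subgroup G)).subgroupOf N := by
    rw [← hC0]
    ext x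
    rw [MonoidHom.mem_ker, mem_centralizer_iff]
    constructor
    · intro h y hy
      have h1 := congrArg (fun e : Equiv.Perm P₀ => ((e ⟨y, hy⟩ : P₀) : N)) h
      have h2 : x * y * x⁻¹ = y := h1
      calc y * x = (x * y * x⁻¹) * x := by rw [h2]
        _ = x * y := by group
    · intro h
      ext ⟨y, hy⟩
      have h2 : y * x = x * y := h y hy
      show ((x * y * x⁻¹ : N) : G) = y
      rw [← h2, mul_inv_cancel_right]
  have hcC : Nat.card f.ker = Nat.card (CC (S : Subgroup G)) := by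
    rw [hker]
    exact Nat.card_congr (subgroupOfEquivOfLe hCle).toEquiv
  have hmul : Nat.card f.range * Nat.card (CC (S : Subgroup G)) = Nat.card N := by
    rw [← hcC, ← Subgroup.index_ker f, mul_comm]
    exact card_mul_index _
  set w := Nat.card f.range with hw
  have hw24 : w ∣ 24 := by
    have h1 : w ∣ Nat.card (Equiv.Perm P₀) := Subgroup.card_subgroup_dvd_card _
    rw [Nat.card_perm, hcard₀] at h1
    simpa [Nat.factorial] using h1
  -- `w` is odd
  have hS4 : 4 ∣ Nat.card (CC (S : Subgroup G)) := by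
    have hle2 : (S : Subgroup G) ≤ CC (S : Subgroup G) := by
      intro x hx
      rw [mem_centralizer_iff]
      intro y hy
      exact comm_of_sq hel hy hx
    have := Subgroup.card_dvd_of_le hle2
    rw [show Nat.card (S : Subgroup G) = 4 by simpa using hcard] at this
    exact this
  have hoddw : ¬ 2 ∣ w := by
    intro h2
    have h8 : 8 ∣ Nat.card G := by
      have h1 : 8 ∣ Nat.card N := by
        rw [← hmul]
        exact (show 8 = 2 * 4 by norm_num) ▸ Nat.mul_dvd_mul h2 hS4
      exact h1.trans (Subgroup.card_subgroup_dvd_card _)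
    have h3 := card_mul_index (S : Subgroup G)
    rw [show Nat.card (S : Subgroup G) = 4 by simpa using hcard] at h3
    rw [← h3] at h8
    have h4 : 2 ∣ (S : Subgroup G).index := by
      rw [show (8 : ℕ) = 4 * 2 by norm_num] at h8
      exact Nat.dvd_of_mul_dvd_mul_left (by norm_num) h8
    exact S.not_dvd_index h4
  -- `w ≠ 1`
  have hw1 : w ≠ 1 := by
    intro h1
    have hNC : CC (S : Subgroup G) = N := by
      apply Subgroup.eq_of_le_of_card_ge hCle
      rw [← hmul, h1, one_mul]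
    have hP : normalizer ((S : Subgroup G) : Set G) ≤ centralizer ((S : Subgroup G) : Set G) := hNC.ge
    have hcompl := MonoidHom.ker_transferSylow_isComplement' S hP
    have hLc : (Nat.card (MonoidHom.transferSylow S hP).ker).Coprime 2 :=
      ((Nat.Prime.coprime_iff_not_dvd Nat.prime_two).mpr
        (MonoidHom.not_dvd_card_ker_transferSylow S hP)).symm
    have hL : (MonoidHom.transferSylow S hP).ker ≤ oddCore G := le_pPrimeCore inferInstance hLc
    rw [core, le_bot_iff] at hL
    have hcm := hcompl.card_mul_card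
    rw [hL, Subgroup.card_bot, one_mul] at hcm
    have htop : (S : Subgroup G) = ⊤ := Subgroup.eq_top_of_card_eq _ hcm
    apply hnn
    rw [htop]
    infer_instance
  have hw3 : w = 3 := by
    have h1 : w ∈ Nat.divisors 24 := Nat.mem_divisors.mpr ⟨hw24, by norm_num⟩
    have h2 : Nat.divisors 24 = {1, 2, 3, 4, 6, 8, 12, 24} := by decide
    rw [h2] at h1
    simp only [Finset.mem_insert, Finset.mem_singleton] at h1
    rcases h1 with h | h | h | h | h | h | h | h <;> first | exact h | (exfalso; rw [h] at hoddw; first | exact hw1 h | exact hoddw (by norm_num))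
  rw [← hmul, hw3]

/-- [GA1] -/
theorem n_data {n : ℕ}
    (hFT : ∀ (X : Type u) [Group X] [Finite X], Odd (Nat.card X) → Group.IsSolvable X)
    (pp : Pp G) (core : oddCore G = ⊥) (hn : 2 ≤ n)
    (hcard : ∀ S : Sylow 2 G, Nat.card S = 2 ^ n)
    (hel : ∀ S : Sylow 2 G, ∀ a ∈ (S : Subgroup G), a * a = 1)
    (hnn : ∀ S : Sylow 2 G, ¬ (S : Subgroup G).Normal) (S : Sylow 2 G) :
    ∃ w : ℕ, Nat.card (NN (S : Subgroup G)) = w * Nat.card (CC (S : Subgroup G)) ∧
      ((n = 2 ∧ w = 3) ∨ (n = 3 ∧ (w = 7 ∨ w = 21)) ∨ (n = 5 ∧ w = 155)) := by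
  rcases Nat.lt_or_ge n 3 with h3 | h3
  · have h2 : n = 2 := by omega
    subst h2
    exact ⟨3, n2 core S (hnn S) (hcard S) (hel S), Or.inl ⟨rfl, rfl⟩⟩
  · have hE : IsElementaryAbelian 2 (S : Subgroup G) := by
      refine ⟨⟨⟨?_⟩⟩, ?_⟩
      · rintro ⟨a, ha⟩ ⟨b, hb⟩
        exact Subtype.ext (comm_of_sq (hel S) ha hb)
      · intro a ha
        rw [sq]
        exact hel S a ha
    have hq := fun w => card_NN_of_quot S (hcard S) (hel S) (w := w)
    have hsolv := solvable_quot S (hcard S) (hel S) hFT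
    rcases Cfsg.Agent.S4025.result (p := 2) (fun H K _ _ hc => pp H K hc) S n h3 hE (hcard S)
      (NN (S : Subgroup G)) rfl hsolv with ⟨rfl, -, h⟩ | ⟨rfl, -, ⟨e⟩⟩
    · rcases h rfl with ⟨⟨e⟩⟩ | ⟨⟨e⟩⟩
      · refine ⟨21, hq 21 ?_, Or.inr (Or.inl ⟨rfl, Or.inr rfl⟩)⟩
        rw [Nat.card_congr e.toEquiv, card_semi8]; norm_num
      · refine ⟨7, hq 7 ?_, Or.inr (Or.inl ⟨rfl, Or.inl rfl⟩)⟩
        rw [Nat.card_congr e.toEquiv, card_aff8]; norm_num
    · refine ⟨155, hq 155 ?_, Or.inr (Or.inr ⟨rfl, rfl⟩)⟩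
      rw [Nat.card_congr e.toEquiv, card_semi32]; norm_num

end Cfsg.Agent.Lib.EqOrd.GA1
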