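/-
S4021. Helper: in `SL₂(F)`, char 2, odd order elements are inverted by an involution; lifting inversion
along a quotient by an odd order normal subgroup.
-/
import Mathlib

set_option autoImplicit false
set_option linter.style.haveILetI false
set_option linter.unusedSectionVars false

namespace Cfsg.Agent.Lib.EqOrd.InvH

open Matrix

theorem sl_equiv_psl' {K : Type*} [Field K] (h20 : (2 : K) = 0) :
    Nonempty (Matrix.SpecialLinearGroup (Fin 2) K ≃* Matrix.ProjectiveSpecialLinearGroup (Fin 2) K) := by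
  have hc : Subgroup.center (Matrix.SpecialLinearGroup (Fin 2) K) = ⊥ := by
    rw [eq_bot_iff]
    intro A hA
    obtain ⟨r, hr, hrA⟩ := Matrix.SpecialLinearGroup.mem_center_iff.1 hA
    rw [Fintype.card_fin] at hr
    have hr1 : r = 1 := by
      have h1 : (r + 1) ^ 2 = 0 := by
        have : (r + 1) ^ 2 = r ^ 2 + 2 * r + 1 := by ring
        rw [this, hr, h20]
        have h5 : (1 : K) + 1 = 0 := by
          have : (1 : K) + 1 = 2 := by norm_num
          rw [this, h20]
        linear_combination h5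
      have h2 : r + 1 = 0 := pow_eq_zero_iff (by norm_num) |>.1 h1
      have h5 : (1 : K) + 1 = 0 := by
        have : (1 : K) + 1 = 2 := by norm_num
        rw [this, h20]
      linear_combination h2 - h5
    rw [Subgroup.mem_bot]
    apply Subtype.ext
    rw [← hrA, hr1]
    simp
  refine ⟨MulEquiv.ofBijective (QuotientGroup.mk' _) ⟨?_, QuotientGroup.mk'_surjective _⟩⟩
  rw [← MonoidHom.ker_eq_bot_iff, QuotientGroup.ker_mk']
  exact hc

section
variable {F : Type*} [Field F]

private theorem neg_eq' (h2 : (2 : F) = 0) (a : F) : -a = a := by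
  have : a + a = 0 := by
    have : a + a = 2 * a := by ring
    rw [this, h2, zero_mul]
  linear_combination -this

private theorem add_self' (h2 : (2 : F) = 0) (a : F) : a + a = 0 := by
  have : a + a = 2 * a := by ring
  rw [this, h2, zero_mul]

/-- The upper unipotent. -/
noncomputable def uu (x : F) : Matrix.SpecialLinearGroup (Fin 2) F :=
  ⟨!![1, x; 0, 1], by simp [Matrix.det_fin_two_of]⟩

noncomputable def ll (x : F) : Matrix.SpecialLinearGroup (Fin 2) F :=
  ⟨!![1, 0; x, 1], by simp [Matrix.det_fin_two_of]⟩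

noncomputable def ww (h2 : (2 : F) = 0) : Matrix.SpecialLinearGroup (Fin 2) F :=
  ⟨!![0, 1; 1, 0], by simp [Matrix.det_fin_two_of, neg_eq' h2]⟩

theorem uu00 (x : F) : (uu x : Matrix (Fin 2) (Fin 2) F) 0 0 = 1 := by simp [uu]
theorem uu01 (x : F) : (uu x : Matrix (Fin 2) (Fin 2) F) 0 1 = x := by simp [uu]
theorem uu10 (x : F) : (uu x : Matrix (Fin 2) (Fin 2) F) 1 0 = 0 := by simp [uu]
theorem uu11 (x : F) : (uu x : Matrix (Fin 2) (Fin 2) F) 1 1 = 1 := by simp [uu]
theorem ll00 (x : F) : (ll x : Matrix (Fin 2) (Fin 2) F) 0 0 = 1 := by simp [ll]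
theorem ll01 (x : F) : (ll x : Matrix (Fin 2) (Fin 2) F) 0 1 = 0 := by simp [ll]
theorem ll10 (x : F) : (ll x : Matrix (Fin 2) (Fin 2) F) 1 0 = x := by simp [ll]
theorem ll11 (x : F) : (ll x : Matrix (Fin 2) (Fin 2) F) 1 1 = 1 := by simp [ll]
theorem ww00 (h2 : (2 : F) = 0) : (ww h2 : Matrix (Fin 2) (Fin 2) F) 0 0 = 0 := by simp [ww]
theorem ww01 (h2 : (2 : F) = 0) : (ww h2 : Matrix (Fin 2) (Fin 2) F) 0 1 = 1 := by simp [ww]
theorem ww10 (h2 : (2 : F) = 0) : (ww h2 : Matrix (Fin 2) (Fin 2) F) 1 0 = 1 := by simp [ww]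
theorem ww11 (h2 : (2 : F) = 0) : (ww h2 : Matrix (Fin 2) (Fin 2) F) 1 1 = 0 := by simp [ww]

theorem orderOf_of_sq {G : Type*} [Group G] {w : G} (h1 : w ≠ 1) (h : w * w = 1) : orderOf w = 2 := by
  apply orderOf_eq_prime (by rw [pow_two]; exact h) h1

theorem ext2 {A B : Matrix.SpecialLinearGroup (Fin 2) F}
    (h00 : (A : Matrix (Fin 2) (Fin 2) F) 0 0 = (B : Matrix (Fin 2) (Fin 2) F) 0 0)
    (h01 : (A : Matrix (Fin 2) (Fin 2) F) 0 1 = (B : Matrix (Fin 2) (Fin 2) F) 0 1)
    (h10 : (A : Matrix (Fin 2) (Fin 2) F) 1 0 = (B : Matrix (Fin 2) (Fin 2) F) 1 0)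
    (h11 : (A : Matrix (Fin 2) (Fin 2) F) 1 1 = (B : Matrix (Fin 2) (Fin 2) F) 1 1) : A = B := by
  apply Subtype.ext
  ext i j
  fin_cases i <;> fin_cases j <;> assumption

theorem coe_mul_apply (A B : Matrix.SpecialLinearGroup (Fin 2) F) (i j : Fin 2) :
    ((A * B : Matrix.SpecialLinearGroup (Fin 2) F) : Matrix (Fin 2) (Fin 2) F) i j =
      (A : Matrix (Fin 2) (Fin 2) F) i 0 * (B : Matrix (Fin 2) (Fin 2) F) 0 j +
      (A : Matrix (Fin 2) (Fin 2) F) i 1 * (B : Matrix (Fin 2) (Fin 2) F) 1 j := by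
  rw [Matrix.SpecialLinearGroup.coe_mul, Matrix.mul_apply, Fin.sum_univ_two]

theorem inv_apply (A : Matrix.SpecialLinearGroup (Fin 2) F) :
    ((A⁻¹ : Matrix.SpecialLinearGroup (Fin 2) F) : Matrix (Fin 2) (Fin 2) F) =
      !![(A : Matrix (Fin 2) (Fin 2) F) 1 1, -(A : Matrix (Fin 2) (Fin 2) F) 0 1;
         -(A : Matrix (Fin 2) (Fin 2) F) 1 0, (A : Matrix (Fin 2) (Fin 2) F) 0 0] := by
  rw [Matrix.SpecialLinearGroup.SL2_inv_expl]
  rfl

theorem conj_eq {G : Type*} [Group G] {s g h : G} (hs : s * s = 1) (e : s * g * s = h) :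
    s * g * s⁻¹ = h := by
  have : s⁻¹ = s := inv_eq_of_mul_eq_one_left hs
  rw [this, e]

theorem sl_inverted (h2 : (2 : F) = 0) (g : Matrix.SpecialLinearGroup (Fin 2) F)
    (hg : Odd (orderOf g)) (hg1 : g ≠ 1) :
    ∃ s : Matrix.SpecialLinearGroup (Fin 2) F, orderOf s = 2 ∧ s * g * s⁻¹ = g⁻¹ := by
  classical
  obtain ⟨a, ha⟩ : ∃ a, a = (g : Matrix (Fin 2) (Fin 2) F) 0 0 := ⟨_, rfl⟩
  obtain ⟨b, hb⟩ : ∃ b, b = (g : Matrix (Fin 2) (Fin 2) F) 0 1 := ⟨_, rfl⟩
  obtain ⟨c, hc⟩ : ∃ c, c = (g : Matrix (Fin 2) (Fin 2) F) 1 0 := ⟨_, rfl⟩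
  obtain ⟨d, hd⟩ : ∃ d, d = (g : Matrix (Fin 2) (Fin 2) F) 1 1 := ⟨_, rfl⟩
  have hdet : a * d - b * c = 1 := by
    have := g.2
    rw [Matrix.det_fin_two] at this
    rw [ha, hb, hc, hd]; exact this
  have hneg := neg_eq' h2
  have hinv00 : ((g⁻¹ : Matrix.SpecialLinearGroup (Fin 2) F) : Matrix (Fin 2) (Fin 2) F) 0 0 = d := by
    rw [inv_apply]; simp [hd]
  have hinv01 : ((g⁻¹ : Matrix.SpecialLinearGroup (Fin 2) F) : Matrix (Fin 2) (Fin 2) F) 0 1 = b := by
    rw [inv_apply]; simp [hneg, hb]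
  have hinv10 : ((g⁻¹ : Matrix.SpecialLinearGroup (Fin 2) F) : Matrix (Fin 2) (Fin 2) F) 1 0 = c := by
    rw [inv_apply]; simp [hneg, hc]
  have hinv11 : ((g⁻¹ : Matrix.SpecialLinearGroup (Fin 2) F) : Matrix (Fin 2) (Fin 2) F) 1 1 = a := by
    rw [inv_apply]; simp [ha]
  have ht : a + d ≠ 0 := by
    intro ht
    have hgg : g * g = 1 := by
      apply ext2
      · rw [coe_mul_apply, ← ha, ← hb, ← hc]
        simp only [Matrix.SpecialLinearGroup.coe_one, Matrix.one_apply_eq]
        linear_combination a * ht + (b * c - a * d) * h2 + hdet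
      · rw [coe_mul_apply, ← ha, ← hb, ← hd]
        simp only [Matrix.SpecialLinearGroup.coe_one, Matrix.one_apply_ne (show (0 : Fin 2) ≠ 1 by decide)]
        linear_combination b * ht
      · rw [coe_mul_apply, ← ha, ← hc, ← hd]
        simp only [Matrix.SpecialLinearGroup.coe_one, Matrix.one_apply_ne (show (1 : Fin 2) ≠ 0 by decide)]
        linear_combination c * ht
      · rw [coe_mul_apply, ← hb, ← hc, ← hd]
        simp only [Matrix.SpecialLinearGroup.coe_one, Matrix.one_apply_eq]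
        linear_combination d * ht + (b * c - a * d) * h2 + hdet
    have h1 : orderOf g ∣ 2 := orderOf_dvd_of_pow_eq_one (by rw [pow_two]; exact hgg)
    have h3 : orderOf g = 1 := by
      rcases (Nat.dvd_prime Nat.prime_two).1 h1 with h | h
      · exact h
      · rw [h] at hg; exact absurd hg (by decide)
    exact hg1 (orderOf_eq_one_iff.1 h3)
  by_cases hc0 : c = 0
  · by_cases hb0 : b = 0
    · refine ⟨ww h2, orderOf_of_sq ?_ ?_, conj_eq ?_ ?_⟩
      · intro h
        have := congrArg (fun A : Matrix.SpecialLinearGroup (Fin 2) F =>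
          (A : Matrix (Fin 2) (Fin 2) F) 0 0) h
        simp [ww00] at this
      · apply ext2 <;> simp [ww00, ww01, ww10, ww11, coe_mul_apply]
      · apply ext2 <;> simp [ww00, ww01, ww10, ww11, coe_mul_apply]
      · apply ext2
        · simp [ww00, ww01, ww10, coe_mul_apply, hinv00, ← hd]
        · simp [ww00, ww01, ww11, coe_mul_apply, hinv01, ← hb, ← hc, hb0, hc0]
        · simp [ww00, ww10, ww11, coe_mul_apply, hinv10, ← hb, ← hc, hb0, hc0]
        · simp [ww01, ww10, ww11, coe_mul_apply, hinv11, ← ha]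
    · obtain ⟨x, hx⟩ : ∃ x, x * b = a + d := ⟨(a + d) / b, div_mul_cancel₀ _ hb0⟩
      have hx0 : x ≠ 0 := by
        rintro rfl
        exact ht (by rw [← hx, zero_mul])
      refine ⟨ll x, orderOf_of_sq ?_ ?_, conj_eq ?_ ?_⟩
      · intro h
        have := congrArg (fun A : Matrix.SpecialLinearGroup (Fin 2) F =>
          (A : Matrix (Fin 2) (Fin 2) F) 1 0) h
        simp [ll10, hx0] at this
      · apply ext2 <;> simp [ll00, ll01, ll10, ll11, coe_mul_apply]
        · linear_combination x * h2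
      · apply ext2 <;> simp [ll00, ll01, ll10, ll11, coe_mul_apply]
        · linear_combination x * h2
      · apply ext2
        · simp [ll00, ll01, ll10, coe_mul_apply, hinv00, ← ha, ← hb]
          linear_combination hx + a * h2
        · simp [ll00, ll01, ll11, coe_mul_apply, hinv01, ← hb]
        · simp [ll00, ll10, ll11, coe_mul_apply, hinv10, ← ha, ← hb, ← hc, ← hd]
          linear_combination x * hx + x * (a + d) * h2
        · simp [ll01, ll10, ll11, coe_mul_apply, hinv11, ← hb, ← hd]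
          linear_combination hx + d * h2
  · obtain ⟨x, hx⟩ : ∃ x, x * c = a + d := ⟨(a + d) / c, div_mul_cancel₀ _ hc0⟩
    have hx0 : x ≠ 0 := by
      rintro rfl
      exact ht (by rw [← hx, zero_mul])
    refine ⟨uu x, orderOf_of_sq ?_ ?_, conj_eq ?_ ?_⟩
    · intro h
      have := congrArg (fun A : Matrix.SpecialLinearGroup (Fin 2) F =>
        (A : Matrix (Fin 2) (Fin 2) F) 0 1) h
      simp [uu01, hx0] at this
    · apply ext2 <;> simp [uu00, uu01, uu10, uu11, coe_mul_apply]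
      · linear_combination x * h2
    · apply ext2 <;> simp [uu00, uu01, uu10, uu11, coe_mul_apply]
      · linear_combination x * h2
    · apply ext2
      · simp [uu00, uu01, uu10, coe_mul_apply, hinv00, ← ha, ← hc]
        linear_combination hx + a * h2
      · simp [uu00, uu01, uu11, coe_mul_apply, hinv01, ← ha, ← hb, ← hc, ← hd]
        linear_combination x * hx + x * (a + d) * h2
      · simp [uu00, uu10, uu11, coe_mul_apply, hinv10, ← hc]
      · simp [uu01, uu10, uu11, coe_mul_apply, hinv11, ← hc, ← hd]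
        linear_combination hx + d * h2

/-- `PSL₂` version. -/
theorem psl_inverted' (hF : (2 : F) = 0)
    (g : Matrix.ProjectiveSpecialLinearGroup (Fin 2) F) (hg : Odd (orderOf g)) (hg1 : g ≠ 1) :
    ∃ s, orderOf s = 2 ∧ s * g * s⁻¹ = g⁻¹ := by
  obtain ⟨e⟩ := sl_equiv_psl' hF
  have h1 : orderOf (e.symm g) = orderOf g := MulEquiv.orderOf_eq _ _
  have h3 : e.symm g ≠ 1 := by
    intro h
    apply hg1
    rw [← e.apply_symm_apply g, h, map_one]
  obtain ⟨s, hs, hsg⟩ := sl_inverted hF (e.symm g) (by rw [h1]; exact hg) h3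
  refine ⟨e s, ?_, ?_⟩
  · rw [MulEquiv.orderOf_eq, hs]
  · have := congrArg e hsg
    simpa using this

end

section lift

variable {Y : Type*} [Group Y] [Finite Y]

/-- Lifting an inverted element of order `q` along a quotient by an odd normal subgroup. -/
theorem inv_lift' (N : Subgroup Y) [N.Normal] (hodd : Odd (Nat.card N)) (q : ℕ) (hq : q.Prime) (hq2 : q ≠ 2)
    (g s : Y ⧸ N) (hg : orderOf g = q) (hs : orderOf s = 2) (hsg : s * g * s⁻¹ = g⁻¹) :
    ∃ x t : Y, orderOf x = q ∧ orderOf t = 2 ∧ t * x * t⁻¹ = x⁻¹ := by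
  obtain ⟨y, rfl⟩ := QuotientGroup.mk'_surjective N g
  obtain ⟨w, rfl⟩ := QuotientGroup.mk'_surjective N s
  let π := QuotientGroup.mk' N
  -- the involution
  have hw2 : w ^ 2 ∈ N := by
    rw [← QuotientGroup.eq_one_iff]
    have : (π w) ^ 2 = 1 := by rw [← hs]; exact pow_orderOf_eq_one _
    simpa [π] using this
  obtain ⟨k, hk⟩ := hodd
  set m := Nat.card N with hm
  have hm2 : (w ^ 2) ^ m = 1 := by
    have h1 := pow_card_eq_one' (x := (⟨w ^ 2, hw2⟩ : N))
    exact congrArg (Subtype.val) h1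
  have ht2 : (w ^ m) * (w ^ m) = 1 := by
    rw [← pow_add, ← two_mul, pow_mul]; exact hm2
  have hs2 : (π w) ^ 2 = 1 := by rw [← hs]; exact pow_orderOf_eq_one _
  have hπt : π (w ^ m) = π w := by
    rw [map_pow, hk, pow_succ, pow_mul, hs2, one_pow, one_mul]
  have ht1 : w ^ m ≠ 1 := by
    intro h
    have h3 : π w = 1 := by rw [← hπt, h, map_one]
    have : orderOf (π w) = 1 := by rw [h3]; exact orderOf_one
    change orderOf (π w) = 2 at hs
    omega
  set t := w ^ m with ht
  have htinv : t⁻¹ = t := inv_eq_of_mul_eq_one_left ht2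
  set u := y * (t * y⁻¹ * t⁻¹) with hu
  have hinvu : t * u * t⁻¹ = u⁻¹ := by
    rw [hu, htinv]
    simp only [_root_.mul_inv_rev, inv_inv, htinv]
    calc t * (y * (t * y⁻¹ * t)) * t = t * y * (t * y⁻¹ * (t * t)) := by simp only [mul_assoc]
      _ = t * y * t * y⁻¹ := by rw [ht2]; simp only [mul_assoc, mul_one]
      _ = _ := by simp only [mul_assoc]
  have hsg' : π w * π y * (π w)⁻¹ = (π y)⁻¹ := hsg
  have hπu : π u = (π y) ^ 2 := by
    rw [hu, map_mul, map_mul, map_mul, map_inv, map_inv, hπt, pow_two]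
    congr 1
    have := congrArg (fun z => z⁻¹) hsg'
    simpa [mul_assoc] using this
  have hg' : orderOf (π y) = q := hg
  have hq1 : Nat.Coprime (orderOf (π y)) 2 := by
    rw [hg']; exact (Nat.coprime_primes hq Nat.prime_two).2 hq2
  have hπuo : orderOf (π u) = q := by
    rw [hπu, hq1.orderOf_pow, hg']
  have hqu : q ∣ orderOf u := by
    rw [← hπuo]; exact orderOf_map_dvd π u
  refine ⟨u ^ (orderOf u / q), t, ?_, ?_, ?_⟩
  · exact orderOf_pow_orderOf_div (orderOf_pos u).ne' hqu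
  · exact orderOf_of_sq ht1 ht2
  · rw [← conj_pow, hinvu, inv_pow]

end lift

end Cfsg.Agent.Lib.EqOrd.InvH
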