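import Cfsg.Agent.Lib.EqOrd.Pp
import Cfsg.Agent.S4020
import Cfsg.Agent.S0023

/-!
S4021 [GA3]. `p`-handling: if `|N(S):C(S)| = p (2^n - 1)`, `(n, p) = (3, 3)` or `(5, 5)`, the subgroup generated by the
involutions has order prime to `p`.
-/

set_option autoImplicit false
set_option linter.style.haveILetI false
set_option linter.unusedSectionVars false
set_option linter.unusedVariables false

namespace Cfsg.Agent.Lib.EqOrd.PND

open Subgroup Cfsg.Agent.Lib.EqOrd.Defs Cfsg.Agent.Lib.EqOrd.PpL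

universe u

variable {G : Type u} [Group G] [Finite G] {n p : ℕ}

theorem comm_sq {S : Subgroup G} (hel : ∀ a ∈ S, a * a = 1) {a b : G} (ha : a ∈ S) (hb : b ∈ S) :
    a * b = b * a := by
  have h1 := hel _ (S.mul_mem ha hb)
  have h2 := hel _ ha
  have h3 := hel _ hb
  calc a * b = a * (a * b * (a * b)) * b := by rw [h1]; group
    _ = (a * a) * b * a * (b * b) := by group
    _ = b * a := by rw [h2, h3]; group

/-- Fixed points modulo `p`. -/
theorem card_fix_modEq [Fact p.Prime] {S : Subgroup G} {y : G} (hy : y ∈ normalizer (S : Set G)) (hyp : y ^ p = 1) :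
    Nat.card S ≡ Nat.card (S ⊓ centralizer ({y} : Set G) : Subgroup G) [MOD p] := by
  classical
  have hn : ∀ a ∈ S, y * a * y⁻¹ ∈ S := fun a ha => (mem_normalizer_iff.1 hy a).1 ha
  let f : Function.End S := fun a => ⟨y * a * y⁻¹, hn a a.2⟩
  have hit : ∀ (k : ℕ) (a : S), (((f ^ k) a : S) : G) = y ^ k * a * (y ^ k)⁻¹ := by
    intro k
    induction k with
    | zero =>
      intro a
      simp only [pow_zero]
      show (a : G) = 1 * a * 1⁻¹
      simp
    | succ k ih =>
      intro a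
      rw [pow_succ']
      show y * ((f ^ k) a : G) * y⁻¹ = _
      rw [ih, pow_succ']
      group
  have hf : f ^ p ^ 1 = 1 := by
    funext a
    apply Subtype.ext
    rw [pow_one, hit, hyp]
    simp
    rfl
  letI := Fintype.ofFinite S
  have h1 := Equiv.Perm.card_fixedPoints_modEq (p := p) (n := 1) hf
  rw [← Nat.card_eq_fintype_card] at h1
  have h2 : Fintype.card (Function.fixedPoints f) = Nat.card (S ⊓ centralizer ({y} : Set G) : Subgroup G) := by
    rw [← Nat.card_eq_fintype_card]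
    refine Nat.card_congr ⟨fun a => ⟨a.1.1, a.1.2, ?_⟩, fun a => ⟨⟨a.1, a.2.1⟩, ?_⟩, ?_, ?_⟩
    · have h3 : y * a.1.1 * y⁻¹ = a.1.1 := congrArg Subtype.val a.2
      show a.1.1 ∈ centralizer ({y} : Set G)
      rw [mem_centralizer_singleton_iff]
      rw [mul_inv_eq_iff_eq_mul] at h3
      exact h3.symm
    · have h3 : a.1 ∈ centralizer ({y} : Set G) := a.2.2
      rw [mem_centralizer_singleton_iff] at h3
      apply Subtype.ext
      show y * a.1 * y⁻¹ = a.1
      rw [mul_inv_eq_iff_eq_mul]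
      exact h3.symm
    · intro a
      rfl
    · intro a
      rfl
  rw [h2] at h1
  exact h1

/-- The number of fixed points of an element of order `p`. -/
theorem fix_count [Fact p.Prime] (hp : (n = 3 ∧ p = 3) ∨ (n = 5 ∧ p = 5))
    (hcard : ∀ S : Sylow 2 G, Nat.card S = 2 ^ n) (S : Sylow 2 G) {y : G}
    (hy : y ∈ normalizer ((S : Subgroup G) : Set G)) (hyp : y ^ p = 1) :
    Nat.card ((S : Subgroup G) ⊓ centralizer ({y} : Set G) : Subgroup G) = 2 ∨
      Nat.card ((S : Subgroup G) ⊓ centralizer ({y} : Set G) : Subgroup G) = 2 ^ n := by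
  have h1 := card_fix_modEq hy hyp
  have hS : Nat.card (S : Subgroup G) = 2 ^ n := hcard S
  rw [hS] at h1
  have hd : Nat.card ((S : Subgroup G) ⊓ centralizer ({y} : Set G) : Subgroup G) ∣ 2 ^ n := by
    rw [← hS]
    exact Subgroup.card_dvd_of_le inf_le_left
  obtain ⟨k, hk, hk'⟩ := (Nat.dvd_prime_pow Nat.prime_two).1 hd
  rw [hk'] at h1 ⊢
  rcases hp with ⟨rfl, rfl⟩ | ⟨rfl, rfl⟩
  · interval_cases k <;> first | (left; norm_num; done) | (right; norm_num; done) | exact absurd h1 (by decide)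
  · interval_cases k <;> first | (left; norm_num; done) | (right; norm_num; done) | exact absurd h1 (by decide)

theorem exists_t [Fact p.Prime] (hp : (n = 3 ∧ p = 3) ∨ (n = 5 ∧ p = 5))
    (hcard : ∀ S : Sylow 2 G, Nat.card S = 2 ^ n) (hel : ∀ S : Sylow 2 G, ∀ a ∈ (S : Subgroup G), a * a = 1)
    (S : Sylow 2 G) {y : G} (hy : y ∈ normalizer ((S : Subgroup G) : Set G)) (hyp : y ^ p = 1) :
    ∃ t ∈ (S : Subgroup G), orderOf t = 2 ∧ t * y = y * t := by
  have h2n : 1 < 2 ^ n := by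
    rcases hp with ⟨rfl, rfl⟩ | ⟨rfl, rfl⟩ <;> norm_num
  have h1 : 1 < Nat.card ((S : Subgroup G) ⊓ centralizer ({y} : Set G) : Subgroup G) := by
    rcases fix_count hp hcard S hy hyp with h | h <;> rw [h]
    · norm_num
    · exact h2n
  haveI : Nontrivial ((S : Subgroup G) ⊓ centralizer ({y} : Set G) : Subgroup G) :=
    Finite.one_lt_card_iff_nontrivial.1 h1
  obtain ⟨⟨t, ht⟩, ht1⟩ := exists_ne (1 : ((S : Subgroup G) ⊓ centralizer ({y} : Set G) : Subgroup G))
  have ht1' : t ≠ 1 := fun e => ht1 (Subtype.ext e)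
  refine ⟨t, ht.1, ?_, ?_⟩
  · exact orderOf_eq_prime (by rw [pow_two]; exact hel S t ht.1) ht1'
  · have h3 : t ∈ centralizer ({y} : Set G) := ht.2
    rw [mem_centralizer_singleton_iff] at h3
    exact h3

/-- An involution lies in a unique Sylow subgroup. -/
theorem syl_uniq (pp : Pp G) (hel : ∀ S : Sylow 2 G, ∀ a ∈ (S : Subgroup G), a * a = 1) {S S' : Sylow 2 G} {t : G}
    (ht : orderOf t = 2) (hS : t ∈ (S : Subgroup G)) (hS' : t ∈ (S' : Subgroup G)) : S = S' := by
  have : Fact (Nat.Prime 2) := ⟨Nat.prime_two⟩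
  have hcomm : ∀ u ∈ (S : Subgroup G), ∀ v ∈ (S' : Subgroup G), u * v = v * u := by
    intro u hu v hv
    by_cases hu1 : u = 1
    · rw [hu1]; group
    by_cases hv1 : v = 1
    · rw [hv1]; group
    have hu2 : orderOf u = 2 := orderOf_eq_prime (by rw [pow_two]; exact hel S u hu) hu1
    have hv2 : orderOf v = 2 := orderOf_eq_prime (by rw [pow_two]; exact hel S' v hv) hv1
    exact inv_comm pp hel t u v ht hu2 hv2 (comm_sq (hel S) hu hS) (comm_sq (hel S') hv hS')
  have hle : (S' : Subgroup G) ≤ normalizer ((S : Subgroup G) : Set G) := by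
    intro v hv
    rw [mem_normalizer_iff]
    intro u
    constructor
    · intro hu
      have : v * u * v⁻¹ = u := by rw [← hcomm u hu v hv]; group
      rwa [this]
    · intro hu
      have h1 := hcomm _ hu v hv
      have h2 : v * u * v⁻¹ * v = v * u := by group
      rw [h2] at h1
      have h3 : v * (v * u * v⁻¹) = v * u := h1.symm
      have h4 : v * u * v⁻¹ = u := mul_left_cancel h3
      rwa [h4] at hu
  have h2 := IsPGroup.to_sup_of_normal_left' S.isPGroup' S'.isPGroup' hle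
  have h3 := S.is_maximal' h2 le_sup_left
  have h4 : (S' : Subgroup G) ≤ (S : Subgroup G) := by
    rw [← h3]
    exact le_sup_right
  have h5 := S'.is_maximal' S.isPGroup' h4
  exact Sylow.ext h5

/-- `C(t) ≤ N(S)` for `t ∈ S`. -/
theorem cent_le_N (pp : Pp G) (hel : ∀ S : Sylow 2 G, ∀ a ∈ (S : Subgroup G), a * a = 1) {S : Sylow 2 G} {t g : G}
    (ht : orderOf t = 2) (hS : t ∈ (S : Subgroup G)) (hg : g * t = t * g) :
    g ∈ normalizer ((S : Subgroup G) : Set G) := by
  have : Fact (Nat.Prime 2) := ⟨Nat.prime_two⟩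
  refine (Sylow.smul_eq_iff_mem_normalizer (P := S)).1 ?_
  symm
  apply syl_uniq pp hel ht hS
  rw [Sylow.coe_subgroup_smul]
  have h1 := Subgroup.smul_mem_pointwise_smul t (MulAut.conj g) (S : Subgroup G) hS
  have h2 : (MulAut.conj g) • t = t := by
    rw [MulAut.smul_def, MulAut.conj_apply, hg]
    group
  rwa [h2] at h1

/-- An involution normalizing an abelian `p`-subgroup centralizes it. -/
theorem inv_centralize [hpf : Fact p.Prime] (pp : Pp G) (hp2 : p ≠ 2) (P : Subgroup G) (hPp : IsPGroup p P)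
    (hPab : ∀ a ∈ P, ∀ b ∈ P, a * b = b * a) {y t c : G} (hy : orderOf y = p) (ht : orderOf t = 2)
    (hty : t * y = y * t) (hc : orderOf c = 2) (hcN : c ∈ normalizer (P : Set G)) :
    c ∈ centralizer (P : Set G) := by
  by_contra hcon
  rw [mem_centralizer_iff] at hcon
  push Not at hcon
  obtain ⟨x, hx, hxc⟩ := hcon
  have hcc : c * c = 1 := by
    rw [← pow_two, ← hc]
    exact pow_orderOf_eq_one c
  have hcinv : c⁻¹ = c := inv_eq_of_mul_eq_one_left hcc
  have hxc' : c * x * c⁻¹ ∈ P := (mem_normalizer_iff.1 hcN x).1 hx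
  set w := x⁻¹ * (c * x * c⁻¹) with hw
  have hwP : w ∈ P := P.mul_mem (P.inv_mem hx) hxc'
  have hw1 : w ≠ 1 := by
    intro h1
    apply hxc
    have h2 : c * x * c⁻¹ = x := by
      have : x * w = c * x * c⁻¹ := by rw [hw]; group
      rw [← this, h1, mul_one]
    calc x * c = c * x * c⁻¹ * c := by rw [h2]
      _ = c * x := by group
  have hwinv : c * w * c⁻¹ = w⁻¹ := by
    have hw2 : w = x⁻¹ * (c * x * c) := by rw [hw, hcinv]
    rw [hw2, hcinv]
    have h1 : c * (x⁻¹ * (c * x * c)) * c = (c * x⁻¹ * c) * x * (c * c) := by group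
    rw [h1, hcc, mul_one]
    have h2 : (x⁻¹ * (c * x * c))⁻¹ = (c * x⁻¹ * c) * x := by
      rw [_root_.mul_inv_rev, inv_inv, _root_.mul_inv_rev, _root_.mul_inv_rev, hcinv]
      group
    rw [h2]
  obtain ⟨k, hk⟩ := hPp ⟨w, hwP⟩
  have hk' : w ^ p ^ k = 1 := congrArg Subtype.val hk
  have hod : orderOf w ∣ p ^ k := orderOf_dvd_of_pow_eq_one hk'
  have hop : p ∣ orderOf w := by
    obtain ⟨e, he, he'⟩ := (Nat.dvd_prime_pow hpf.out).1 hod
    rcases Nat.eq_zero_or_pos e with h0 | h0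
    · rw [h0, pow_zero] at he'
      exact absurd (orderOf_eq_one_iff.1 he') hw1
    · rw [he']
      exact dvd_pow_self p (by omega)
  have hop0 : orderOf w ≠ 0 := by
    intro h0
    rw [h0] at hod
    exact absurd (Nat.eq_zero_of_zero_dvd hod) (pow_ne_zero _ hpf.out.ne_zero)
  have hw' : orderOf (w ^ (orderOf w / p)) = p := orderOf_pow_orderOf_div hop0 hop
  refine coinv pp p hpf.out hp2 y (w ^ (orderOf w / p)) t c hy hw' ht hc hty ?_
  rw [← conj_pow, hwinv, inv_pow]

/-- A `2`-element is an involution or trivial. -/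
theorem two_elt_sq (hel : ∀ S : Sylow 2 G, ∀ a ∈ (S : Subgroup G), a * a = 1) {c : G} {f : ℕ} (hc : c ^ 2 ^ f = 1) :
    c * c = 1 := by
  have : Fact (Nat.Prime 2) := ⟨Nat.prime_two⟩
  have hpg : IsPGroup 2 (zpowers c) := by
    rintro ⟨g, z, rfl⟩
    refine ⟨f, ?_⟩
    ext
    simp only [SubgroupClass.coe_pow, OneMemClass.coe_one]
    show (c ^ z) ^ 2 ^ f = 1
    rw [← zpow_natCast, ← zpow_mul, mul_comm, zpow_mul, zpow_natCast, hc, one_zpow]
  obtain ⟨Q, hQ⟩ := hpg.exists_le_sylow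
  exact hel Q c (hQ (mem_zpowers c))

/-- In the cyclic case the normalizer is the centralizer. -/
theorem norm_le_cent_cyc [hpf : Fact p.Prime] (pp : Pp G) (hp2 : p ≠ 2) (hp4 : p - 1 ∣ 4)
    (hel : ∀ S : Sylow 2 G, ∀ a ∈ (S : Subgroup G), a * a = 1) (P : Sylow p G)
    (hcyc : IsCyclic (P : Subgroup G)) {y t : G} (hy : orderOf y = p) (ht : orderOf t = 2) (hty : t * y = y * t) :
    normalizer ((P : Subgroup G) : Set G) ≤ centralizer ((P : Subgroup G) : Set G) := by
  classical
  have hPab : ∀ a ∈ (P : Subgroup G), ∀ b ∈ (P : Subgroup G), a * b = b * a := by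
    intro a ha b hb
    haveI := hcyc
    have := IsCyclic.exists_generator (α := (P : Subgroup G))
    obtain ⟨g, hg⟩ := this
    obtain ⟨i, hi⟩ := Subgroup.mem_zpowers_iff.1 (hg ⟨a, ha⟩)
    obtain ⟨j, hj⟩ := Subgroup.mem_zpowers_iff.1 (hg ⟨b, hb⟩)
    have hi' : ((g : G)) ^ i = a := congrArg Subtype.val hi
    have hj' : ((g : G)) ^ j = b := congrArg Subtype.val hj
    rw [← hi', ← hj', ← zpow_add, ← zpow_add, add_comm]
  let ρ := (P : Subgroup G).normalizerMonoidHom
  have hkerρ : ρ.ker = (centralizer ((P : Subgroup G) : Set G)).subgroupOf (normalizer ((P : Subgroup G) : Set G)) :=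
    Subgroup.normalizerMonoidHom_ker _
  have hPC : (P : Subgroup G) ≤ centralizer ((P : Subgroup G) : Set G) := by
    intro a ha
    rw [mem_centralizer_iff]
    intro b hb
    exact hPab b hb a ha
  have hPN : (P : Subgroup G) ≤ normalizer ((P : Subgroup G) : Set G) := le_normalizer
  -- the order of the automizer
  set k := Nat.card ρ.range with hk
  have hN : Nat.card (normalizer ((P : Subgroup G) : Set G)) = Nat.card ρ.ker * k := by
    rw [hk, ← Subgroup.index_ker, Subgroup.card_mul_index]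
  have hPker : Nat.card (P : Subgroup G) ∣ Nat.card ρ.ker := by
    have h1 : (P : Subgroup G).subgroupOf (normalizer ((P : Subgroup G) : Set G)) ≤ ρ.ker := by
      rw [hkerρ]
      intro a ha
      exact hPC ha
    have h2 := Subgroup.card_dvd_of_le h1
    rwa [Nat.card_congr (Subgroup.subgroupOfEquivOfLe hPN).toEquiv] at h2
  have hkp : ¬ p ∣ k := by
    intro hd
    have h1 : Nat.card (P : Subgroup G) * p ∣ Nat.card G := by
      have h2 : Nat.card (P : Subgroup G) * p ∣ Nat.card ρ.ker * k := Nat.mul_dvd_mul hPker hd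
      rw [← hN] at h2
      exact h2.trans (Subgroup.card_subgroup_dvd_card _)
    have h3 : Nat.card G = Nat.card (P : Subgroup G) * (P : Subgroup G).index := (Subgroup.card_mul_index _).symm
    rw [h3] at h1
    have hpos : 0 < Nat.card (P : Subgroup G) := Nat.card_pos
    exact P.not_dvd_index (Nat.dvd_of_mul_dvd_mul_left hpos h1)
  have hkaut : k ∣ Nat.totient (Nat.card (P : Subgroup G)) := by
    rw [← IsCyclic.card_mulAut]
    exact Subgroup.card_subgroup_dvd_card _
  have hk4 : k ∣ 4 := by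
    obtain ⟨a, ha⟩ := (IsPGroup.iff_card (p := p) (G := (P : Subgroup G))).1 P.isPGroup'
    rw [ha] at hkaut
    rcases Nat.eq_zero_or_pos a with h0 | h0
    · rw [h0, pow_zero, Nat.totient_one] at hkaut
      exact (Nat.dvd_one.1 hkaut) ▸ one_dvd _
    · rw [Nat.totient_prime_pow hpf.out h0] at hkaut
      have hcop : Nat.Coprime k (p ^ (a - 1)) := Nat.Coprime.pow_right _ ((Nat.Prime.coprime_iff_not_dvd hpf.out).2 hkp).symm
      exact (hcop.dvd_of_dvd_mul_left hkaut).trans hp4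
  intro g hg
  by_contra hgC
  let g' : normalizer ((P : Subgroup G) : Set G) := ⟨g, hg⟩
  have hρ4 : ρ g' ^ 4 = 1 := by
    have h1 : (⟨ρ g', ⟨g', rfl⟩⟩ : ρ.range) ^ Nat.card ρ.range = 1 := pow_card_eq_one'
    have h2 : (ρ g') ^ k = 1 := congrArg Subtype.val h1
    obtain ⟨d, hd⟩ := hk4
    rw [hd, pow_mul, h2, one_pow]
  have hmemker : ∀ x : normalizer ((P : Subgroup G) : Set G), ρ x = 1 ↔ (x : G) ∈ centralizer ((P : Subgroup G) : Set G) := by
    intro x
    rw [← MonoidHom.mem_ker, hkerρ]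
    rfl
  have hg0 : orderOf g ≠ 0 := (orderOf_pos g).ne'
  obtain ⟨f, m, hm, hfm⟩ := Nat.exists_eq_two_pow_mul_odd hg0
  let c' : normalizer ((P : Subgroup G) : Set G) := g' ^ m
  have hcG : (c' : G) = g ^ m := rfl
  have hcC : (c' : G) ∉ centralizer ((P : Subgroup G) : Set G) := by
    intro hcon
    apply hgC
    have h1 : ρ g' ^ m = 1 := by
      rw [← map_pow]
      exact (hmemker c').2 hcon
    have h2 : ρ g' ^ Nat.gcd m 4 = 1 := pow_gcd_eq_one.2 ⟨h1, hρ4⟩
    have h3 : Nat.gcd m 4 = 1 := by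
      have : Nat.Coprime m (2 ^ 2) := Nat.Coprime.pow_right _ (Nat.coprime_two_right.2 hm)
      simpa using this
    rw [h3, pow_one] at h2
    exact (hmemker g').1 h2
  have hc2 : (c' : G) ^ 2 ^ f = 1 := by
    rw [hcG, ← pow_mul, mul_comm, ← hfm]
    exact pow_orderOf_eq_one g
  have hcc := two_elt_sq hel hc2
  have hc1 : (c' : G) ≠ 1 := by
    intro h1
    apply hcC
    rw [h1]
    exact one_mem _
  have hco : orderOf (c' : G) = 2 := orderOf_eq_prime (by rw [pow_two]; exact hcc) hc1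
  exact hcC (inv_centralize pp hp2 (P : Subgroup G) P.isPGroup' hPab hy ht hty hco c'.2)

/-- The arithmetic of the case. -/
theorem arith_aux (hp : (n = 3 ∧ p = 3) ∨ (n = 5 ∧ p = 5)) : ¬ p ∣ 2 ^ n - 1 := by
  rcases hp with ⟨rfl, rfl⟩ | ⟨rfl, rfl⟩ <;> norm_num

/-- The elementary abelian case: the Sylow subgroup has order `p`. -/
theorem card_eq_p [hpf : Fact p.Prime] (pp : Pp G) (hp : (n = 3 ∧ p = 3) ∨ (n = 5 ∧ p = 5))
    (hcard : ∀ S : Sylow 2 G, Nat.card S = 2 ^ n) (hel : ∀ S : Sylow 2 G, ∀ a ∈ (S : Subgroup G), a * a = 1)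
    (hEl : ∀ Q : Sylow p G, (∀ a ∈ (Q : Subgroup G), a ^ p = 1) ∧ ∀ a ∈ (Q : Subgroup G), ∀ b ∈ (Q : Subgroup G), a * b = b * a)
    (S : Sylow 2 G)
    (hw : Nat.card (NN (S : Subgroup G)) = (p * (2 ^ n - 1)) * Nat.card (CC (S : Subgroup G)))
    (Q : Sylow p G) : Nat.card (Q : Subgroup G) = p := by
  classical
  have h2 : Fact (Nat.Prime 2) := ⟨Nat.prime_two⟩
  have hp2 : p ≠ 2 := by
    rcases hp with ⟨_, rfl⟩ | ⟨_, rfl⟩ <;> norm_num
  have hpP := hpf.out
  -- `p`-elements
  have hpe : ∀ x : G, ∀ e : ℕ, x ^ p ^ e = 1 → x ^ p = 1 ∧ ∃ Q : Sylow p G, x ∈ (Q : Subgroup G) := by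
    intro x e hx
    have hpg : IsPGroup p (zpowers x) := by
      rintro ⟨g, z, rfl⟩
      refine ⟨e, ?_⟩
      ext
      simp only [SubgroupClass.coe_pow, OneMemClass.coe_one]
      show (x ^ z) ^ p ^ e = 1
      rw [← zpow_natCast, ← zpow_mul, mul_comm, zpow_mul, zpow_natCast, hx, one_zpow]
    obtain ⟨Q, hQ⟩ := hpg.exists_le_sylow
    exact ⟨(hEl Q).1 x (hQ (mem_zpowers x)), Q, hQ (mem_zpowers x)⟩
  -- the moved element
  have hCN : CC (S : Subgroup G) ≤ NN (S : Subgroup G) := centralizer_le_normalizer _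
  let ρ := (S : Subgroup G).normalizerMonoidHom
  have hkerρ : ρ.ker = (centralizer ((S : Subgroup G) : Set G)).subgroupOf (normalizer ((S : Subgroup G) : Set G)) :=
    Subgroup.normalizerMonoidHom_ker _
  have hCpos : 0 < Nat.card (CC (S : Subgroup G)) := Nat.card_pos
  have hrange : Nat.card ρ.range = p * (2 ^ n - 1) := by
    have h1 := Subgroup.card_mul_index ρ.ker
    rw [Subgroup.index_ker, hkerρ, Nat.card_congr (Subgroup.subgroupOfEquivOfLe hCN).toEquiv] at h1
    have h3 : Nat.card (CC (S : Subgroup G)) * Nat.card ρ.range = Nat.card (CC (S : Subgroup G)) * (p * (2 ^ n - 1)) := by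
      rw [h1]
      show Nat.card (NN (S : Subgroup G)) = _
      rw [hw]
      ring
    exact Nat.eq_of_mul_eq_mul_left hCpos h3
  obtain ⟨f, hf⟩ := exists_prime_orderOf_dvd_card' (G := ρ.range) p (by rw [hrange]; exact dvd_mul_right _ _)
  obtain ⟨x, hx⟩ := f.2
  have hfo : orderOf (ρ x) = p := by
    rw [hx, Subgroup.orderOf_coe]
    exact hf
  have hx0 : orderOf (x : G) ≠ 0 := (orderOf_pos _).ne'
  obtain ⟨e, m, hm, hem⟩ := Nat.exists_eq_pow_mul_and_not_dvd hx0 p hpP.ne_one
  let z' : normalizer ((S : Subgroup G) : Set G) := x ^ m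
  set z : G := (z' : G) with hz
  have hzpe : z ^ p ^ e = 1 := by
    have : z = (x : G) ^ m := rfl
    rw [this, ← pow_mul, mul_comm, ← hem]
    exact pow_orderOf_eq_one _
  have hρz : ρ z' ≠ 1 := by
    intro h1
    rw [map_pow] at h1
    have h3 := orderOf_dvd_of_pow_eq_one h1
    rw [hfo] at h3
    exact hm h3
  have hmemker : ∀ a : normalizer ((S : Subgroup G) : Set G), ρ a = 1 ↔ (a : G) ∈ centralizer ((S : Subgroup G) : Set G) := by
    intro a
    rw [← MonoidHom.mem_ker, hkerρ]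
    rfl
  have hzC : z ∉ centralizer ((S : Subgroup G) : Set G) := fun h1 => hρz ((hmemker z').2 h1)
  have hz1 : z ≠ 1 := by
    intro h1
    apply hzC
    rw [h1]
    exact one_mem _
  have hzN : z ∈ normalizer ((S : Subgroup G) : Set G) := z'.2
  have hzp := (hpe z e hzpe).1
  have hzo : orderOf z = p := orderOf_eq_prime hzp hz1
  -- no element of order `p` centralizes `S`
  have hSab : ∀ a ∈ (S : Subgroup G), ∀ b ∈ (S : Subgroup G), a * b = b * a := fun a ha b hb => comm_sq (hel S) ha hb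
  have hnoC : ¬ p ∣ Nat.card (CC (S : Subgroup G)) := by
    intro hd
    obtain ⟨y, hy⟩ := exists_prime_orderOf_dvd_card' (G := CC (S : Subgroup G)) p hd
    have hy' : orderOf (y : G) = p := by rw [Subgroup.orderOf_coe]; exact hy
    exact no_cent_of_moved pp hSab S.isPGroup' hpP hp2 hy' hzo y.2 hzN hzC
  have hNp : ¬ p * p ∣ Nat.card (NN (S : Subgroup G)) := by
    intro hd
    rw [hw, mul_assoc] at hd
    have h3 := Nat.dvd_of_mul_dvd_mul_left hpP.pos hd
    rcases (Nat.Prime.dvd_mul hpP).1 h3 with h4 | h4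
    · exact arith_aux hp h4
    · exact hnoC h4
  -- the involution
  obtain ⟨t, htS, hto, htz⟩ := exists_t hp hcard hel S hzN hzp
  have hcz : Nat.card ((S : Subgroup G) ⊓ centralizer ({z} : Set G) : Subgroup G) = 2 := by
    rcases fix_count hp hcard S hzN hzp with h1 | h1
    · exact h1
    · exfalso
      apply hzC
      have h3 : (S : Subgroup G) ⊓ centralizer ({z} : Set G) = (S : Subgroup G) := by
        apply Subgroup.eq_of_le_of_card_ge inf_le_left
        rw [h1]
        exact (hcard S).le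
      rw [mem_centralizer_iff]
      intro a ha
      have h4 : a ∈ (S : Subgroup G) ⊓ centralizer ({z} : Set G) := by rw [h3]; exact ha
      have h5 : a ∈ centralizer ({z} : Set G) := h4.2
      rw [mem_centralizer_singleton_iff] at h5
      exact h5
  -- the centralizer of `z`
  let K : Subgroup G := centralizer ({z} : Set G)
  have htK : t ∈ K := by
    show t ∈ centralizer ({z} : Set G)
    rw [mem_centralizer_singleton_iff]
    exact htz
  let t' : K := ⟨t, htK⟩
  have ht'o : orderOf t' = 2 := by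
    rw [← Subgroup.orderOf_coe]
    exact hto
  have hpgt : IsPGroup 2 (zpowers t') := by
    rw [IsPGroup.iff_card]
    refine ⟨1, ?_⟩
    rw [Nat.card_zpowers, ht'o, pow_one]
  obtain ⟨T2, hT2⟩ := hpgt.exists_le_sylow
  have ht'T : t' ∈ (T2 : Subgroup K) := hT2 (mem_zpowers t')
  have hT2card : Nat.card (T2 : Subgroup K) = 2 := by
    have hmap : IsPGroup 2 ((T2 : Subgroup K).map K.subtype) := T2.isPGroup'.map _
    obtain ⟨S₁, hS₁⟩ := hmap.exists_le_sylow
    have ht1 : t ∈ (S₁ : Subgroup G) := hS₁ ⟨t', ht'T, rfl⟩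
    have hSS : S = S₁ := syl_uniq pp hel hto htS ht1
    have hle : (T2 : Subgroup K).map K.subtype ≤ (S : Subgroup G) ⊓ centralizer ({z} : Set G) := by
      rintro _ ⟨a, ha, rfl⟩
      refine ⟨?_, a.2⟩
      rw [hSS]
      exact hS₁ ⟨a, ha, rfl⟩
    have h3 := Subgroup.card_le_of_le hle
    rw [hcz, Subgroup.card_map_of_injective K.subtype_injective] at h3
    have h4 : 1 < Nat.card (T2 : Subgroup K) := by
      haveI : Nontrivial (T2 : Subgroup K) := ⟨⟨⟨t', ht'T⟩, 1, by
        intro h5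
        have h6 : t' = 1 := congrArg Subtype.val h5
        rw [h6, orderOf_one] at ht'o
        omega⟩⟩
      exact Finite.one_lt_card
    omega
  -- the normal complement
  have hT2pair : ∀ a ∈ (T2 : Subgroup K), ∀ b ∈ (T2 : Subgroup K), a ≠ 1 → b ≠ 1 → a = b := by
    intro a ha b hb ha1 hb1
    obtain ⟨u, _, hu⟩ := (Nat.card_eq_two_iff' (1 : (T2 : Subgroup K))).1 hT2card
    have h1 : (⟨a, ha⟩ : (T2 : Subgroup K)) = u := hu _ (fun e => ha1 (congrArg Subtype.val e))
    have h3 : (⟨b, hb⟩ : (T2 : Subgroup K)) = u := hu _ (fun e => hb1 (congrArg Subtype.val e))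
    exact congrArg Subtype.val (h1.trans h3.symm)
  have hPT : normalizer ((T2 : Subgroup K) : Set K) ≤ centralizer ((T2 : Subgroup K) : Set K) := by
    intro g hg
    rw [mem_centralizer_iff]
    intro a ha
    by_cases ha1 : a = 1
    · rw [ha1]; group
    have h3 : g * a * g⁻¹ ∈ (T2 : Subgroup K) := (mem_normalizer_iff.1 hg a).1 ha
    have h4 : g * a * g⁻¹ ≠ 1 := by
      intro h5
      apply ha1
      have h6 : a = g⁻¹ * (g * a * g⁻¹) * g := by group
      rw [h6, h5]
      group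
    have h5 := hT2pair _ h3 a ha h4 ha1
    calc a * g = g * a * g⁻¹ * g := by rw [h5]
      _ = g * a := by group
  let ψ := MonoidHom.transferSylow T2 hPT
  let O : Subgroup K := ψ.ker
  have hOodd : ¬ 2 ∣ Nat.card O := MonoidHom.not_dvd_card_ker_transferSylow T2 hPT
  have hON : O.Normal := MonoidHom.normal_ker ψ
  have hT2sq : ∀ a : (T2 : Subgroup K), a * a = 1 := by
    intro a
    have h1 : a ^ Nat.card (T2 : Subgroup K) = 1 := pow_card_eq_one'
    rwa [hT2card, pow_two] at h1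
  have hAK : (T2 : Subgroup K) ≤ normalizer (O : Set K) := by
    rw [normalizer_eq_top_iff.2 hON]
    exact le_top
  have hcop : (Nat.card (T2 : Subgroup K)).Coprime (Nat.card O) := by
    rw [hT2card]
    exact (Nat.Prime.coprime_iff_not_dvd Nat.prime_two).2 hOodd
  have hsolv : Group.IsSolvable (T2 : Subgroup K) ∨ Group.IsSolvable O :=
    Or.inl (Group.isSolvable_of_comm (fun a b => comm_sq (S := ⊤) (fun c _ => hT2sq c) trivial trivial))
  obtain ⟨R, hR⟩ := Cfsg.Agent.S0023.result (T2 : Subgroup K) O hAK hcop hsolv p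
  let R1 : Subgroup K := (R : Subgroup O).map O.subtype
  let R2 : Subgroup G := R1.map K.subtype
  have hR2p : IsPGroup p R2 := (R.isPGroup'.map _).map _
  obtain ⟨Q₂, hQ₂⟩ := hR2p.exists_le_sylow
  have hR2ab : ∀ a ∈ R2, ∀ b ∈ R2, a * b = b * a := fun a ha b hb => (hEl Q₂).2 a (hQ₂ ha) b (hQ₂ hb)
  have htn := hR ht'T
  have htR2 : t ∈ normalizer (R2 : Set G) := by
    rw [mem_normalizer_iff]
    intro a
    constructor
    · rintro ⟨x, hx, rfl⟩
      exact ⟨t' * x * t'⁻¹, (mem_normalizer_iff.1 htn x).1 hx, rfl⟩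
    · rintro ⟨x', hx', hxe⟩
      have hxe' : (x' : G) = t * a * t⁻¹ := hxe
      have h3 : t' * (t'⁻¹ * x' * t') * t'⁻¹ ∈ R1 := by
        have : t' * (t'⁻¹ * x' * t') * t'⁻¹ = x' := by group
        rw [this]
        exact hx'
      refine ⟨t'⁻¹ * x' * t', (mem_normalizer_iff.1 htn _).2 h3, ?_⟩
      show t⁻¹ * (x' : G) * t = a
      rw [hxe']
      group
  have htC := inv_centralize pp hp2 R2 hR2p hR2ab hzo hto htz hto htR2
  have hR2N : R2 ≤ NN (S : Subgroup G) := by
    intro a ha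
    exact cent_le_N pp hel hto htS (mem_centralizer_iff.1 htC a ha)
  have hR2c : Nat.card R2 = Nat.card (R : Subgroup O) := by
    show Nat.card (R1.map K.subtype) = _
    rw [Subgroup.card_map_of_injective K.subtype_injective]
    show Nat.card ((R : Subgroup O).map O.subtype) = _
    rw [Subgroup.card_map_of_injective O.subtype_injective]
  have hRle : Nat.card (R : Subgroup O) ≤ p := by
    obtain ⟨a, ha⟩ := (IsPGroup.iff_card (p := p) (G := (R : Subgroup O))).1 R.isPGroup'
    rw [ha]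
    by_contra hcon
    have ha2 : 2 ≤ a := by
      by_contra h3
      have h4 : a ≤ 1 := by omega
      have h5 : p ^ a ≤ p ^ 1 := Nat.pow_le_pow_right hpP.pos h4
      rw [pow_one] at h5
      exact hcon h5
    apply hNp
    have h3 : p * p ∣ p ^ a := by
      rw [← pow_two]
      exact pow_dvd_pow p ha2
    have h4 := Subgroup.card_dvd_of_le hR2N
    rw [hR2c, ha] at h4
    exact h3.trans h4
  -- the Sylow subgroup containing `z`
  obtain ⟨Q₁, hzQ₁⟩ := (hpe z e hzpe).2
  have hQ₁K : (Q₁ : Subgroup G) ≤ K := by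
    intro a ha
    show a ∈ centralizer ({z} : Set G)
    rw [mem_centralizer_singleton_iff]
    exact (hEl Q₁).2 a ha z hzQ₁
  let P₁ : Subgroup K := (Q₁ : Subgroup G).subgroupOf K
  have hP₁c : Nat.card P₁ = Nat.card (Q₁ : Subgroup G) := Nat.card_congr (Subgroup.subgroupOfEquivOfLe hQ₁K).toEquiv
  have hP₁O : P₁ ≤ O := by
    intro x hx
    have hx1 : (x : G) ∈ (Q₁ : Subgroup G) := hx
    have hx2 : x ^ p = 1 := Subtype.ext ((hEl Q₁).1 _ hx1)
    have h3 : ψ x ^ p = 1 := by rw [← map_pow, hx2, map_one]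
    have h4 : ψ x ^ 2 = 1 := by rw [pow_two]; exact hT2sq _
    have h5 : ψ x ^ Nat.gcd p 2 = 1 := pow_gcd_eq_one.2 ⟨h3, h4⟩
    have h6 : Nat.gcd p 2 = 1 := (Nat.coprime_primes hpP Nat.prime_two).2 hp2
    rw [h6, pow_one] at h5
    exact h5
  let P₂ : Subgroup O := P₁.subgroupOf O
  have hP₂c : Nat.card P₂ = Nat.card (Q₁ : Subgroup G) := by
    rw [← hP₁c]
    exact Nat.card_congr (Subgroup.subgroupOfEquivOfLe hP₁O).toEquiv
  obtain ⟨b, hb⟩ := (IsPGroup.iff_card (p := p) (G := (Q₁ : Subgroup G))).1 Q₁.isPGroup'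
  have hP₂p : IsPGroup p P₂ := by
    rw [IsPGroup.iff_card]
    exact ⟨b, by rw [hP₂c, hb]⟩
  obtain ⟨Q₃, hQ₃⟩ := hP₂p.exists_le_sylow
  have hle1 : Nat.card P₂ ≤ Nat.card (Q₃ : Subgroup O) := Subgroup.card_le_of_le hQ₃
  have hsame : Nat.card (Q₃ : Subgroup O) = Nat.card (R : Subgroup O) := by
    rw [Sylow.card_eq_multiplicity, Sylow.card_eq_multiplicity]
  have hQ₁le : Nat.card (Q₁ : Subgroup G) ≤ p := by
    rw [← hP₂c]
    omega
  have hQ₁ge : p ≤ Nat.card (Q₁ : Subgroup G) := by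
    have h3 : orderOf (⟨z, hzQ₁⟩ : (Q₁ : Subgroup G)) = p := by
      rw [← Subgroup.orderOf_coe]
      exact hzo
    have h4 : orderOf (⟨z, hzQ₁⟩ : (Q₁ : Subgroup G)) ∣ Nat.card (Q₁ : Subgroup G) := orderOf_dvd_natCard _
    rw [h3] at h4
    exact Nat.le_of_dvd Nat.card_pos h4
  have hQ₁eq : Nat.card (Q₁ : Subgroup G) = p := le_antisymm hQ₁le hQ₁ge
  have h3 : Nat.card (Q : Subgroup G) = Nat.card (Q₁ : Subgroup G) := by
    rw [Sylow.card_eq_multiplicity, Sylow.card_eq_multiplicity]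
  rw [h3]
  exact hQ₁eq

/-- **`L = ⟨involutions⟩` has order prime to `p`.** -/
theorem main (pp : Pp G) (hcard : ∀ S : Sylow 2 G, Nat.card S = 2 ^ n)
    (hel : ∀ S : Sylow 2 G, ∀ a ∈ (S : Subgroup G), a * a = 1)
    (hp : (n = 3 ∧ p = 3) ∨ (n = 5 ∧ p = 5)) (S : Sylow 2 G)
    (hw : Nat.card (NN (S : Subgroup G)) = (p * (2 ^ n - 1)) * Nat.card (CC (S : Subgroup G))) :
    ¬ p ∣ Nat.card (closure {t : G | orderOf t = 2}) := by
  classical
  have hpP : p.Prime := by
    rcases hp with ⟨_, rfl⟩ | ⟨_, rfl⟩ <;> norm_num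
  haveI hpf : Fact p.Prime := ⟨hpP⟩
  have hp2 : p ≠ 2 := by
    rcases hp with ⟨_, rfl⟩ | ⟨_, rfl⟩ <;> norm_num
  have hp4 : p - 1 ∣ 4 := by
    rcases hp with ⟨_, rfl⟩ | ⟨_, rfl⟩ <;> norm_num
  obtain ⟨y', hy'⟩ := exists_prime_orderOf_dvd_card' (G := NN (S : Subgroup G)) p (by
    rw [hw]
    exact Dvd.dvd.mul_right (dvd_mul_right p _) _)
  have hyo : orderOf (y' : G) = p := by rw [Subgroup.orderOf_coe]; exact hy'
  have hyp : (y' : G) ^ p = 1 := by
    rw [← hyo]
    exact pow_orderOf_eq_one _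
  obtain ⟨t, htS, hto, hty⟩ := exists_t hp hcard hel S y'.2 hyp
  let P : Sylow p G := default
  have hD : ∀ p : ℕ, p.Prime → ∀ H K : Subgroup G, IsPGroup p H → IsPGroup p K → Nat.card H = Nat.card K →
      ∃ g : G, K = H.map (MulAut.conj g).toMonoidHom := fun _ _ H K _ _ hc => pp H K hc
  have hcyc : IsCyclic (P : Subgroup G) := by
    rcases Cfsg.Agent.S4020.result hD P with hc | he | ⟨⟨e⟩⟩
    · exact hc
    · have hEl : ∀ Q : Sylow p G, (∀ a ∈ (Q : Subgroup G), a ^ p = 1) ∧
          ∀ a ∈ (Q : Subgroup G), ∀ b ∈ (Q : Subgroup G), a * b = b * a := by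
        intro Q
        obtain ⟨g, hg⟩ := MulAction.exists_smul_eq G P Q
        have hmem : ∀ a ∈ (Q : Subgroup G), ∃ c ∈ (P : Subgroup G), g * c * g⁻¹ = a := by
          intro a ha
          rw [← hg, Sylow.coe_subgroup_smul] at ha
          obtain ⟨c, hc, hce⟩ := Subgroup.mem_smul_pointwise_iff_exists _ _ _ |>.1 ha
          exact ⟨c, hc, hce⟩
        constructor
        · intro a ha
          obtain ⟨c, hc, rfl⟩ := hmem a ha
          rw [conj_pow, he.2 c hc]
          group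
        · intro a ha b hb
          obtain ⟨c, hc, rfl⟩ := hmem a ha
          obtain ⟨d, hd, rfl⟩ := hmem b hb
          have h1 : c * d = d * c := congrArg Subtype.val (he.1.is_comm.comm ⟨c, hc⟩ ⟨d, hd⟩)
          calc g * c * g⁻¹ * (g * d * g⁻¹) = g * (c * d) * g⁻¹ := by group
            _ = g * (d * c) * g⁻¹ := by rw [h1]
            _ = _ := by group
      exact isCyclic_of_prime_card (card_eq_p pp hp hcard hel hEl S hw P)
    · exfalso
      have h8 : Nat.card (P : Subgroup G) = 8 := by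
        rw [Nat.card_congr e.toEquiv, Nat.card_eq_fintype_card, QuaternionGroup.card]
      obtain ⟨k, hk⟩ := (IsPGroup.iff_card (p := p) (G := (P : Subgroup G))).1 P.isPGroup'
      rw [h8] at hk
      have hk0 : k ≠ 0 := by
        rintro rfl
        norm_num at hk
      have hd : p ∣ 2 ^ 3 := by
        rw [show (2 : ℕ) ^ 3 = 8 by norm_num, hk]
        exact dvd_pow_self p hk0
      exact hp2 ((Nat.prime_dvd_prime_iff_eq hpP Nat.prime_two).1 (hpP.dvd_of_dvd_pow hd))
  have hNC := norm_le_cent_cyc pp hp2 hp4 hel P hcyc hyo hto hty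
  let ψ := MonoidHom.transferSylow P hNC
  have hL : closure {t : G | orderOf t = 2} ≤ ψ.ker := by
    rw [closure_le]
    intro u hu
    have hu2 : u ^ 2 = 1 := by
      have hu' : orderOf u = 2 := hu
      rw [← hu']
      exact pow_orderOf_eq_one u
    have h1 : ψ u ^ 2 = 1 := by rw [← map_pow, hu2, map_one]
    obtain ⟨k, hk⟩ := (IsPGroup.iff_card (p := p) (G := (P : Subgroup G))).1 P.isPGroup'
    have h2 : ψ u ^ Nat.card (P : Subgroup G) = 1 := pow_card_eq_one'
    rw [hk] at h2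
    have h3 : ψ u ^ Nat.gcd 2 (p ^ k) = 1 := pow_gcd_eq_one.2 ⟨h1, h2⟩
    have h4 : Nat.gcd 2 (p ^ k) = 1 := by
      have : Nat.Coprime 2 p := (Nat.coprime_primes Nat.prime_two hpP).2 (Ne.symm hp2)
      exact this.pow_right k
    rw [h4, pow_one] at h3
    exact h3
  intro hd
  exact MonoidHom.not_dvd_card_ker_transferSylow P hNC (hd.trans (Subgroup.card_dvd_of_le hL))

end Cfsg.Agent.Lib.EqOrd.PND
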