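/-
S4021. [Pp] First consequences of `Pp`. See PLAN.md.
-/
import Cfsg.Agent.Lib.EqOrd.Defs

set_option autoImplicit false
set_option linter.style.haveILetI false
set_option linter.unusedSectionVars false

namespace Cfsg.Agent.Lib.EqOrd.PpL

open Subgroup Cfsg.Agent.Lib.EqOrd.Defs

universe u

variable {G : Type u} [Group G] [Finite G]

lemma ht_pow {s : G} (hs : orderOf s = 2) : (1 : G) = s ^ 2 := by
  rw [← hs, pow_orderOf_eq_one]


/-- The product `T Z` of a subgroup `T` and a subgroup `Z` normalizing it. -/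
def prodSub (T Z : Subgroup G) (hZ : Z ≤ normalizer (T : Set G)) : Subgroup G where
  carrier := {g | ∃ t ∈ T, ∃ z ∈ Z, g = t * z}
  mul_mem' := by
    rintro _ _ ⟨t, ht, z, hz, rfl⟩ ⟨t', ht', z', hz', rfl⟩
    refine ⟨t * (z * t' * z⁻¹), T.mul_mem ht ((mem_normalizer_iff.mp (hZ hz) t').1 ht'), z * z',
      Z.mul_mem hz hz', by group⟩
  one_mem' := ⟨1, T.one_mem, 1, Z.one_mem, by simp⟩
  inv_mem' := by
    rintro _ ⟨t, ht, z, hz, rfl⟩
    refine ⟨z⁻¹ * t⁻¹ * z⁻¹⁻¹, (mem_normalizer_iff.mp (hZ (Z.inv_mem hz)) t⁻¹).1 (T.inv_mem ht),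
      z⁻¹, Z.inv_mem hz, by group⟩

lemma card_prodSub {T Z : Subgroup G} (hZ : Z ≤ normalizer (T : Set G)) (hd : T ⊓ Z = ⊥) :
    Nat.card (prodSub T Z hZ) = Nat.card T * Nat.card Z := by
  rw [← Nat.card_prod]
  symm
  apply Nat.card_congr
  refine Equiv.ofBijective (fun p : T × Z => (⟨(p.1 : G) * p.2, p.1, p.1.2, p.2, p.2.2, rfl⟩ : prodSub T Z hZ)) ⟨?_, ?_⟩
  · rintro ⟨⟨t, ht⟩, ⟨z, hz⟩⟩ ⟨⟨t', ht'⟩, ⟨z', hz'⟩⟩ h
    have h1 : t * z = t' * z' := congrArg Subtype.val h
    have h2 : t'⁻¹ * t = z' * z⁻¹ := by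
      calc t'⁻¹ * t = t'⁻¹ * (t * z) * z⁻¹ := by group
        _ = t'⁻¹ * (t' * z') * z⁻¹ := by rw [h1]
        _ = z' * z⁻¹ := by group
    have h3 : t'⁻¹ * t ∈ T ⊓ Z :=
      ⟨T.mul_mem (T.inv_mem ht') ht, by rw [h2]; exact Z.mul_mem hz' (Z.inv_mem hz)⟩
    rw [hd, Subgroup.mem_bot] at h3
    have h4 : t = t' := (inv_mul_eq_one.mp h3).symm
    subst h4
    have h5 : z = z' := mul_left_cancel h1
    subst h5
    rfl
  · rintro ⟨_, t, ht, z, hz, rfl⟩
    exact ⟨(⟨t, ht⟩, ⟨z, hz⟩), rfl⟩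

lemma zpowers_comm' (x : G) {a b : G} (ha : a ∈ zpowers x) (hb : b ∈ zpowers x) : a * b = b * a := by
  obtain ⟨i, rfl⟩ := ha
  obtain ⟨j, rfl⟩ := hb
  exact (zpow_mul_comm x i j)

/-- `Pp` passes to quotients (preimages have equal order, conjugating element maps down). -/
theorem quot (h : Pp G) (N : Subgroup G) [N.Normal] : Pp (G ⧸ N) := by
  intro H K hc
  let f := QuotientGroup.mk' N
  have hf : Function.Surjective f := QuotientGroup.mk'_surjective N
  have hi : (H.comap f).index = (K.comap f).index := by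
    rw [Subgroup.index_comap_of_surjective _ hf, Subgroup.index_comap_of_surjective _ hf]
    have h1 := Subgroup.card_mul_index H
    have h2 := Subgroup.card_mul_index K
    rw [hc, ← h2] at h1
    exact Nat.eq_of_mul_eq_mul_left (Nat.card_pos (α := K)) h1
  have hcard : Nat.card (H.comap f) = Nat.card (K.comap f) := by
    have h1 := Subgroup.card_mul_index (H.comap f)
    have h2 := Subgroup.card_mul_index (K.comap f)
    rw [hi, ← h2] at h1
    have hpos : 0 < (K.comap f).index := Nat.pos_of_ne_zero (Subgroup.index_ne_zero_of_finite)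
    exact Nat.eq_of_mul_eq_mul_right hpos h1
  obtain ⟨g, hg⟩ := h _ _ hcard
  refine ⟨f g, ?_⟩
  ext y
  obtain ⟨x, rfl⟩ := hf y
  constructor
  · intro hx
    have h1 : x ∈ K.comap f := hx
    rw [hg] at h1
    obtain ⟨w, hw, hwx⟩ := h1
    refine ⟨f w, hw, ?_⟩
    rw [← hwx]
    simp [map_mul]
  · rintro ⟨w, hw, hwx⟩
    obtain ⟨w', rfl⟩ := hf w
    have h1 : w' ∈ H.comap f := hw
    have h2 : MulAut.conj g w' ∈ K.comap f := by
      rw [hg]
      exact ⟨w', h1, rfl⟩
    have h3 : f (MulAut.conj g w') ∈ K := h2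
    have h4 : f (MulAut.conj g w') = f x := by
      rw [← hwx]
      simp [map_mul]
    rwa [h4] at h3

/-- `Pp` restricted to `p`-subgroups (hypothesis of S4020, S4025). -/
theorem pgroups (h : Pp G) (p : ℕ) (H K : Subgroup G) (_ : IsPGroup p H) (_ : IsPGroup p K)
    (hc : Nat.card H = Nat.card K) : ∃ g : G, K = H.map (MulAut.conj g).toMonoidHom :=
  h H K hc

/-- Two subgroups of equal order, one abelian, the other not: impossible. -/
theorem not_comm_both (h : Pp G) {A B : Subgroup G} (hc : Nat.card A = Nat.card B)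
    (hA : ∀ a ∈ A, ∀ b ∈ A, a * b = b * a) {x y : G} (hx : x ∈ B) (hy : y ∈ B) (hxy : x * y ≠ y * x) :
    False := by
  obtain ⟨g, rfl⟩ := h A B hc
  obtain ⟨a, ha, rfl⟩ := hx
  obtain ⟨b, hb, rfl⟩ := hy
  apply hxy
  have := hA a ha b hb
  simp only [MonoidHom.coe_coe, MulEquiv.coe_toMonoidHom, ← map_mul] at *
  rw [this]

/-- No odd prime `q` has both `C_{2q}` and `D_{2q}`. (`A = zpowers (x * t)`, `B = zpowers y ⊔ zpowers s`,
both of order `2q`.) -/
theorem coinv (h : Pp G) (q : ℕ) (hq : q.Prime) (hq2 : q ≠ 2) (x y t s : G) (hx : orderOf x = q)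
    (hy : orderOf y = q) (ht : orderOf t = 2) (hs : orderOf s = 2) (htx : t * x = x * t)
    (hsy : s * y * s⁻¹ = y⁻¹) : False := by
  have hs2 : s * s = 1 := by
    rw [← pow_two, ← ht_pow hs]
  have hsi : s⁻¹ = s := inv_eq_of_mul_eq_one_left hs2
  have hconj : ∀ a ∈ zpowers y, s * a * s⁻¹ ∈ zpowers y := by
    rintro _ ⟨k, rfl⟩
    refine ⟨-k, ?_⟩
    have h1 : s * y ^ k * s⁻¹ = (s * y * s⁻¹) ^ k := (conj_zpow).symm
    simp only [h1, hsy, inv_zpow', zpow_neg]
  have hsn : s ∈ normalizer ((zpowers y : Subgroup G) : Set G) := by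
    rw [mem_normalizer_iff]
    intro a
    constructor
    · exact hconj a
    · intro ha
      have h1 := hconj _ ha
      have h2 : s * (s * a * s⁻¹) * s⁻¹ = a := by
        rw [hsi]
        calc s * (s * a * s) * s = (s * s) * a * (s * s) := by group
          _ = a := by rw [hs2]; group
      rwa [h2] at h1
  have hZ : zpowers s ≤ normalizer ((zpowers y : Subgroup G) : Set G) := by
    rw [Subgroup.zpowers_le]
    exact hsn
  have hodd : Nat.Coprime q 2 := (Nat.coprime_primes hq Nat.prime_two).2 hq2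
  have hd : zpowers y ⊓ zpowers s = ⊥ := by
    apply Subgroup.inf_eq_bot_of_coprime
    rw [Nat.card_zpowers, Nat.card_zpowers, hy, hs]
    exact hodd
  have hc : Nat.card (zpowers (x * t)) = Nat.card (prodSub (zpowers y) (zpowers s) hZ) := by
    rw [card_prodSub hZ hd, Nat.card_zpowers, Nat.card_zpowers, Nat.card_zpowers, hy, hs]
    have hcomm : Commute x t := htx.symm
    rw [hcomm.orderOf_mul_eq_mul_orderOf_of_coprime (by rw [hx, ht]; exact hodd), hx, ht]
  refine not_comm_both h hc (fun a ha b hb => zpowers_comm' _ ha hb)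
    (x := y) (y := s) ⟨y, mem_zpowers y, 1, Subgroup.one_mem _, by simp⟩
    ⟨1, Subgroup.one_mem _, s, mem_zpowers s, by simp⟩ ?_
  intro hcomm
  have h1 : s * y * s⁻¹ = y := by
    rw [← hcomm]
    group
  rw [hsy] at h1
  have h2 : y ^ 2 = 1 := by
    rw [pow_two]
    nth_rewrite 1 [← h1]
    exact inv_mul_cancel y
  have h3 : q ∣ 2 := by
    rw [← hy]
    exact orderOf_dvd_of_pow_eq_one h2
  exact hq2 ((Nat.prime_dvd_prime_iff_eq hq Nat.prime_two).1 h3)

/-- Involutions in a centralizer of an involution commute, when the Sylow `2`-subgroups are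
elementary abelian: `w = u * v`; an odd prime `q ∣ orderOf w` gives `y = w ^ k` of order `q` in `C(t)`
inverted by `u`: contradiction with `coinv`. So `w` is a `2`-element, `⟨u, v⟩ = ⟨w⟩⟨u⟩` is a `2`-group,
lies in a Sylow subgroup, elementary abelian. -/
theorem inv_comm (h : Pp G) (hel : ∀ S : Sylow 2 G, ∀ a ∈ (S : Subgroup G), a * a = 1) (t u v : G)
    (ht : orderOf t = 2) (hu : orderOf u = 2) (hv : orderOf v = 2) (hut : u * t = t * u)
    (hvt : v * t = t * v) : u * v = v * u := by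
  have hu2 : u * u = 1 := by rw [← pow_two, ← ht_pow hu]
  have hv2 : v * v = 1 := by rw [← pow_two, ← ht_pow hv]
  have hui : u⁻¹ = u := inv_eq_of_mul_eq_one_left hu2
  have hvi : v⁻¹ = v := inv_eq_of_mul_eq_one_left hv2
  set w := u * v with hw
  have hwinv : u * w * u⁻¹ = w⁻¹ := by
    rw [hw, hui, mul_inv_rev, hui, hvi]
    calc u * (u * v) * u = (u * u) * v * u := by group
      _ = v * u := by rw [hu2, one_mul]
  have hwt : w * t = t * w := by
    rw [hw, mul_assoc, hvt, ← mul_assoc, hut, mul_assoc]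
  have hord : orderOf w ≠ 0 := (orderOf_pos w).ne'
  have hprime : ∀ {d : ℕ}, d.Prime → d ∣ orderOf w → d = 2 := by
    intro d hd hdvd
    by_contra hd2
    set y := w ^ (orderOf w / d) with hy
    have hyo : orderOf y = d := orderOf_pow_orderOf_div hord hdvd
    refine coinv h d hd hd2 y y t u hyo hyo ht hu ?_ ?_
    · have : Commute t w := hwt.symm
      exact ((this.pow_right _)).eq
    · have h1 : u * y * u⁻¹ = (u * w * u⁻¹) ^ (orderOf w / d) := (conj_pow).symm
      rw [h1, hwinv, hy, inv_pow]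
  have hpow : orderOf w = 2 ^ (orderOf w).primeFactorsList.length :=
    Nat.eq_prime_pow_of_unique_prime_dvd hord hprime
  haveI : Fact (Nat.Prime 2) := ⟨Nat.prime_two⟩
  have hP1 : IsPGroup 2 (zpowers w) := by
    apply IsPGroup.of_card (n := (orderOf w).primeFactorsList.length)
    rw [Nat.card_zpowers]
    exact hpow
  have hP2 : IsPGroup 2 (zpowers u) := by
    apply IsPGroup.of_card (n := 1)
    rw [Nat.card_zpowers, hu, pow_one]
  have hun : u ∈ normalizer ((zpowers w : Subgroup G) : Set G) := by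
    have hconj : ∀ a ∈ zpowers w, u * a * u⁻¹ ∈ zpowers w := by
      rintro _ ⟨k, rfl⟩
      refine ⟨-k, ?_⟩
      have h1 : u * w ^ k * u⁻¹ = (u * w * u⁻¹) ^ k := (conj_zpow).symm
      simp only [h1, hwinv, inv_zpow', zpow_neg]
    rw [mem_normalizer_iff]
    intro a
    constructor
    · exact hconj a
    · intro ha
      have h1 := hconj _ ha
      have h2 : u * (u * a * u⁻¹) * u⁻¹ = a := by
        rw [hui]
        calc u * (u * a * u) * u = (u * u) * a * (u * u) := by group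
          _ = a := by rw [hu2]; group
      rwa [h2] at h1
  have hZ : zpowers u ≤ normalizer ((zpowers w : Subgroup G) : Set G) := by
    rw [Subgroup.zpowers_le]
    exact hun
  have hP : IsPGroup 2 ((zpowers w ⊔ zpowers u : Subgroup G) : Subgroup G) :=
    IsPGroup.to_sup_of_normal_left' hP1 hP2 hZ
  obtain ⟨Q, hQ⟩ := hP.exists_le_sylow
  have huQ : u ∈ (Q : Subgroup G) := hQ (Subgroup.mem_sup_right (mem_zpowers u))
  have hwQ : w ∈ (Q : Subgroup G) := hQ (Subgroup.mem_sup_left (mem_zpowers w))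
  have hww := hel Q w hwQ
  calc u * v = (u * v)⁻¹ := (eq_inv_of_mul_eq_one_left hww)
    _ = v * u := by rw [mul_inv_rev, hui, hvi]

/-- If `y ∈ C(T)` has odd prime order `p` and `z` of order `p` normalizes `T` without centralizing it,
then `T × ⟨y⟩` and `T ⋊ ⟨z⟩` are subgroups of equal order, one abelian: impossible. -/
theorem no_cent_of_moved (h : Pp G) {T : Subgroup G} (hT : ∀ a ∈ T, ∀ b ∈ T, a * b = b * a)
    (hT2 : IsPGroup 2 T) {p : ℕ} (hp : p.Prime) (hp2 : p ≠ 2) {y z : G}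
    (hy : orderOf y = p) (hz : orderOf z = p) (hyT : y ∈ centralizer (T : Set G))
    (hzT : z ∈ normalizer (T : Set G)) (hzm : z ∉ centralizer (T : Set G)) : False := by
  have hcn : ∀ c ∈ centralizer (T : Set G), c ∈ normalizer (T : Set G) := by
    intro c hc
    rw [mem_normalizer_iff]
    intro a
    have hca : c * a * c⁻¹ = a ∨ a ∉ T := by
      by_cases ha : a ∈ T
      · left
        have h1 := (mem_centralizer_iff.mp hc) a ha
        rw [← h1]
        group
      · exact Or.inr ha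
    constructor
    · intro ha
      rcases hca with h1 | h1
      · rw [h1]; exact ha
      · exact absurd ha h1
    · intro ha
      have h1 : c * a * c⁻¹ * c = c * (c * a * c⁻¹) := (mem_centralizer_iff.mp hc) _ ha
      have h2 : a = c * a * c⁻¹ := by
        have h3 : c * a * c⁻¹ * c = c * a := by group
        rw [h3] at h1
        exact mul_left_cancel h1
      rw [h2]
      exact ha
  have hyN : zpowers y ≤ normalizer (T : Set G) := by
    rw [Subgroup.zpowers_le]
    exact hcn y hyT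
  have hzN : zpowers z ≤ normalizer (T : Set G) := by
    rw [Subgroup.zpowers_le]
    exact hzT
  haveI : Fact (Nat.Prime 2) := ⟨Nat.prime_two⟩
  haveI : Fact p.Prime := ⟨hp⟩
  have hPy : IsPGroup p (zpowers y) := by
    apply IsPGroup.of_card (n := 1)
    rw [Nat.card_zpowers, hy, pow_one]
  have hPz : IsPGroup p (zpowers z) := by
    apply IsPGroup.of_card (n := 1)
    rw [Nat.card_zpowers, hz, pow_one]
  have hdy : T ⊓ zpowers y = ⊥ :=
    Subgroup.inf_eq_bot_of_coprime (IsPGroup.coprime_card_of_ne 2 p (Ne.symm hp2) _ _ hT2 hPy)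
  have hdz : T ⊓ zpowers z = ⊥ :=
    Subgroup.inf_eq_bot_of_coprime (IsPGroup.coprime_card_of_ne 2 p (Ne.symm hp2) _ _ hT2 hPz)
  have hc : Nat.card (prodSub T (zpowers y) hyN) = Nat.card (prodSub T (zpowers z) hzN) := by
    rw [card_prodSub hyN hdy, card_prodSub hzN hdz, Nat.card_zpowers, Nat.card_zpowers, hy, hz]
  have hnc : ∃ a ∈ T, a * z ≠ z * a := by
    by_contra hall
    apply hzm
    rw [mem_centralizer_iff]
    intro a ha
    by_contra hne
    exact hall ⟨a, ha, hne⟩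
  obtain ⟨a, ha, hne⟩ := hnc
  refine not_comm_both h hc ?_ (x := a) (y := z) ⟨a, ha, 1, Subgroup.one_mem _, by simp⟩
    ⟨1, T.one_mem, z, mem_zpowers z, by simp⟩ hne
  rintro _ ⟨a₁, ha₁, c₁, hc₁, rfl⟩ _ ⟨a₂, ha₂, c₂, hc₂, rfl⟩
  have hC : zpowers y ≤ centralizer (T : Set G) := by
    rw [Subgroup.zpowers_le]
    exact hyT
  have h1 : a₂ * c₁ = c₁ * a₂ := (mem_centralizer_iff.mp (hC hc₁)) a₂ ha₂
  have h2 : a₁ * c₂ = c₂ * a₁ := (mem_centralizer_iff.mp (hC hc₂)) a₁ ha₁
  have h3 : a₁ * a₂ = a₂ * a₁ := hT a₁ ha₁ a₂ ha₂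
  have h4 : c₁ * c₂ = c₂ * c₁ := zpowers_comm' y hc₁ hc₂
  calc a₁ * c₁ * (a₂ * c₂) = a₁ * (c₁ * a₂) * c₂ := by group
    _ = a₁ * (a₂ * c₁) * c₂ := by rw [h1]
    _ = (a₁ * a₂) * (c₁ * c₂) := by group
    _ = (a₂ * a₁) * (c₂ * c₁) := by rw [h3, h4]
    _ = a₂ * (a₁ * c₂) * c₁ := by group
    _ = a₂ * (c₂ * a₁) * c₁ := by rw [h2]
    _ = a₂ * c₂ * (a₁ * c₁) := by group

end Cfsg.Agent.Lib.EqOrd.PpL
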