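/-
S4021, CD.exists_rho: an odd group with a proper normal subgroup has a quotient of prime order over it.
-/
import Mathlib

set_option autoImplicit false
set_option linter.style.haveILetI false

namespace Cfsg.Agent.Lib.EqOrd.RhoAux

open Subgroup

theorem simple_quot {A : Type*} [CommGroup A] (M : Subgroup A) (hM : IsCoatom M) :
    IsSimpleGroup (A ⧸ M) := by
  haveI : Nontrivial (A ⧸ M) := by
    have h1 : M ≠ ⊤ := hM.1
    obtain ⟨x, hx⟩ : ∃ x, x ∉ M := by
      by_contra hcon
      push_neg at hcon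
      exact h1 (eq_top_iff.2 fun x _ => hcon x)
    refine nontrivial_of_ne (x : A ⧸ M) 1 ?_
    intro e
    exact hx ((QuotientGroup.eq_one_iff x).1 e)
  refine { eq_bot_or_eq_top_of_normal := ?_ }
  intro N _
  have hle : M ≤ N.comap (QuotientGroup.mk' M) := by
    intro x hx
    rw [mem_comap]
    have : (QuotientGroup.mk' M) x = 1 := (QuotientGroup.eq_one_iff x).2 hx
    rw [this]
    exact N.one_mem
  rcases eq_or_ne (N.comap (QuotientGroup.mk' M)) ⊤ with h | h
  · right
    rw [eq_top_iff]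
    intro y _
    obtain ⟨x, rfl⟩ := QuotientGroup.mk'_surjective M y
    have : x ∈ N.comap (QuotientGroup.mk' M) := by rw [h]; exact mem_top x
    exact this
  · left
    have h2 : N.comap (QuotientGroup.mk' M) = M := by
      by_contra hne
      have hlt : M < N.comap (QuotientGroup.mk' M) := lt_of_le_of_ne hle (Ne.symm hne)
      exact h (hM.2 _ hlt)
    rw [eq_bot_iff]
    intro y hy
    obtain ⟨x, rfl⟩ := QuotientGroup.mk'_surjective M y
    have : x ∈ N.comap (QuotientGroup.mk' M) := hy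
    rw [h2] at this
    exact (QuotientGroup.eq_one_iff x).2 this

theorem exists_prime_quot {D : Type*} [Group D] [Finite D] (K : Subgroup D) [K.Normal]
    (hsolv : Group.IsSolvable (D ⧸ K)) (hne : K ≠ ⊤) :
    ∃ (q : ℕ) (_ : q.Prime) (ρ : D →* Multiplicative (ZMod q)),
      Function.Surjective ρ ∧ ∀ k ∈ K, ρ k = 1 := by
  classical
  let Q := D ⧸ K
  haveI hsolv' : Group.IsSolvable Q := hsolv
  haveI hQnt : Nontrivial Q := by
    obtain ⟨x, hx⟩ : ∃ x, x ∉ K := by
      by_contra hcon
      push_neg at hcon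
      exact hne (eq_top_iff.2 fun x _ => hcon x)
    refine nontrivial_of_ne (x : D ⧸ K) 1 ?_
    intro e
    exact hx ((QuotientGroup.eq_one_iff x).1 e)
  have hcomm : commutator Q < ⊤ := IsSolvable.commutator_lt_top_of_nontrivial Q
  haveI hA : Nontrivial (Abelianization Q) := by
    obtain ⟨x, hx⟩ : ∃ x, x ∉ commutator Q := by
      by_contra hcon
      push_neg at hcon
      exact hcomm.ne (eq_top_iff.2 fun x _ => hcon x)
    refine nontrivial_of_ne (Abelianization.of x) 1 ?_
    intro e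
    exact hx ((QuotientGroup.eq_one_iff x).1 e)
  obtain ⟨M, hM, -⟩ : ∃ M : Subgroup (Abelianization Q), IsCoatom M ∧ (⊥ : Subgroup _) ≤ M := by
    rcases eq_top_or_exists_le_coatom (⊥ : Subgroup (Abelianization Q)) with h | ⟨M, hM, hle⟩
    · exact absurd h bot_ne_top
    · exact ⟨M, hM, hle⟩
  haveI hsimple : IsSimpleGroup (Abelianization Q ⧸ M) := simple_quot M hM
  have hprime : (Nat.card (Abelianization Q ⧸ M)).Prime := IsSimpleGroup.prime_card
  haveI : Fact (Nat.card (Abelianization Q ⧸ M)).Prime := ⟨hprime⟩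
  have hcyc : IsCyclic (Abelianization Q ⧸ M) := isCyclic_of_prime_card rfl
  let e := zmodCyclicMulEquiv hcyc
  let f : D →* (Abelianization Q ⧸ M) :=
    (QuotientGroup.mk' M).comp ((Abelianization.of).comp (QuotientGroup.mk' K))
  have hf : Function.Surjective f := by
    intro y
    obtain ⟨a, rfl⟩ := QuotientGroup.mk'_surjective M y
    obtain ⟨b, rfl⟩ : ∃ b : Q, Abelianization.of b = a := QuotientGroup.mk'_surjective _ a
    obtain ⟨c, rfl⟩ := QuotientGroup.mk'_surjective K b
    exact ⟨c, rfl⟩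
  refine ⟨_, hprime, e.symm.toMonoidHom.comp f, ?_, ?_⟩
  · exact e.symm.surjective.comp hf
  · intro k hk
    have h1 : (QuotientGroup.mk' K) k = 1 := (QuotientGroup.eq_one_iff k).2 hk
    simp [f, h1]

theorem exists_rho_of_solv {Y : Type*} [Group Y] {D K : Subgroup Y} [Finite D]
    (hnK : (K.subgroupOf D).Normal)
    (hsol : Group.IsSolvable (D ⧸ K.subgroupOf D)) (hne : ¬ D ≤ K) :
    ∃ (q : ℕ) (_ : q.Prime) (B : Type) (_ : CommGroup B) (_ : Finite B), Nontrivial B ∧ IsPGroup q B ∧
      ∃ ρ : D →* B, Function.Surjective ρ ∧ ∀ k : D, (k : Y) ∈ K → ρ k = 1 := by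
  have hne' : K.subgroupOf D ≠ ⊤ := fun e => hne (Subgroup.subgroupOf_eq_top.1 e)
  obtain ⟨q, hq, ρ, hs, hk⟩ := exists_prime_quot (K.subgroupOf D) hsol hne'
  haveI : Fact q.Prime := ⟨hq⟩
  refine ⟨q, hq, Multiplicative (ZMod q), inferInstance, inferInstance, inferInstance, ?_, ρ, hs,
    fun k hk' => hk k (mem_subgroupOf.2 hk')⟩
  refine IsPGroup.of_card (n := 1) ?_
  rw [pow_one, Nat.card_congr (Multiplicative.ofAdd (α := ZMod q)).symm, Nat.card_zmod]

end Cfsg.Agent.Lib.EqOrd.RhoAux
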